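import Mathlib
import Cfsg.Prelude.Def_Local
import Cfsg.Prelude.Def_Transfer

/-!
# Local fusion and pairs of elements of order `p`

The hypotheses of Glauberman's characterisation of the Suzuki groups, without the exceptional
condition, and the subgroup `Ω₁(Z(P))`.
-/

set_option autoImplicit false

namespace CfsgLib.SzPairs46

open Cfsg

universe u

variable {G : Type u} [Group G] {p : ℕ}

/-- The normalizer of `P` controls fusion of elements, centralizers of elements of order `p` are
`p`-nilpotent and pairs of elements of order `p` generate `p`-solvable subgroups. -/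
structure Hyp (P : Sylow p G) : Prop where
  ctrl : ∀ x ∈ (P : Subgroup G), ∀ y ∈ (P : Subgroup G), (∃ g : G, g * x * g⁻¹ = y) →
    ∃ n ∈ Subgroup.normalizer ((P : Subgroup G) : Set G), n * x * n⁻¹ = y
  nilp : ∀ x ∈ (P : Subgroup G), orderOf x = p →
    Cfsg.HasNormalPComplement p ↥(Subgroup.centralizer ({x} : Set G))
  pair : ∀ x y : G, orderOf x = p → orderOf y = p →
    Cfsg.IsPSolvable p ↥(Subgroup.closure ({x, y} : Set G))

/-- `Ω₁(Z(P))`. -/
def zOne (P : Sylow p G) : Subgroup G where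
  carrier := {z | z ∈ (P : Subgroup G) ∧ z ^ p = 1 ∧
    ∀ y ∈ (P : Subgroup G), y * z = z * y}
  one_mem' := ⟨one_mem _, one_pow p, fun y _ => by simp⟩
  mul_mem' := by
    rintro a b ⟨ha, ha', hac⟩ ⟨hb, hb', hbc⟩
    have hab : Commute a b := hbc a ha
    refine ⟨mul_mem ha hb, by rw [hab.mul_pow, ha', hb', mul_one], fun y hy => ?_⟩
    rw [← mul_assoc, hac y hy, mul_assoc, hbc y hy, mul_assoc]
  inv_mem' := by
    rintro a ⟨ha, ha', hac⟩
    exact ⟨inv_mem ha, by rw [inv_pow, ha', inv_one],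
      fun y hy => (Commute.inv_right (hac y hy)).eq⟩

theorem mem_zOne {P : Sylow p G} {z : G} : z ∈ zOne P ↔ z ∈ (P : Subgroup G) ∧ z ^ p = 1 ∧
    ∀ y ∈ (P : Subgroup G), y * z = z * y := Iff.rfl

theorem zOne_le (P : Sylow p G) : zOne P ≤ (P : Subgroup G) := fun _ h => h.1

/-- The normalizer of `P` normalizes `Ω₁(Z(P))`. -/
theorem conj_mem_zOne {P : Sylow p G} {n z : G}
    (hn : n ∈ Subgroup.normalizer ((P : Subgroup G) : Set G)) (hz : z ∈ zOne P) :
    n * z * n⁻¹ ∈ zOne P := by
  have hP := Subgroup.mem_normalizer_iff.1 hn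
  refine ⟨(hP z).1 hz.1, by rw [conj_pow, hz.2.1, mul_one, mul_inv_cancel], fun y hy => ?_⟩
  have hy' : n⁻¹ * y * n ∈ (P : Subgroup G) := (hP _).2 (by simpa [mul_assoc] using hy)
  have h := congrArg (fun t => n * t * n⁻¹) (hz.2.2 _ hy')
  simpa [mul_assoc] using h

end CfsgLib.SzPairs46
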