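import Cfsg.Agent.SzPairs46.Pair
import Cfsg.Agent.TwoGenSolv82.PureBlock
import Cfsg.Agent.Blocks.Orth.Schur
import Cfsg.Agent.Blocks.Orth.Blocks
import Cfsg.Agent.Blocks.Orth.Sums
import Cfsg.Agent.ConjFunctor.CyclicPairs.Family

/-!
# Normalised columns of the principal block

Products of normalised columns, their values on `p`-sections and the pairing with the column of a
non-identity element of `P`.
-/

set_option autoImplicit false

namespace CfsgLib.SzPairs46

open Cfsg CfsgLib CfsgLib.Blocks

universe u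

variable {G : Type u} [Group G] [Fintype G] {p : ℕ} [hp : Fact p.Prime] {P : Sylow p G}
  {M : Ideal AlgInt}

/-- The principal block as a finite set. -/
noncomputable def pblk (M : Ideal AlgInt) (G : Type u) [Group G] [Fintype G] :
    Finset (IrrCharacter G) :=
  (principalBlock M G).toFinite.toFinset

theorem mem_pblk {χ : IrrCharacter G} : χ ∈ pblk M G ↔ χ ∈ principalBlock M G :=
  Set.Finite.mem_toFinset _

/-- The normalised column of `a` on the principal block. -/
noncomputable def col (M : Ideal AlgInt) (a : G) : ↥(pblk M G) → ℂ := fun χ =>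
  ((χ : IrrCharacter G) : G → ℂ) a / ((χ : IrrCharacter G) : G → ℂ) 1

omit hp in
theorem col_congr {a b : G} (h : IsConj a b) : col M a = col M b := by
  obtain ⟨c, rfl⟩ := isConj_iff.1 h
  funext χ
  rw [col, col, Chars.isClassFunction_coe (χ : IrrCharacter G) a c]

omit hp in
theorem col_mul (a b : G) : col M a * col M b =
    (Nat.card G : ℂ)⁻¹ • ∑ g : G, col M (g * a * g⁻¹ * b) := by
  funext χ
  have hne := irrCharacter_one_ne_zero (χ : IrrCharacter G)
  have hcard : (Nat.card G : ℂ) ≠ 0 := by exact_mod_cast Nat.card_pos.ne'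
  simp only [Pi.mul_apply, Pi.smul_apply, Finset.sum_apply, col, smul_eq_mul]
  rw [← Finset.sum_div, sum_irrCharacter_conj_mul (χ : IrrCharacter G) b a]
  field_simp

omit hp in
/-- A product of two columns lies in any subspace containing all columns of products. -/
theorem col_mul_mem {V : Submodule ℂ (↥(pblk M G) → ℂ)} {a b : G}
    (h : ∀ x : G, IsConj a x → col M (x * b) ∈ V) : col M a * col M b ∈ V := by
  rw [col_mul]
  exact Submodule.smul_mem _ _ (Submodule.sum_mem _ fun g _ => h _ (isConj_iff.2 ⟨g, rfl⟩))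

/-- The principal block is constant on the sections of the non-identity elements of `P`. -/
theorem Hyp.col_eq_of_isPPart (h : Hyp P) (hM : IsPModular p M) {a v z : G} (hv : IsPPart p a v)
    (hvz : IsConj v z) (hz : z ∈ (P : Subgroup G)) (hz1 : z ≠ 1) : col M a = col M z := by
  obtain ⟨c, rfl⟩ := isConj_iff.1 hvz
  obtain ⟨u, hu, hcu, ⟨k, hk⟩, hur⟩ := id (isPPart_conj hv c)
  have hreg : ¬ p ∣ orderOf u := hur
  have hmem := h.mem_centralizerPPrimeCore hz hz1
    (Subgroup.mem_centralizer_singleton_iff.2 hcu.symm.eq) hreg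
  rw [col_congr (isConj_iff.2 ⟨c, rfl⟩ : IsConj a (c * a * c⁻¹)), ← hu]
  funext χ
  rw [col, col, TwoGenSolv82.apply_mul_eq_of_mem_centralizerPPrimeCore hM ⟨k, hk⟩ hmem
    (mem_pblk.1 χ.2)]

/-- The pairing with the column of `s`. -/
noncomputable def lin (M : Ideal AlgInt) (s : G) : (↥(pblk M G) → ℂ) →ₗ[ℂ] ℂ where
  toFun F := ∑ χ : ↥(pblk M G),
    ((χ : IrrCharacter G) : G → ℂ) 1 * ((χ : IrrCharacter G) : G → ℂ) s⁻¹ * F χ
  map_add' F H := by simp only [Pi.add_apply, mul_add, Finset.sum_add_distrib]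
  map_smul' c F := by
    simp only [Pi.smul_apply, smul_eq_mul, RingHom.id_apply, Finset.mul_sum]
    exact Finset.sum_congr rfl fun χ _ => by ring

omit hp in
theorem lin_col (s a : G) :
    lin M s (col M a) = ∑ χ ∈ pblk M G, (χ : G → ℂ) a * (χ : G → ℂ) s⁻¹ := by
  rw [← Finset.sum_coe_sort (pblk M G)]
  refine Finset.sum_congr rfl fun χ _ => ?_
  simp only [col]
  field_simp [irrCharacter_one_ne_zero (χ : IrrCharacter G)]

/-- Columns of distinct classes of `p`-elements are orthogonal. -/
theorem lin_col_eq_zero (hM : IsPModular p M) {s a : G} (hs : ∃ k, orderOf s = p ^ k)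
    (ha : ∃ k, orderOf a = p ^ k) (hne : ¬ IsConj s a) : lin M s (col M a) = 0 := by
  rw [lin_col]
  exact sum_mul_inv_eq_zero_of_pPart hM
    (isIntegralSet_block hM isPBlock_principalBlock)
    ⟨1, mul_one _, Commute.one_right _, ha, by simpa using hM.1.ne_one⟩
    ⟨1, mul_one _, Commute.one_right _, hs, by simpa using hM.1.ne_one⟩ hne

/-- Regular columns are orthogonal to singular ones. -/
theorem lin_col_eq_zero_of_regular (hM : IsPModular p M) {s a : G} (ha : ¬ p ∣ orderOf a)
    (hs : p ∣ orderOf s) : lin M s (col M a) = 0 := by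
  rw [lin_col]
  exact sum_mul_inv_eq_zero_of_regular_of_singular hM
    (isIntegralSet_block hM isPBlock_principalBlock) ha hs

/-- A subspace orthogonal to the column of `s` and stable under multiplication by the column of
some `w ≠ 1` consists of functions vanishing at the trivial character. -/
theorem apply_one_eq_zero [IsSimpleGroup G] (hM : IsPModular p M) {w s : G} (hw1 : w ≠ 1)
    {V : Submodule ℂ (↥(pblk M G) → ℂ)} (hmul : ∀ F ∈ V, col M w * F ∈ V)
    (hlin : ∀ F ∈ V, lin M s F = 0) {F : ↥(pblk M G) → ℂ} (hF : F ∈ V)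
    (hone : Chars.oneChar G ∈ pblk M G) : F ⟨Chars.oneChar G, hone⟩ = 0 := by
  classical
  set one : ↥(pblk M G) := ⟨Chars.oneChar G, hone⟩ with hone'
  have hpoly : ∀ T : Finset ℂ, (fun χ => F χ * ∏ c ∈ T, (col M w χ - c)) ∈ V := by
    intro T
    induction T using Finset.induction_on with
    | empty => simpa using hF
    | insert c T hcT ih =>
      have h := sub_mem (hmul _ ih) (Submodule.smul_mem V c ih)
      refine (congrArg (· ∈ V) (funext fun χ => ?_)).mp h
      simp only [Pi.sub_apply, Pi.mul_apply, Pi.smul_apply, smul_eq_mul, Finset.prod_insert hcT]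
      ring
  set T := (Finset.univ.filter fun χ : ↥(pblk M G) => χ ≠ one).image (col M w) with hT
  have hone1 : col M w one = 1 := by simp [col, hone', Chars.oneChar_apply]
  have hnT : (1 : ℂ) ∉ T := by
    rw [hT, Finset.mem_image]
    rintro ⟨χ, hχ, he⟩
    refine ConjFunctor.CyclicPairs.apply_ne_map_one
      (fun e => (Finset.mem_filter.1 hχ).2 (Subtype.ext e)) hw1 ?_
    rwa [col, div_eq_one_iff_eq (irrCharacter_one_ne_zero _)] at he
  have h := hlin _ (hpoly T)
  change ∑ χ : ↥(pblk M G), ((χ : IrrCharacter G) : G → ℂ) 1 *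
    ((χ : IrrCharacter G) : G → ℂ) s⁻¹ * (F χ * ∏ c ∈ T, (col M w χ - c)) = 0 at h
  rw [Finset.sum_eq_single one (fun χ _ hne => by
      rw [Finset.prod_eq_zero (i := col M w χ)
        (Finset.mem_image_of_mem _ (Finset.mem_filter.2 ⟨Finset.mem_univ _, hne⟩)) (sub_self _),
        mul_zero, mul_zero])
    (fun hne => absurd (Finset.mem_univ _) hne), hone1] at h
  have hne : ∏ c ∈ T, ((1 : ℂ) - c) ≠ 0 :=
    Finset.prod_ne_zero_iff.2 fun c hc => sub_ne_zero.2 fun e => hnT (e ▸ hc)
  simpa [hone', Chars.oneChar_apply, hne] using h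

theorem oneChar_mem_pblk (hM : IsPModular p M) : Chars.oneChar G ∈ pblk M G := by
  have := isMaximal_of_isPModular hM
  exact mem_pblk.2 oneChar_mem_principalBlock

omit hp in
theorem col_apply_one (a : G) (hone : Chars.oneChar G ∈ pblk M G) :
    col M a ⟨Chars.oneChar G, hone⟩ = 1 := by
  simp [col, Chars.oneChar_apply]

end CfsgLib.SzPairs46
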