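import Cfsg.Agent.SzPairs46.Local
import Cfsg.Agent.MinNormal.Structure
import Cfsg.Agent.Constrained.PSolvable
import Cfsg.Agent.Alperin.Basic

/-!
# Reduction to a simple normal subgroup

A group with the hypotheses, without a normal `p'`-subgroup and with a nonnormal Sylow subgroup,
has a simple minimal normal subgroup with trivial centralizer, which inherits the hypotheses.
-/

set_option autoImplicit false
set_option linter.unusedSectionVars false
set_option linter.style.haveILetI false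

namespace CfsgLib.SzPairs46

open Cfsg CfsgLib

universe u

variable {G : Type u} [Group G] [Finite G] {p : ℕ} [hp : Fact p.Prime] {P : Sylow p G}

/-- All elements of order `p` have `p`-nilpotent centralizers. -/
theorem Hyp.nilp_of_orderOf (h : Hyp P) {x : G} (hx : orderOf x = p) :
    Cfsg.HasNormalPComplement p ↥(Subgroup.centralizer ({x} : Set G)) := by
  obtain ⟨Q, hQ⟩ := (IsPGroup.of_card (n := 1) (G := Subgroup.zpowers x)
    (by rw [Nat.card_zpowers, hx, pow_one])).exists_le_sylow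
  obtain ⟨g, hg⟩ := MulAction.exists_smul_eq G Q P
  have hy : g * x * g⁻¹ ∈ (P : Subgroup G) := by
    rw [← hg, Sylow.coe_subgroup_smul]
    exact ⟨x, hQ (Subgroup.mem_zpowers x), rfl⟩
  refine Transfer.hasNormalPComplement_of_injective
    (h.nilp _ hy (by rw [← MulAut.conj_apply, MulEquiv.orderOf_eq, hx]))
    (((MulAut.conj g).toMonoidHom.comp (Subgroup.centralizer ({x} : Set G)).subtype).codRestrict
      (Subgroup.centralizer ({g * x * g⁻¹} : Set G)) fun c => ?_) fun a b e => ?_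
  · rw [Subgroup.mem_centralizer_singleton_iff]
    have hc := Subgroup.mem_centralizer_singleton_iff.1 c.2
    simp only [MonoidHom.coe_comp, MulEquiv.toMonoidHom_eq_coe, MonoidHom.coe_coe,
      Subgroup.coe_subtype, Function.comp_apply, MulAut.conj_apply]
    calc g * (c : G) * g⁻¹ * (g * x * g⁻¹) = g * ((c : G) * x) * g⁻¹ := by group
      _ = g * (x * (c : G)) * g⁻¹ := by rw [hc]
      _ = g * x * g⁻¹ * (g * (c : G) * g⁻¹) := by group
  · exact Subtype.ext ((MulAut.conj g).injective (congrArg Subtype.val e))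

/-- No nonabelian simple subgroup of order divisible by `p` centralizes an element of order `p`. -/
theorem Hyp.not_le_centralizer (h : Hyp P) {S : Subgroup G} (hS : IsSimpleGroup S)
    (hna : ¬ IsMulCommutative S) (hpS : p ∣ Nat.card S) {x : G} (hx : orderOf x = p) :
    ¬ S ≤ Subgroup.centralizer ({x} : Set G) := fun hle => by
  obtain ⟨N, hN, hc, k, hk⟩ := Transfer.hasNormalPComplement_iff_exists.1
    (Transfer.hasNormalPComplement_mono hle (h.nilp_of_orderOf hx))
  rcases hS.eq_bot_or_eq_top_of_normal N hN with e | e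
  · have hSp : IsPGroup p S := IsPGroup.of_card (n := k) (by rw [← hk, e, Subgroup.index_bot])
    haveI := hS
    haveI : Group.IsNilpotent S := hSp.isNilpotent
    exact hna ⟨⟨IsSimpleGroup.comm_iff_isSolvable.2 inferInstance⟩⟩
  · rw [e, Subgroup.card_top] at hc
    exact hp.out.ne_one (Nat.Coprime.eq_one_of_dvd hc.symm hpS)

/-- A nonnormal Sylow subgroup and a trivial `p'`-core force a trivial `p`-core. -/
theorem Hyp.pCore_eq_bot (h : Hyp P) (hcore : Cfsg.pPrimeCore p G = ⊥)
    (hnn : ¬ (P : Subgroup G).Normal) : Cfsg.pCore p G = ⊥ := by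
  by_contra hU
  set U := Cfsg.pCore p G with hUdef
  have hUP : U ≤ (P : Subgroup G) := IsPGroup.le_sylow_of_normal Constrained.isPGroup_pCore P
  obtain ⟨⟨x, hx⟩, hx1⟩ : ∃ x : U, x ≠ 1 := @exists_ne _ ((Subgroup.nontrivial_iff_ne_bot U).2 hU) 1
  set C := Subgroup.centralizer (U : Set G) with hC
  have hCx : C ≤ Subgroup.centralizer ({x} : Set G) := Subgroup.centralizer_le (by simpa using hx)
  obtain ⟨N, hN, hc, k, hk⟩ := Transfer.hasNormalPComplement_iff_exists.1
    (Transfer.hasNormalPComplement_mono hCx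
      (h.hasNormalPComplement (hUP hx) fun e => hx1 (Subtype.ext e)))
  haveI : C.Normal := hC ▸ inferInstance
  haveI hNc : N.Characteristic := by
    refine Subgroup.characteristic_iff_le_map.2 fun φ a ha => ?_
    rw [Subgroup.mem_map_equiv]
    refine (Transfer.mem_iff_coprime_of_pPower_index hc hk _).2 ?_
    rw [MulEquiv.orderOf_eq]
    exact (Transfer.mem_iff_coprime_of_pPower_index hc hk a).1 ha
  have hN1 : N.map C.subtype ≤ Cfsg.pPrimeCore p G := Constrained.le_pPrimeCore inferInstance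
    (by rw [Subgroup.card_map_of_injective C.subtype_injective]; exact hc)
  rw [hcore, le_bot_iff, Subgroup.map_eq_bot_iff_of_injective _ C.subtype_injective] at hN1
  have hCp : IsPGroup p C := IsPGroup.of_card (n := k) (by rw [← hk, hN1, Subgroup.index_bot])
  have hCU : C ≤ U := Constrained.le_pCore inferInstance hCp
  refine hnn (Subgroup.normalizer_eq_top_iff.1 (eq_top_iff.2 fun g _ => ?_))
  obtain ⟨n, hn, he⟩ := h.strong_control hUP (g := g) fun a ha =>
    hUP ((inferInstance : U.Normal).conj_mem a ha g)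
  have hmem : n⁻¹ * g ∈ C := Subgroup.mem_centralizer_iff.2 fun a ha => by
    have e := he a ha
    calc a * (n⁻¹ * g) = n⁻¹ * (n * a * n⁻¹) * g := by group
      _ = n⁻¹ * (g * a * g⁻¹) * g := by rw [e]
      _ = n⁻¹ * g * a := by group
  have := mul_mem hn (Subgroup.le_normalizer (hUP (hCU hmem)))
  simpa using this

/-- A normal subgroup inherits control of fusion. -/
theorem Hyp.exists_mem_inf (h : Hyp P) {M : Subgroup G} [M.Normal] {x y g : G}
    (hx : x ∈ (P : Subgroup G) ⊓ M) (hx1 : x ≠ 1) (hy : y ∈ (P : Subgroup G)) (hg : g ∈ M)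
    (hgxy : g * x * g⁻¹ = y) :
    ∃ m ∈ M, m ∈ Subgroup.normalizer (((P : Subgroup G) ⊓ M : Subgroup G) : Set G) ∧
      m * x * m⁻¹ = y := by
  set Q := (P : Subgroup G) ⊓ M with hQ
  set θ := centralizerPPrimeCore p x with hθ
  have hθC : θ ≤ Subgroup.centralizer ({x} : Set G) := Subgroup.map_subtype_le _
  -- elements of `θ` are `p`-regular
  have hreg : ∀ k ∈ θ, ¬ p ∣ orderOf k := fun k hk hd =>
    Signalizer.centralizerPPrimeCore_not_dvd x (hd.trans (Subgroup.orderOf_dvd_natCard _ hk))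
  -- the normalizer of `P` normalizes `Q`
  have hNQ : Subgroup.normalizer ((P : Subgroup G) : Set G) ≤ Subgroup.normalizer (Q : Set G) := by
    intro n hn
    rw [Subgroup.mem_normalizer_iff]
    exact fun a => and_congr (Subgroup.mem_normalizer_iff.1 hn a)
      ⟨fun ha => (inferInstance : M.Normal).conj_mem a ha n, fun ha => by
        have := (inferInstance : M.Normal).conj_mem _ ha n⁻¹
        simpa [mul_assoc] using this⟩
  suffices key : ∀ U : Subgroup G, x ∈ U → U ≤ Q →
      (∃ g' ∈ M, g' * x * g'⁻¹ = y ∧ ∃ n ∈ Subgroup.normalizer (Q : Set G),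
        ∃ c ∈ θ ⊓ Subgroup.centralizer (U : Set G), g' = n * c) →
      ∃ m ∈ M, m ∈ Subgroup.normalizer (Q : Set G) ∧ m * x * m⁻¹ = y by
    refine key (Subgroup.zpowers x) (Subgroup.mem_zpowers x) (Subgroup.zpowers_le.2 hx) ?_
    obtain ⟨n₀, hn₀, he⟩ := h.ctrl x hx.1 y hy ⟨g, hgxy⟩
    have hc : n₀⁻¹ * g ∈ Subgroup.centralizer ({x} : Set G) := by
      rw [Subgroup.mem_centralizer_singleton_iff]
      calc n₀⁻¹ * g * x = n₀⁻¹ * (g * x * g⁻¹) * g := by group
        _ = n₀⁻¹ * (n₀ * x * n₀⁻¹) * g := by rw [hgxy, he]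
        _ = x * (n₀⁻¹ * g) := by group
    obtain ⟨u, hu, r, hr, hrC, hur⟩ := h.exists_mul hx.1 hx1 hc
    have hu' : r⁻¹ * u * r ∈ θ := by
      have := (Subgroup.mem_normalizer_iff.1
        (Signalizer.le_normalizer_centralizerPPrimeCore (p := p) x (inv_mem hrC)) u).1 hu
      simpa using this
    refine ⟨g, hg, hgxy, n₀ * r, hNQ (mul_mem hn₀ (Subgroup.le_normalizer hr)), r⁻¹ * u * r,
      ⟨hu', ?_⟩, ?_⟩
    · refine Subgroup.mem_centralizer_iff.2 ?_
      rintro a ⟨i, rfl⟩
      exact ((show Commute x (r⁻¹ * u * r) from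
        (Subgroup.mem_centralizer_singleton_iff.1 (hθC hu')).symm).zpow_left i).eq
    · calc g = n₀ * (n₀⁻¹ * g) := by group
        _ = n₀ * (u * r) := by rw [hur]
        _ = _ := by group
  intro U
  induction U using (wellFounded_gt (α := Subgroup G)).induction with
  | _ U ih =>
  intro hxU hUQ ⟨g', hg', hgx', n, hn, c, ⟨hcθ, hcU⟩, hnc⟩
  rcases hUQ.eq_or_lt with e | hlt
  · refine ⟨g', hg', ?_, hgx'⟩
    rw [hnc]
    exact mul_mem hn (Subgroup.centralizer_le_normalizer _ (e ▸ hcU))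
  have hQp : IsPGroup p Q := P.2.to_le inf_le_left
  set R := Q ⊓ Subgroup.normalizer (U : Set G) with hR
  have hUR : U < R := Alperin.lt_inf_normalizer hQp hlt
  -- `R` permutes the part of the coset `c M` in `θ ⊓ C(U)`
  have hclosed : ∀ r : R, ∀ k : G, k ∈ θ ⊓ Subgroup.centralizer (U : Set G) ∧ c⁻¹ * k ∈ M →
      (r : G) * k * (r : G)⁻¹ ∈ θ ⊓ Subgroup.centralizer (U : Set G) ∧
        c⁻¹ * ((r : G) * k * (r : G)⁻¹) ∈ M := by
    rintro ⟨r, hrQ, hrN⟩ k ⟨⟨hkθ, hkU⟩, hkM⟩
    have hCU : r * k * r⁻¹ ∈ Subgroup.centralizer (U : Set G) := by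
      refine Subgroup.mem_centralizer_iff.2 fun a ha => ?_
      have ha' : r⁻¹ * a * r ∈ U := (Subgroup.mem_normalizer_iff.1 hrN _).2
        (by simpa [mul_assoc] using ha)
      have := Subgroup.mem_centralizer_iff.1 hkU _ ha'
      calc a * (r * k * r⁻¹) = r * (r⁻¹ * a * r * k) * r⁻¹ := by group
        _ = r * (k * (r⁻¹ * a * r)) * r⁻¹ := by rw [this]
        _ = _ := by group
    refine ⟨⟨h.mem_centralizerPPrimeCore hx.1 hx1
      (Subgroup.centralizer_le (by simpa using hxU) hCU) ?_, hCU⟩, ?_⟩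
    · rw [← MulAut.conj_apply, MulEquiv.orderOf_eq]
      exact hreg k hkθ
    · have h1 : c⁻¹ * r * c ∈ M := by
        simpa using (inferInstance : M.Normal).conj_mem r hrQ.2 c⁻¹
      have h2 : r⁻¹ ∈ M := inv_mem hrQ.2
      have := mul_mem (mul_mem h1 hkM) h2
      convert this using 1
      group
  set X := {k : G // k ∈ θ ⊓ Subgroup.centralizer (U : Set G) ∧ c⁻¹ * k ∈ M}
  letI : MulAction R X :=
    { smul := fun r k => ⟨(r : G) * k.1 * (r : G)⁻¹, hclosed r k.1 k.2⟩
      one_smul := fun k => Subtype.ext (show ((1 : R) : G) * k.1 * ((1 : R) : G)⁻¹ = k.1 by simp)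
      mul_smul := fun a b k => Subtype.ext (show ((a * b : R) : G) * k.1 * ((a * b : R) : G)⁻¹ =
        (a : G) * ((b : G) * k.1 * (b : G)⁻¹) * (a : G)⁻¹ by simp [mul_assoc]) }
  have hcard : ¬ p ∣ Nat.card X := by
    have e : Nat.card X = Nat.card ↥(θ ⊓ Subgroup.centralizer (U : Set G) ⊓ M) :=
      Nat.card_congr
        { toFun := fun k => ⟨c⁻¹ * k.1, Subgroup.mem_inf.2 ⟨(θ ⊓ Subgroup.centralizer (U : Set G)).mul_mem ((θ ⊓ Subgroup.centralizer (U : Set G)).inv_mem ⟨hcθ, hcU⟩) k.2.1, k.2.2⟩⟩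
          invFun := fun j => ⟨c * j.1, mul_mem (Subgroup.mem_inf.2 ⟨hcθ, hcU⟩) j.2.1, by simpa using j.2.2⟩
          left_inv := fun k => by simp
          right_inv := fun j => by simp }
    intro hd
    exact Signalizer.centralizerPPrimeCore_not_dvd x
      ((e ▸ hd).trans (Subgroup.card_dvd_of_le (inf_le_left.trans inf_le_left)))
  obtain ⟨⟨k, ⟨hkθ, hkU⟩, hkM⟩, hfix⟩ :=
    (hQp.to_le inf_le_left).nonempty_fixed_point_of_prime_not_dvd_card (G := R) X hcard
  have hkR : k ∈ Subgroup.centralizer (R : Set G) := Subgroup.mem_centralizer_iff.2 fun r hr => by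
    have := congrArg Subtype.val (hfix ⟨r, hr⟩)
    change r * k * r⁻¹ = k at this
    exact mul_inv_eq_iff_eq_mul.1 this
  refine ih R hUR (hUR.le hxU) inf_le_left
    ⟨g' * (c⁻¹ * k), mul_mem hg' hkM, ?_, n, hn, k, ⟨hkθ, hkR⟩, by rw [hnc]; group⟩
  have e1 : Commute (c⁻¹ * k) x := Subgroup.mem_centralizer_singleton_iff.1
    (hθC (mul_mem (inv_mem hcθ) hkθ))
  calc g' * (c⁻¹ * k) * x * (g' * (c⁻¹ * k))⁻¹
      = g' * (c⁻¹ * k * x * (c⁻¹ * k)⁻¹) * g'⁻¹ := by group
    _ = g' * x * g'⁻¹ := by rw [e1.eq, mul_inv_cancel_right]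
    _ = y := hgx'

/-- The trace of a Sylow subgroup on a normal subgroup is a Sylow subgroup. -/
theorem exists_sylow_trace (M : Subgroup G) [M.Normal] (P : Sylow p G) :
    ∃ Q : Sylow p M, (Q : Subgroup M) = (P : Subgroup G).subgroupOf M := by
  obtain ⟨R⟩ := (Sylow.nonempty : Nonempty (Sylow p M))
  obtain ⟨S, hS⟩ := (R.2.map M.subtype).exists_le_sylow
  have e : (R : Subgroup M) = (S : Subgroup G).subgroupOf M :=
    (R.3 S.2.comap_subtype fun x hx => hS ⟨x, hx, rfl⟩).symm
  obtain ⟨g, hg⟩ := MulAction.exists_smul_eq G S P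
  let φ := MulAut.conjNormal (H := M) g
  have hR2 : IsPGroup p ((R : Subgroup M).map φ.toMonoidHom) := R.2.map _
  refine ⟨hR2.toSylow ((Subgroup.index_map_equiv _ φ).symm ▸ R.not_dvd_index), ?_⟩
  change (R : Subgroup M).map φ.toMonoidHom = _
  rw [e, ← hg]
  ext x
  rw [Subgroup.mem_map_equiv, Subgroup.mem_subgroupOf, Subgroup.mem_subgroupOf,
    Sylow.coe_subgroup_smul, Subgroup.mem_pointwise_smul_iff_inv_smul_mem]
  simp [φ, MulAut.conjNormal_symm_apply]

/-- A normal subgroup inherits the hypotheses. -/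
theorem Hyp.of_normal (h : Hyp P) {M : Subgroup G} [M.Normal] {Q : Sylow p M}
    (hQ : (Q : Subgroup M) = (P : Subgroup G).subgroupOf M) : Hyp Q := by
  refine ⟨?_, ?_, ?_⟩
  · rintro x hx y hy ⟨g, hg⟩
    rw [hQ, Subgroup.mem_subgroupOf] at hx hy
    by_cases hx1 : x = 1
    · exact ⟨1, one_mem _, by rw [← hg, hx1]; group⟩
    obtain ⟨m, hm, hmN, hme⟩ := h.exists_mem_inf (M := M) ⟨hx, x.2⟩
      (fun e => hx1 (Subtype.ext e)) hy g.2 (by rw [← hg]; rfl)
    refine ⟨⟨m, hm⟩, ?_, Subtype.ext hme⟩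
    rw [Subgroup.mem_normalizer_iff]
    intro a
    rw [hQ, Subgroup.mem_subgroupOf, Subgroup.mem_subgroupOf]
    have := Subgroup.mem_normalizer_iff.1 hmN (a : G)
    constructor
    · exact fun ha => (this.1 ⟨ha, a.2⟩).1
    · exact fun ha => (this.2 ⟨ha, M.mul_mem (M.mul_mem hm a.2) (M.inv_mem hm)⟩).1
  · intro x _ hxo
    refine Transfer.hasNormalPComplement_of_injective
      (h.nilp_of_orderOf (x := (x : G)) (by rw [Subgroup.orderOf_coe]; exact hxo))
      ((M.subtype.comp (Subgroup.centralizer ({x} : Set M)).subtype).codRestrict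
        (Subgroup.centralizer ({(x : G)} : Set G)) fun c => ?_)
      fun a b e => Subtype.ext (Subtype.ext (congrArg (fun t : Subgroup.centralizer ({(x : G)} : Set G) => (t : G)) e))
    exact Subgroup.mem_centralizer_singleton_iff.2
      (congrArg Subtype.val (Subgroup.mem_centralizer_singleton_iff.1 c.2))
  · intro x y hx hy
    refine Constrained.IsPSolvable.of_injective
      (h.pair (x : G) (y : G) (by rw [Subgroup.orderOf_coe]; exact hx)
        (by rw [Subgroup.orderOf_coe]; exact hy))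
      ((M.subtype.comp (Subgroup.closure ({x, y} : Set M)).subtype).codRestrict
        (Subgroup.closure ({(x : G), (y : G)} : Set G)) fun c => ?_)
      fun a b e => Subtype.ext (Subtype.ext (congrArg (fun t : Subgroup.closure ({(x : G), (y : G)} : Set G) => (t : G)) e))
    have hle : Subgroup.closure ({x, y} : Set M) ≤
        (Subgroup.closure ({(x : G), (y : G)} : Set G)).comap M.subtype := by
      refine (Subgroup.closure_le _).2 ?_
      rintro z (rfl | rfl) <;> exact Subgroup.subset_closure (by simp)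
    exact hle c.2

/-- **Reduction to a simple group.** -/
theorem exists_simple_normal (hcore : Cfsg.pPrimeCore p G = ⊥) (P : Sylow p G)
    (hnn : ¬ (P : Subgroup G).Normal) (h : Hyp P) :
    ∃ M : Subgroup G, M.Normal ∧ IsSimpleGroup ↥M ∧ ¬ IsMulCommutative ↥M ∧ p ∣ Nat.card ↥M ∧
      Subgroup.centralizer (M : Set G) = ⊥ ∧
      ∃ Q : Sylow p ↥M, Hyp Q ∧ (Q : Subgroup ↥M) = (P : Subgroup G).subgroupOf M := by
  classical
  haveI : Nontrivial G := by
    rcases subsingleton_or_nontrivial G with hs | hn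
    · exact absurd ⟨fun n hn g => by rwa [Subsingleton.elim (g * n * g⁻¹) n]⟩ hnn
    · exact hn
  have hOp := h.pCore_eq_bot hcore hnn
  have hdvd : ∀ N : Subgroup G, N.Normal → N ≠ ⊥ → p ∣ Nat.card N := fun N hN hN1 => by
    by_contra hd
    exact hN1 (le_bot_iff.1 (hcore ▸ Constrained.le_pPrimeCore_of_not_dvd hN hd))
  obtain ⟨M, hM⟩ := MinNormal.exists_isMinNormal (G := G)
  haveI := hM.normal
  have hpM := hdvd M hM.normal hM.ne_bot
  have hna : ¬ IsMulCommutative M := fun hab => by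
    obtain ⟨a, ha⟩ := exists_prime_orderOf_dvd_card' (G := M) p hpM
    let T : Subgroup G :=
      { carrier := {z | z ∈ M ∧ z ^ p = 1}
        one_mem' := ⟨one_mem M, one_pow p⟩
        mul_mem' := fun {u v} hu hv => ⟨mul_mem hu.1 hv.1, by
          have : Commute u v := congrArg Subtype.val (hab.is_comm.comm ⟨u, hu.1⟩ ⟨v, hv.1⟩)
          rw [this.mul_pow, hu.2, hv.2, one_mul]⟩
        inv_mem' := fun {u} hu => ⟨inv_mem hu.1, by rw [inv_pow, hu.2, inv_one]⟩ }
    have hT : T.Normal := ⟨fun u hu g => ⟨hM.normal.conj_mem u hu.1 g,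
      by rw [conj_pow, hu.2, mul_one, mul_inv_cancel]⟩⟩
    have hTp : IsPGroup p T := fun z => ⟨1, Subtype.ext (by rw [pow_one]; exact z.2.2)⟩
    have := (hOp ▸ Constrained.le_pCore hT hTp) (show (a : G) ∈ T from
      ⟨a.2, congrArg Subtype.val (show a ^ p = 1 by rw [← ha, pow_orderOf_eq_one])⟩)
    rw [Subgroup.mem_bot] at this
    rw [show a = 1 from Subtype.ext this, orderOf_one] at ha
    exact hp.out.ne_one ha.symm
  obtain ⟨s, hs⟩ := hM.exists_isFactors hna
  obtain ⟨S, hS⟩ := hs.nonempty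
  have hpS : ∀ T ∈ s, p ∣ Nat.card T := fun T hT => by
    obtain ⟨e⟩ := hs.mulEquiv T hT
    rw [Nat.card_congr e.toEquiv, Nat.card_fun, Nat.card_fin] at hpM
    exact hp.out.dvd_of_dvd_pow hpM
  have hone : ∀ T ∈ s, T = S := fun T hT => by
    by_contra hne
    obtain ⟨x, hx⟩ := exists_prime_orderOf_dvd_card' (G := T) p (hpS T hT)
    refine h.not_le_centralizer (hs.simple S hS) (hs.not_comm S hS) (hpS S hS)
      (x := (x : G)) (by rw [Subgroup.orderOf_coe]; exact hx) fun y hy => ?_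
    exact Subgroup.mem_centralizer_singleton_iff.2 (hs.commute S hS T hT (Ne.symm hne) y hy x x.2).eq
  have hSM : S = M := le_antisymm (hs.le S hS)
    (hs.sup_eq ▸ Finset.sup_le fun T hT => (hone T hT).le)
  have hsimple : IsSimpleGroup M := hSM ▸ hs.simple S hS
  refine ⟨M, hM.normal, hsimple, hna, hpM, ?_, ?_⟩
  · by_contra hC
    obtain ⟨x, hx⟩ := exists_prime_orderOf_dvd_card'
      (G := Subgroup.centralizer (M : Set G)) p (hdvd _ inferInstance hC)
    refine h.not_le_centralizer hsimple hna hpM (x := (x : G))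
      (by rw [Subgroup.orderOf_coe]; exact hx) fun y hy => ?_
    exact Subgroup.mem_centralizer_singleton_iff.2 (Subgroup.mem_centralizer_iff.1 x.2 y hy)
  · obtain ⟨Q, hQ⟩ := exists_sylow_trace M P
    exact ⟨Q, h.of_normal hQ, hQ⟩

end CfsgLib.SzPairs46
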