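import Cfsg.Agent.SuzukiAut.Out

/-!
# Odd automorphisms of a Suzuki group fixing a Sylow 2-subgroup

An odd-order element centralizing a translation of order two is trivial, and so is an automorphism
of odd order fixing the translations pointwise.
-/

set_option autoImplicit false
set_option linter.unusedSectionVars false

namespace CfsgLib.SzPairs46

open CfsgLib.Suzuki CfsgLib.SuzukiAut

variable {F : Type*} [Field F] {θ : F →+* F} [CharP F 2] [Finite F]

/-- The translations of order two are the central ones. -/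
theorem exists_uElt_zero (hT : TitsEndo θ) {z : grp θ} (hz : z ∈ uGrp hT) (hz2 : z * z = 1) :
    ∃ b, z = uElt hT 0 b := by
  obtain ⟨a, b, rfl⟩ := hz
  rw [uElt_mul, ← uElt_zero hT, uElt_inj] at hz2
  have h := hz2.2
  rw [CharTwo.add_self_eq_zero b, zero_add] at h
  rcases mul_eq_zero.1 h with h' | h'
  · exact ⟨b, by rw [(map_eq_zero θ).1 h']⟩
  · exact ⟨b, by rw [h']⟩

/-- An element fixing infinity and a central translation is a translation. -/
theorem mem_uGrp_of_fix (hT : TitsEndo θ) {g : grp θ} (hg : g ∈ stabInf θ) {b : F} (hb : b ≠ 0)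
    (hgb : g * uElt hT 0 b * g⁻¹ = uElt hT 0 b) : g ∈ uGrp hT := by
  obtain ⟨c, e, t, rfl⟩ := exists_of_mem_stabInf hT hg
  have hcent : ∀ x, uElt hT c e * uElt hT 0 x * (uElt hT c e)⁻¹ = uElt hT 0 x := fun x => by
    rw [mul_inv_eq_iff_eq_mul, uElt_mul, uElt_mul, uElt_inj]
    exact ⟨by ring, by rw [map_zero]; ring⟩
  have h1 : uElt hT c e * (tElt hT t * uElt hT 0 b * (tElt hT t)⁻¹) * (uElt hT c e)⁻¹ = uElt hT 0 b := by
    refine Eq.trans ?_ hgb; group
  rw [tElt_conj_uElt, mul_zero, hcent, uElt_inj] at h1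
  have h2 : mult θ (t : F) = mult θ ((1 : Fˣ) : F) := by
    rw [mult, mult, Units.val_one, one_pow, map_one, one_mul]
    exact mul_right_cancel₀ hb (by rw [h1.2, one_mul])
  rw [mult_injective hT h2, tElt_one, mul_one]
  exact uElt_mem hT c e

/-- An element of odd order centralizing a translation of order two is trivial. -/
theorem eq_one_of_commute_translation (hT : TitsEndo θ) {z g : grp θ} (hz : z ∈ uGrp hT)
    (hz2 : z * z = 1) (hz1 : z ≠ 1) (hg : Odd (orderOf g)) (hc : Commute g z) : g = 1 := by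
  haveI : Fact (Nat.Prime 2) := ⟨Nat.prime_two⟩
  obtain ⟨b, rfl⟩ := exists_uElt_zero hT hz hz2
  have hb : b ≠ 0 := fun e => hz1 (by rw [e, uElt_zero])
  have hgS : g ∈ stabInf θ := mem_stabInf_of_conj hT hz hz1 (by
    rw [mul_assoc, ← hc.eq, inv_mul_cancel_left]
    exact hz)
  have hgU := mem_uGrp_of_fix hT hgS hb (by rw [hc.eq, mul_inv_cancel_right])
  obtain ⟨k, hk⟩ := (isPGroup_uGrp hT) ⟨g, hgU⟩
  exact orderOf_eq_one_iff.1 (Nat.Coprime.eq_one_of_dvd
    ((Nat.coprime_two_right.2 hg).pow_right k)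
    (orderOf_dvd_of_pow_eq_one (congrArg Subtype.val hk)))

/-- An automorphism of odd order fixing the translations pointwise is trivial. -/
theorem aut_eq_one (hT : TitsEndo θ) (hall : ∀ (σ : F ≃+* F) x, σ (θ x) = θ (σ x))
    (φ : MulAut (grp θ)) (hU : ∀ x ∈ uGrp hT, φ x = x) (hφ : Odd (orderOf φ)) : φ = 1 := by
  haveI : Fact (Nat.Prime 2) := ⟨Nat.prime_two⟩
  obtain ⟨g, σ, rfl⟩ := exists_decomposition hT hall φ
  have happ : ∀ a b, g * uElt hT (σ a) (σ b) * g⁻¹ = uElt hT a b := fun a b => by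
    rw [← fieldAut_uElt hT σ (hall σ)]
    exact hU _ (uElt_mem hT a b)
  have h10 : g * uElt hT 1 0 * g⁻¹ = uElt hT 1 0 := by
    have := happ 1 0
    rwa [map_one, map_zero] at this
  have hgS : g ∈ stabInf θ := mem_stabInf_of_conj hT (uElt_mem hT 1 0) (uElt_ne_one hT) (by
    rw [show g⁻¹ * uElt hT 1 0 * g = uElt hT 1 0 by
      calc g⁻¹ * uElt hT 1 0 * g = g⁻¹ * (g * uElt hT 1 0 * g⁻¹) * g := by rw [h10]
        _ = uElt hT 1 0 := by group]
    exact uElt_mem hT 1 0)
  have hgU : g ∈ uGrp hT := mem_uGrp_of_fix hT hgS one_ne_zero (by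
    have := happ 0 1
    rwa [map_one, map_zero] at this)
  have hσ : σ = RingEquiv.refl F := by
    obtain ⟨c, e, rfl⟩ := hgU
    ext x
    have h := happ 0 x
    rw [map_zero, mul_inv_eq_iff_eq_mul, uElt_mul, uElt_mul, uElt_inj] at h
    have h' := h.2
    rw [map_zero] at h'
    simp only [zero_mul, mul_zero, add_zero] at h'
    rw [add_comm x e] at h'
    simpa using add_left_cancel h'
  have hfield : fieldAut hT σ (hall σ) = 1 := by
    subst hσ
    refine MulEquiv.ext fun x => Subtype.ext (Subtype.ext ?_)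
    ext i j
    rfl
  rw [hfield, mul_one] at hφ ⊢
  obtain ⟨k, hk⟩ := (isPGroup_uGrp hT) ⟨g, hgU⟩
  have hk' : g ^ 2 ^ k = 1 := congrArg Subtype.val hk
  refine orderOf_eq_one_iff.1 (Nat.Coprime.eq_one_of_dvd ((Nat.coprime_two_right.2 hφ).pow_right k)
    (orderOf_dvd_of_pow_eq_one ?_))
  rw [← map_pow, hk', map_one]

/-- All translations of order two are conjugate. -/
theorem exists_conj_translation (hT : TitsEndo θ) {y z : grp θ} (hy : y ∈ uGrp hT) (hz : z ∈ uGrp hT)
    (hy2 : y * y = 1) (hy1 : y ≠ 1) (hz2 : z * z = 1) (hz1 : z ≠ 1) :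
    ∃ g : grp θ, g * y * g⁻¹ = z := by
  obtain ⟨b, rfl⟩ := exists_uElt_zero hT hy hy2
  obtain ⟨c, rfl⟩ := exists_uElt_zero hT hz hz2
  have hb : b ≠ 0 := fun e => hy1 (by rw [e, uElt_zero])
  have hc : c ≠ 0 := fun e => hz1 (by rw [e, uElt_zero])
  obtain ⟨r, hr⟩ := exists_multiplier hT (div_ne_zero hc hb)
  refine ⟨tElt hT r, ?_⟩
  rw [tElt_conj_uElt, mul_zero, hr, div_mul_cancel₀ c hb]

end CfsgLib.SzPairs46
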