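import Cfsg.Agent.SzPairs46.Module
import Cfsg.Agent.SzPairs46.Reduction
import Cfsg.Agent.SzPairs46.SuzukiModel
import Cfsg.Agent.ZStar.Theorem

/-!
# The lift from the simple normal subgroup, `p = 2`

A Sylow 2-subgroup lies in the simple normal subgroup: otherwise some element of odd order moving
an involution of the subgroup would commute with a non-identity 2-element.  For a Suzuki group the
odd cores of the centralizers of the involutions are then trivial, so the group is simple.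
-/

set_option autoImplicit false
set_option linter.unusedSectionVars false
set_option linter.style.haveILetI false

namespace CfsgLib.SzPairs46

open Cfsg CfsgLib

universe u

variable {G : Type u} [Group G] [Finite G] {P : Sylow 2 G} {M : Subgroup G} [M.Normal]
  {Q : Sylow 2 M}

local instance : Fact (Nat.Prime 2) := ⟨Nat.prime_two⟩

/-- The involutions of the simple subgroup in `P` are central in `P`. -/
theorem Hyp.mem_zOne_two [IsSimpleGroup M] (h : Hyp P) (hQ : Hyp Q)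
    (hQP : (Q : Subgroup M) = (P : Subgroup G).subgroupOf M) {s : M} (hs : s ∈ (Q : Subgroup M))
    (hs2 : s ^ 2 = 1) : (s : G) ∈ zOne P := by
  rcases eq_or_ne s 1 with rfl | hs1
  · exact one_mem _
  have hmem : ∀ q : M, q ∈ (Q : Subgroup M) ↔ (q : G) ∈ (P : Subgroup G) := fun q => by
    rw [hQP, Subgroup.mem_subgroupOf]
  set W := (zOne P).comap M.subtype with hWdef
  have hWle : W ≤ zOne Q := fun w hw => ⟨(hmem w).2 hw.1, Subtype.ext hw.2.1,
    fun y hy => Subtype.ext (hw.2.2 y ((hmem y).1 hy))⟩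
  have hinv : ∀ n ∈ Subgroup.normalizer ((Q : Subgroup M) : Set M), ∀ w ∈ W, n * w * n⁻¹ ∈ W := by
    intro n hn w hw
    have hy := (Subgroup.mem_normalizer_iff.1 hn w).1 ((hmem w).2 hw.1)
    obtain ⟨n', hn', he⟩ := h.ctrl (w : G) hw.1 _ ((hmem _).1 hy) ⟨n, rfl⟩
    change ((n * w * n⁻¹ : M) : G) ∈ zOne P
    rw [← he]
    exact conj_mem_zOne hn' hw
  have hW1 : W ≠ ⊥ := by
    let X := {a : P // (a : G) ∈ M}
    letI : MulAction P X :=
      { smul := fun g a => ⟨g * a.1 * g⁻¹, (inferInstance : M.Normal).conj_mem _ a.2 g⟩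
        one_smul := fun a => Subtype.ext (show (1 : P) * a.1 * 1⁻¹ = a.1 by simp)
        mul_smul := fun g g' a => Subtype.ext (show g * g' * a.1 * (g * g')⁻¹ =
          g * (g' * a.1 * g'⁻¹) * g⁻¹ by group) }
    have hdvd : 2 ∣ Nat.card X := by
      have e : Nat.card X = Nat.card (Q : Subgroup M) := Nat.card_congr
        { toFun := fun a => ⟨⟨(a.1 : G), a.2⟩, (hmem _).2 a.1.2⟩
          invFun := fun q => ⟨⟨(q.1 : G), (hmem _).1 q.2⟩, q.1.2⟩
          left_inv := fun a => rfl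
          right_inv := fun q => rfl }
      rw [e]
      obtain ⟨k, hk⟩ := Q.2.exists_card_eq
      rcases k with _ | k
      · exfalso
        rw [pow_zero, Subgroup.card_eq_one] at hk
        exact hs1 (Subgroup.mem_bot.1 (hk ▸ hs))
      · rw [hk, pow_succ]
        exact dvd_mul_left 2 _
    obtain ⟨a, ha, hne⟩ := P.2.exists_fixed_point_of_prime_dvd_card_of_fixed_point X hdvd
      (a := ⟨1, one_mem M⟩) (fun g => Subtype.ext (show g * 1 * g⁻¹ = 1 by group))
    have ha1 : ((a.1 : P) : G) ≠ 1 := fun e => hne (Subtype.ext (Subtype.ext e.symm))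
    obtain ⟨j, hj⟩ := exists_pow_orderOf_eq a.1.2 ha1
    intro hbot
    have hw : (⟨((a.1 : P) : G) ^ j, M.pow_mem a.2 j⟩ : M) ∈ W := by
      refine ⟨pow_mem a.1.2 j, ?_, fun y hy => ?_⟩
      · change (((a.1 : P) : G) ^ j) ^ 2 = 1
        exact orderOf_dvd_iff_pow_eq_one.1 (dvd_of_eq hj)
      · change y * ((a.1 : P) : G) ^ j = ((a.1 : P) : G) ^ j * y
        have hc : Commute y ((a.1 : P) : G) :=
          mul_inv_eq_iff_eq_mul.1 (congrArg (fun b : X => ((b.1 : P) : G)) (ha ⟨y, hy⟩))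
        exact (hc.pow_right j).eq
    rw [hbot, Subgroup.mem_bot] at hw
    rw [show ((a.1 : P) : G) ^ j = 1 from congrArg Subtype.val hw, orderOf_one] at hj
    omega
  exact hQ.mem_of_invariant hWle hW1 hinv hs hs2

/-- The Sylow 2-subgroup lies in the simple normal subgroup. -/
theorem Hyp.le_of_two [IsSimpleGroup M] (h : Hyp P) (hnc : ¬ IsMulCommutative M)
    (hdvd : 2 ∣ Nat.card M) (hQ : Hyp Q)
    (hQP : (Q : Subgroup M) = (P : Subgroup G).subgroupOf M) : (P : Subgroup G) ≤ M := by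
  have hmem : ∀ q : M, q ∈ (Q : Subgroup M) ↔ (q : G) ∈ (P : Subgroup G) := fun q => by
    rw [hQP, Subgroup.mem_subgroupOf]
  -- an element of the normalizer moving an involution
  obtain ⟨z, hzQ, hz2, u, hu, huz⟩ : ∃ z ∈ (Q : Subgroup M), z ^ 2 = 1 ∧
      ∃ u ∈ Subgroup.normalizer ((Q : Subgroup M) : Set M), u * z * u⁻¹ ≠ z := by
    by_contra hcon
    push Not at hcon
    obtain ⟨t, ht⟩ : ∃ t : (Q : Subgroup M), orderOf t = 2 :=
      exists_prime_orderOf_dvd_card' 2 (by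
        obtain ⟨k, hk⟩ := Q.2.exists_card_eq
        rcases k with _ | k
        · exfalso
          have := Q.not_dvd_index
          have hb : (Q : Subgroup M) = ⊥ := Subgroup.card_eq_one.1 (hk.trans (pow_zero _))
          rw [hb, Subgroup.index_bot] at this
          exact this hdvd
        · rw [hk, pow_succ]
          exact dvd_mul_left 2 _)
    have ht' : orderOf (t : M) = 2 := by rw [Subgroup.orderOf_coe, ht]
    obtain ⟨N, hN, hNodd, hNc⟩ := ZStar.exists_normal_odd_of_no_fusion ht' Q fun g hg => by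
      obtain ⟨n, hn, he⟩ := hQ.ctrl _ t.2 _ hg ⟨g, rfl⟩
      rw [← he]
      exact hcon _ t.2 (orderOf_dvd_iff_pow_eq_one.1 (dvd_of_eq ht')) n hn
    rcases (inferInstance : IsSimpleGroup M).eq_bot_or_eq_top_of_normal N hN with e | e
    · have hz : (t : M) ∈ Subgroup.center M := Subgroup.mem_center_iff.2 fun g => by
        have h1 := Subgroup.mem_bot.1 (e ▸ hNc g)
        exact (mul_inv_eq_iff_eq_mul.1 (mul_inv_eq_one.1 h1)).symm
      rcases (inferInstance : IsSimpleGroup M).eq_bot_or_eq_top_of_normal _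
        (inferInstance : (Subgroup.center M).Normal) with e' | e'
      · rw [e', Subgroup.mem_bot] at hz
        rw [hz, orderOf_one] at ht'
        omega
      · exact hnc ⟨⟨fun a b => Subgroup.mem_center_iff.1 (e' ▸ Subgroup.mem_top b) a⟩⟩
    · rw [e, Subgroup.card_top] at hNodd
      exact Nat.not_even_iff_odd.2 hNodd (even_iff_two_dvd.2 hdvd)
  intro x hx
  by_contra hxM
  have hzP := h.mem_zOne_two hQ hQP hzQ hz2
  have hzu := h.mem_zOne_two hQ hQP ((Subgroup.mem_normalizer_iff.1 hu z).1 hzQ)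
    (by rw [conj_pow, hz2, mul_one, mul_inv_cancel])
  set Q' := (P : Subgroup G) ⊓ M with hQ'
  set N := M ⊓ Subgroup.normalizer (Q' : Set G) with hN
  set C := N ⊓ Subgroup.centralizer ({(z : G)} : Set G) with hC
  have huN : (u : G) ∈ N := by
    refine Subgroup.mem_inf.2 ⟨u.2, Subgroup.mem_normalizer_iff.2 fun a => ?_⟩
    constructor
    · rintro ⟨haP, haM⟩
      exact ⟨(hmem _).1 ((Subgroup.mem_normalizer_iff.1 hu ⟨a, haM⟩).1 ((hmem _).2 haP)),
        M.mul_mem (M.mul_mem u.2 haM) (M.inv_mem u.2)⟩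
    · rintro ⟨haP, haM⟩
      have haM' : a ∈ M := by
        have := M.mul_mem (M.mul_mem (M.inv_mem u.2) haM) u.2
        simpa [mul_assoc] using this
      exact ⟨(hmem _).1 ((Subgroup.mem_normalizer_iff.1 hu ⟨a, haM'⟩).2 ((hmem _).2 haP)), haM'⟩
  have hQ'N : Q' ≤ N := le_inf inf_le_right Subgroup.le_normalizer
  have hQ'C : Q' ≤ C := le_inf hQ'N fun q hq =>
    Subgroup.mem_centralizer_singleton_iff.2 (hzP.2.2 q hq.1)
  have hPQ' : ∀ g ∈ (P : Subgroup G), ∀ q ∈ Q', g * q * g⁻¹ ∈ Q' := fun g hg q hq =>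
    ⟨(P : Subgroup G).mul_mem ((P : Subgroup G).mul_mem hg hq.1) ((P : Subgroup G).inv_mem hg),
      (inferInstance : M.Normal).conj_mem q hq.2 g⟩
  have hPN : ∀ g ∈ (P : Subgroup G), ∀ n ∈ N, g * n * g⁻¹ ∈ N := by
    intro g hg n hn
    refine ⟨(inferInstance : M.Normal).conj_mem n hn.1 g, ?_⟩
    have hgN : g ∈ Subgroup.normalizer (Q' : Set G) := Subgroup.mem_normalizer_iff.2 fun q =>
      ⟨hPQ' g hg q, fun hq => by simpa [mul_assoc] using hPQ' g⁻¹ (inv_mem hg) _ hq⟩
    exact (Subgroup.normalizer (Q' : Set G)).mul_mem ((Subgroup.normalizer (Q' : Set G)).mul_mem hgN hn.2) ((Subgroup.normalizer (Q' : Set G)).inv_mem hgN)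
  -- a coset of `Q'` in `uC` fixed by `P`
  let act : ↥(P : Subgroup G) → G ⧸ Q' → G ⧸ Q' := fun g =>
    Quotient.map' (fun a => (g : G) * a * (g : G)⁻¹) fun a b hab => by
      rw [QuotientGroup.leftRel_apply] at hab ⊢
      have e := hPQ' g g.2 _ hab
      convert e using 1
      group
  letI : MulAction P (G ⧸ Q') :=
    { smul := act
      one_smul := fun a => by
        induction a using QuotientGroup.induction_on with
        | H a =>
          change (QuotientGroup.mk (((1 : P) : G) * a * ((1 : P) : G)⁻¹) : G ⧸ Q') = _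
          simp
      mul_smul := fun g g' a => by
        induction a using QuotientGroup.induction_on with
        | H a =>
          change (QuotientGroup.mk (((g * g' : P) : G) * a * ((g * g' : P) : G)⁻¹) : G ⧸ Q') =
            QuotientGroup.mk ((g : G) * ((g' : G) * a * (g' : G)⁻¹) * (g : G)⁻¹)
          simp [mul_assoc] }
  let X : SubMulAction P (G ⧸ Q') :=
    { carrier := {a | ∃ c ∈ C, (QuotientGroup.mk ((u : G) * c) : G ⧸ Q') = a}
      smul_mem' := by
        rintro g _ ⟨c, hc, rfl⟩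
        refine ⟨(u : G)⁻¹ * ((g : G) * ((u : G) * c) * (g : G)⁻¹), ⟨N.mul_mem (N.inv_mem huN)
          (hPN g g.2 _ (N.mul_mem huN hc.1)), ?_⟩, ?_⟩
        · have hgz : Commute (g : G) (z : G) := hzP.2.2 g g.2
          have hgy : Commute (g : G) ((u : G) * z * (u : G)⁻¹) := hzu.2.2 g g.2
          have hcz : Commute c (z : G) := Subgroup.mem_centralizer_singleton_iff.1 hc.2
          refine Subgroup.mem_centralizer_singleton_iff.2 ?_
          calc (u : G)⁻¹ * ((g : G) * ((u : G) * c) * (g : G)⁻¹) * z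
              = (u : G)⁻¹ * ((g : G) * ((u : G) * c) * ((g : G)⁻¹ * z)) := by group
            _ = (u : G)⁻¹ * ((g : G) * (u : G) * (c * z) * (g : G)⁻¹) := by
                rw [hgz.inv_left.eq]; group
            _ = (u : G)⁻¹ * ((g : G) * ((u : G) * z * (u : G)⁻¹) * ((u : G) * c) * (g : G)⁻¹) := by
                rw [hcz.eq]; group
            _ = z * ((u : G)⁻¹ * ((g : G) * ((u : G) * c) * (g : G)⁻¹)) := by rw [hgy.eq]; group
        · change _ = (QuotientGroup.mk ((g : G) * ((u : G) * c) * (g : G)⁻¹) : G ⧸ Q')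
          rw [mul_inv_cancel_left] }
  have hXcard : ¬ 2 ∣ Nat.card X := by
    have e : Nat.card X = Q'.relIndex C := by
      symm
      refine Nat.card_eq_of_bijective (f := fun a : C ⧸ Q'.subgroupOf C => (Quotient.liftOn' a
        (fun c => (⟨QuotientGroup.mk ((u : G) * (c : G)), (c : G), c.2, rfl⟩ : X))
        (fun a b hab => Subtype.ext (QuotientGroup.eq.2 (by
          rw [QuotientGroup.leftRel_apply, Subgroup.mem_subgroupOf] at hab
          simpa [mul_assoc] using hab))) : X)) ⟨?_, ?_⟩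
      · intro a b
        induction a using QuotientGroup.induction_on with
        | H a =>
          induction b using QuotientGroup.induction_on with
          | H b =>
            intro hab
            have := QuotientGroup.eq.1 (congrArg Subtype.val hab)
            refine QuotientGroup.eq.2 ?_
            rw [Subgroup.mem_subgroupOf]
            simpa [mul_assoc] using this
      · rintro ⟨_, c, hc, rfl⟩
        exact ⟨QuotientGroup.mk ⟨c, hc⟩, rfl⟩
    rw [e]
    intro hd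
    have h1 := hd.trans (Dvd.intro _ (Subgroup.relIndex_mul_relIndex Q' C M hQ'C
      (inf_le_left.trans inf_le_left)))
    refine Q.not_dvd_index ?_
    rw [hQP]
    change 2 ∣ (P : Subgroup G).relIndex M
    rwa [← Subgroup.inf_relIndex_right]
  obtain ⟨⟨_, c, hc, rfl⟩, hfix⟩ := P.2.nonempty_fixed_point_of_prime_not_dvd_card (G := P) X hXcard
  set v := (u : G) * c with hv
  have hvN : v ∈ N := N.mul_mem huN hc.1
  have hvz : v * z * v⁻¹ = (u : G) * z * (u : G)⁻¹ := by
    have hcz : Commute c (z : G) := Subgroup.mem_centralizer_singleton_iff.1 hc.2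
    calc v * z * v⁻¹ = (u : G) * (c * z * c⁻¹) * (u : G)⁻¹ := by rw [hv]; group
      _ = _ := by rw [hcz.eq, mul_inv_cancel_right]
  -- its odd part
  set L := Q'.subgroupOf N with hL
  haveI : L.Normal := (Subgroup.normal_subgroupOf_iff_le_normalizer hQ'N).2 inf_le_right
  have hidx : Odd L.index := by
    rw [← Nat.not_even_iff_odd, even_iff_two_dvd]
    intro hd
    have h1 := hd.trans (Dvd.intro _ (Subgroup.relIndex_mul_relIndex Q' N M hQ'N inf_le_left))
    refine Q.not_dvd_index ?_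
    rw [hQP]
    change 2 ∣ (P : Subgroup G).relIndex M
    rwa [← Subgroup.inf_relIndex_right]
  obtain ⟨i, m, hm, hord⟩ := Nat.exists_eq_two_pow_mul_odd (orderOf_pos v).ne'
  have hmv : orderOf (QuotientGroup.mk' L ⟨v, hvN⟩) ∣ m := by
    have h1 : orderOf (QuotientGroup.mk' L ⟨v, hvN⟩) ∣ 2 ^ i * m := by
      rw [← hord, ← Subgroup.orderOf_mk v hvN]
      exact orderOf_map_dvd _ _
    have h2 : orderOf (QuotientGroup.mk' L ⟨v, hvN⟩) ∣ L.index := orderOf_dvd_natCard _
    refine (Nat.Coprime.dvd_of_dvd_mul_left ?_ h1)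
    exact ((Nat.coprime_two_right.2 (hidx.of_dvd_nat h2)).pow_right i)
  obtain ⟨a, ha0, ha1⟩ : ∃ a : ℕ, a ≡ 0 [MOD 2 ^ i] ∧ a ≡ 1 [MOD m] :=
    let a := Nat.chineseRemainder ((Nat.coprime_two_left.2 hm).pow_left i) 0 1
    ⟨a.1, a.2.1, a.2.2⟩
  set w := v ^ a with hw
  have hwN : w ∈ N := N.pow_mem hvN a
  have hwm : w ^ m = 1 := by
    rw [hw, ← pow_mul, ← orderOf_dvd_iff_pow_eq_one, hord]
    exact mul_dvd_mul_right (Nat.modEq_zero_iff_dvd.1 ha0) m
  have hwodd : ¬ 2 ∣ orderOf w := fun hd =>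
    Nat.not_even_iff_odd.2 hm (even_iff_two_dvd.2 (hd.trans (orderOf_dvd_of_pow_eq_one hwm)))
  have hwL : QuotientGroup.mk' L ⟨w, hwN⟩ = QuotientGroup.mk' L ⟨v, hvN⟩ := by
    rw [show (⟨w, hwN⟩ : N) = ⟨v, hvN⟩ ^ a from rfl, map_pow]
    conv_rhs => rw [← pow_one (QuotientGroup.mk' L ⟨v, hvN⟩)]
    exact pow_eq_pow_iff_modEq.2 (ha1.of_dvd hmv)
  have hwz : w * z * w⁻¹ = v * z * v⁻¹ := by
    have hq : v⁻¹ * w ∈ Q' := (QuotientGroup.eq (s := L) (a := ⟨v, hvN⟩) (b := ⟨w, hwN⟩)).1 hwL.symm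
    have hqz : Commute (v⁻¹ * w) (z : G) := hzP.2.2 _ hq.1
    calc w * z * w⁻¹ = v * (v⁻¹ * w * z * (v⁻¹ * w)⁻¹) * v⁻¹ := by group
      _ = v * z * v⁻¹ := by rw [hqz.eq, mul_inv_cancel_right]
  have hwconj : ∀ g : P, w⁻¹ * ((g : G) * w * (g : G)⁻¹) ∈ Q' := by
    intro g
    have h1 : (QuotientGroup.mk ((g : G) * v * (g : G)⁻¹) : G ⧸ Q') = QuotientGroup.mk v :=
      congrArg Subtype.val (hfix g)
    have hgv : (g : G) * v * (g : G)⁻¹ ∈ N := hPN g g.2 v hvN
    have h2 : QuotientGroup.mk' L ⟨_, hgv⟩ = QuotientGroup.mk' L ⟨v, hvN⟩ :=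
      (QuotientGroup.eq (s := L) (a := ⟨_, hgv⟩) (b := ⟨v, hvN⟩)).2
        ((QuotientGroup.eq (s := Q') (a := (g : G) * v * (g : G)⁻¹) (b := v)).1 h1)
    have h3 : QuotientGroup.mk' L ⟨_, N.pow_mem hgv a⟩ = QuotientGroup.mk' L ⟨w, hwN⟩ := by
      rw [show (⟨_, N.pow_mem hgv a⟩ : N) = ⟨_, hgv⟩ ^ a from rfl, map_pow, h2, ← map_pow]
      rfl
    have h4 := (QuotientGroup.eq (s := L) (a := ⟨w, hwN⟩) (b := ⟨_, N.pow_mem hgv a⟩)).1 h3.symm
    rw [hL, Subgroup.mem_subgroupOf] at h4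
    simpa [conj_pow] using h4
  obtain ⟨g₁, g₂, heq, hne⟩ : ∃ g₁ g₂ : P, (g₁ : G) * w * (g₁ : G)⁻¹ = (g₂ : G) * w * (g₂ : G)⁻¹ ∧
      g₁ ≠ g₂ := by
    by_contra hcon
    push Not at hcon
    have hle := Nat.card_le_card_of_injective
      (fun g : P => (⟨_, hwconj g⟩ : Q')) fun g g' e => hcon g g'
        (mul_left_cancel (congrArg Subtype.val e))
    have heq : Q' = (P : Subgroup G) := Subgroup.eq_of_le_of_card_ge inf_le_left hle
    exact hxM ((heq ▸ hx : x ∈ Q').2)
  set t := ((g₁⁻¹ * g₂ : P) : G) with ht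
  have ht1 : t ≠ 1 := fun e => hne (inv_mul_eq_one.1 (Subtype.ext e))
  have htw : w ∈ Subgroup.centralizer ({t} : Set G) := by
    rw [Subgroup.mem_centralizer_singleton_iff]
    calc w * t = (g₁ : G)⁻¹ * ((g₁ : G) * w * (g₁ : G)⁻¹) * (g₂ : G) := by
          rw [ht, Subgroup.coe_mul, Subgroup.coe_inv]; group
      _ = (g₁ : G)⁻¹ * ((g₂ : G) * w * (g₂ : G)⁻¹) * (g₂ : G) := by rw [heq]
      _ = t * w := by rw [ht, Subgroup.coe_mul, Subgroup.coe_inv]; group
  have hfin := commute_of_conj_mem (s := t) hzP.1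
    (mem_centralizer_of_mem_zOne (g₁⁻¹ * g₂).2 hzP)
    (h.mem_centralizerPPrimeCore (g₁⁻¹ * g₂).2 ht1 htw hwodd) (hwz ▸ hvz ▸ hzu.1)
  exact huz (Subtype.ext ((hwz.trans hvz).symm.trans hfin))

/-- **The lift to the whole group.** -/
theorem lift_two (P : Sylow 2 G) (h : Hyp P) (M : Subgroup G) [M.Normal] [IsSimpleGroup ↥M]
    (hnc : ¬ IsMulCommutative ↥M) (hdvd : 2 ∣ Nat.card ↥M)
    (hC : Subgroup.centralizer (M : Set G) = ⊥) (Q : Sylow 2 ↥M) (hQ : Hyp Q)
    (hQP : (Q : Subgroup ↥M) = (P : Subgroup G).subgroupOf M)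
    (hcase : (IsElementaryAbelian 2 (Q : Subgroup ↥M) ∧ ∀ x ∈ (Q : Subgroup ↥M),
      ∀ y ∈ (Q : Subgroup ↥M), x ≠ 1 → y ≠ 1 → ∃ g, g * x * g⁻¹ = y) ∨ Lie.IsoSuzuki ↥M) :
    (IsElementaryAbelian 2 (P : Subgroup G) ∧ ∀ x ∈ (P : Subgroup G), ∀ y ∈ (P : Subgroup G),
      x ≠ 1 → y ≠ 1 → ∃ g : G, g * x * g⁻¹ = y) ∨ Lie.IsoSuzuki G := by
  have hPM := h.le_of_two hnc hdvd hQ hQP
  have hmem : ∀ q : M, q ∈ (Q : Subgroup M) ↔ (q : G) ∈ (P : Subgroup G) := fun q => by
    rw [hQP, Subgroup.mem_subgroupOf]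
  rcases hcase with ⟨⟨hab, hexp⟩, htrans⟩ | hSz
  · refine Or.inl ⟨⟨⟨⟨fun a b => Subtype.ext ?_⟩⟩, fun a ha => ?_⟩, fun x hx y hy hx1 hy1 => ?_⟩
    · exact congrArg (fun q : (Q : Subgroup M) => ((q : M) : G)) (hab.is_comm.comm
        ⟨⟨(a : G), hPM a.2⟩, (hmem _).2 a.2⟩ ⟨⟨(b : G), hPM b.2⟩, (hmem _).2 b.2⟩)
    · exact congrArg Subtype.val (hexp ⟨a, hPM ha⟩ ((hmem _).2 ha))
    · obtain ⟨g, hg⟩ := htrans ⟨x, hPM hx⟩ ((hmem _).2 hx) ⟨y, hPM hy⟩ ((hmem _).2 hy)
        (fun e => hx1 (congrArg Subtype.val e)) (fun e => hy1 (congrArg Subtype.val e))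
      exact ⟨g, congrArg Subtype.val hg⟩
  refine Or.inr ?_
  obtain ⟨F, fF, tF, m, hm, hF, ⟨e₀⟩⟩ := hSz
  haveI := Suzuki.charP_two hF
  have hT := Suzuki.titsEndo_theta hm hF
  have hall : ∀ (σ : F ≃+* F) x, σ (Suzuki.theta F m x) = Suzuki.theta F m (σ x) := fun σ x => by
    rw [Suzuki.theta_apply, Suzuki.theta_apply, map_pow]
  let e₁ : M ≃* Suzuki.grp (Suzuki.theta F m) :=
    e₀.trans ((Suzuki.lieSzEquiv hm hF).symm.trans (MulEquiv.subgroupCongr Suzuki.sz_eq))
  let R : Sylow 2 (Suzuki.grp (Suzuki.theta F m)) := (Q.2.map e₁.toMonoidHom).toSylow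
    (fun hd => Q.not_dvd_index (by rwa [Subgroup.index_map_of_bijective e₁.bijective] at hd))
  obtain ⟨g₀, hg₀⟩ := MulAction.exists_smul_eq (Suzuki.grp (Suzuki.theta F m)) R (Suzuki.uSylow hT)
  let e := e₁.trans (MulAut.conj g₀)
  have he : ∀ q, q ∈ (Q : Subgroup M) ↔ e q ∈ Suzuki.uGrp hT := fun q => by
    rw [← Suzuki.uSylow_coe hT, ← hg₀, Sylow.coe_subgroup_smul,
      Subgroup.mem_pointwise_smul_iff_inv_smul_mem]
    have e2 : (MulAut.conj g₀)⁻¹ • e q = e₁ q := (MulAut.conj g₀).symm_apply_apply _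
    rw [e2]
    exact (Subgroup.mem_map_iff_mem e₁.injective).symm
  -- an involution of `Q`
  obtain ⟨⟨z, hzQ⟩, hzo⟩ : ∃ z : (Q : Subgroup M), orderOf z = 2 := by
    refine exists_prime_orderOf_dvd_card' 2 ?_
    obtain ⟨k, hk⟩ := Q.2.exists_card_eq
    rcases k with _ | k
    · exfalso
      have := Q.not_dvd_index
      have hb : (Q : Subgroup M) = ⊥ := Subgroup.card_eq_one.1 (hk.trans (pow_zero _))
      rw [hb, Subgroup.index_bot] at this
      exact this hdvd
    · rw [hk, pow_succ]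
      exact dvd_mul_left 2 _
  rw [Subgroup.orderOf_mk] at hzo
  have hz2 : z ^ 2 = 1 := orderOf_dvd_iff_pow_eq_one.1 (dvd_of_eq hzo)
  have hz1 : z ≠ 1 := fun e => by rw [e, orderOf_one] at hzo; omega
  have hz2' : e z * e z = 1 := by rw [← map_mul, ← pow_two, hz2, map_one]
  have hz1' : e z ≠ 1 := fun e' => hz1 (e.injective (by rw [e', map_one]))
  have hzP := h.mem_zOne_two hQ hQP hzQ hz2
  have hzne : (z : G) ≠ 1 := fun e' => hz1 (Subtype.ext e')
  -- the core of the centralizer is trivial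
  have hcore : ∀ c ∈ centralizerPPrimeCore 2 (z : G), c = 1 := by
    intro c hc
    have hcq : ∀ q : M, q ∈ (Q : Subgroup M) → c * q * c⁻¹ = (q : G) := by
      intro q hq
      have hqC : (q : G) ∈ Subgroup.centralizer ({(z : G)} : Set G) :=
        Subgroup.mem_centralizer_singleton_iff.2 (hzP.2.2 q ((hmem q).1 hq))
      set d := c * q * c⁻¹ * (q : G)⁻¹ with hd
      have hdθ : d ∈ centralizerPPrimeCore 2 (z : G) := by
        have := mul_mem hc ((Subgroup.mem_normalizer_iff.1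
          (Signalizer.le_normalizer_centralizerPPrimeCore (p := 2) (z : G) hqC) c⁻¹).1 (inv_mem hc))
        rw [hd]
        simpa [mul_assoc] using this
      have hdM : d ∈ M := M.mul_mem ((inferInstance : M.Normal).conj_mem q q.2 c) (M.inv_mem q.2)
      have hodd : Odd (orderOf d) := by
        rw [← Nat.not_even_iff_odd, even_iff_two_dvd]
        exact fun hd' => Signalizer.centralizerPPrimeCore_not_dvd (p := 2) (z : G)
          (hd'.trans (Subgroup.orderOf_dvd_natCard _ hdθ))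
      have hcom : Commute (⟨d, hdM⟩ : M) z := Subtype.ext
        (Subgroup.mem_centralizer_singleton_iff.1 (Subgroup.map_subtype_le _ hdθ))
      have h1 := eq_one_of_commute_translation hT ((he z).1 hzQ) hz2' hz1'
        (g := e ⟨d, hdM⟩) (by rw [MulEquiv.orderOf_eq, Subgroup.orderOf_mk]; exact hodd)
        (hcom.map e)
      exact mul_inv_eq_one.1 (congrArg Subtype.val (e.map_eq_one_iff.1 h1))
    let φ₀ : MulAut M := MulAut.conjNormal c
    let Φ : MulAut M →* MulAut (Suzuki.grp (Suzuki.theta F m)) := (MulAut.congr e).toMonoidHom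
    have hcodd : Odd (orderOf c) := by
      rw [← Nat.not_even_iff_odd, even_iff_two_dvd]
      exact fun hd' => Signalizer.centralizerPPrimeCore_not_dvd (p := 2) (z : G)
        (hd'.trans (Subgroup.orderOf_dvd_natCard _ hc))
    have hΦ : Φ φ₀ = 1 := aut_eq_one hT hall _ (fun x hx => by
      obtain ⟨q, rfl⟩ := e.surjective x
      change e (φ₀ (e.symm (e q))) = e q
      rw [e.symm_apply_apply]
      congr 1
      exact Subtype.ext ((MulAut.conjNormal_apply c q).trans (hcq q ((he q).2 hx))))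
      (hcodd.of_dvd_nat ((orderOf_map_dvd Φ φ₀).trans (orderOf_map_dvd _ c)))
    have hφ₀ : φ₀ = 1 := (MulAut.congr e).injective (hΦ.trans (map_one _).symm)
    refine Subgroup.mem_bot.1 (hC ▸ Subgroup.mem_centralizer_iff.2 fun q hq => ?_)
    have := congrArg Subtype.val (MulEquiv.congr_fun hφ₀ ⟨q, hq⟩)
    rw [MulAut.conjNormal_apply] at this
    exact (mul_inv_eq_iff_eq_mul.1 this).symm
  have hMtop : M = ⊤ := eq_top_iff.2 fun g _ => by
    have hyM : g * (z : G) * g⁻¹ ∈ M := (inferInstance : M.Normal).conj_mem z z.2 g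
    obtain ⟨Q₁, hQ₁⟩ := (IsPGroup.of_card (n := 1) (G := Subgroup.zpowers (⟨_, hyM⟩ : M)) (by
      rw [Nat.card_zpowers, Subgroup.orderOf_mk, ← MulAut.conj_apply, MulEquiv.orderOf_eq,
        Subgroup.orderOf_coe, hzo, pow_one])).exists_le_sylow
    obtain ⟨m₀, hm₀⟩ := MulAction.exists_smul_eq M Q₁ Q
    set y : M := m₀ * ⟨_, hyM⟩ * m₀⁻¹ with hy
    have hyQ : y ∈ (Q : Subgroup M) := by
      rw [← hm₀, Sylow.coe_subgroup_smul]
      exact ⟨_, hQ₁ (Subgroup.mem_zpowers _), rfl⟩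
    have hy2 : y * y = 1 := by
      refine Subtype.ext ?_
      rw [hy]
      simp only [Subgroup.coe_mul, Subgroup.coe_inv, OneMemClass.coe_one]
      calc (m₀ : G) * (g * z * g⁻¹) * (m₀ : G)⁻¹ * ((m₀ : G) * (g * z * g⁻¹) * (m₀ : G)⁻¹)
          = (m₀ : G) * g * ((z : G) * z) * g⁻¹ * (m₀ : G)⁻¹ := by group
        _ = 1 := by
          rw [show (z : G) * z = 1 from congrArg Subtype.val ((pow_two z).symm.trans hz2)]
          group
    have hy1 : y ≠ 1 := fun e' => by
      have := congrArg Subtype.val e'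
      rw [hy] at this
      simp only [Subgroup.coe_mul, Subgroup.coe_inv, OneMemClass.coe_one, mul_inv_eq_one] at this
      exact hzne (conj_eq_one_iff.1 (mul_eq_left.1 this))
    obtain ⟨k, hk⟩ := exists_conj_translation hT ((he y).1 hyQ) ((he z).1 hzQ)
      (by rw [← map_mul, hy2, map_one]) (fun e' => hy1 (e.injective (by rw [e', map_one])))
      hz2' hz1'
    have hk' : e.symm k * y * (e.symm k)⁻¹ = z := e.injective (by simpa using hk)
    have hgC : ((e.symm k * m₀ : M) : G) * g ∈ Subgroup.centralizer ({(z : G)} : Set G) := by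
      rw [Subgroup.mem_centralizer_singleton_iff]
      have := congrArg Subtype.val hk'
      rw [hy] at this
      simp only [Subgroup.coe_mul, Subgroup.coe_inv] at this ⊢
      calc ((e.symm k : M) : G) * m₀ * g * z
          = ((e.symm k : M) : G) * ((m₀ : G) * (g * z * g⁻¹) * (m₀ : G)⁻¹) * ((e.symm k : M) : G)⁻¹
            * (((e.symm k : M) : G) * m₀ * g) := by group
        _ = _ := by rw [this]
    obtain ⟨a, ha, r, hr, -, har⟩ := h.exists_mul hzP.1 hzne hgC
    rw [hcore a ha, one_mul] at har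
    have : g = ((e.symm k * m₀ : M) : G)⁻¹ * r := by rw [← har, inv_mul_cancel_left]
    rw [this]
    exact M.mul_mem (M.inv_mem (e.symm k * m₀).2) (hPM hr)
  exact ⟨F, fF, tF, m, hm, hF,
    ⟨(Subgroup.topEquiv.symm.trans (MulEquiv.subgroupCongr hMtop.symm)).trans e₀⟩⟩

end CfsgLib.SzPairs46
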