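import Cfsg.Agent.SzPairs46.Basic
import Cfsg.Agent.Transfer.NormalPComplement
import Cfsg.Agent.Signalizer.ConstrainedBalance

/-!
# Local consequences of the hypotheses

All centralizers of non-identity elements of `P` are `p`-nilpotent, and the normalizer of `P`
controls strong fusion.
-/

set_option autoImplicit false

namespace CfsgLib.SzPairs46

open Cfsg CfsgLib

universe u

variable {G : Type u} [Group G] [Finite G] {p : ℕ} [hp : Fact p.Prime] {P : Sylow p G}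

omit [Finite G] in
/-- A non-identity element of `P` has a power of order `p`. -/
theorem exists_pow_orderOf_eq {s : G} (hs : s ∈ (P : Subgroup G)) (hs1 : s ≠ 1) :
    ∃ j : ℕ, orderOf (s ^ j) = p := by
  obtain ⟨k, hk⟩ := IsPGroup.iff_orderOf.1 P.2 ⟨s, hs⟩
  rw [Subgroup.orderOf_mk] at hk
  obtain ⟨k, rfl⟩ : ∃ k', k = k' + 1 := by
    refine ⟨k - 1, ?_⟩
    rcases k with _ | k
    · rw [pow_zero, orderOf_eq_one_iff] at hk
      exact absurd hk hs1
    · rfl
  refine ⟨p ^ k, ?_⟩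
  rw [orderOf_pow_of_dvd (pow_ne_zero _ hp.out.ne_zero) (hk ▸ pow_dvd_pow _ k.le_succ), hk,
    pow_succ, Nat.mul_div_cancel_left _ (pow_pos hp.out.pos _)]

/-- The centralizer of a non-identity element of `P` is `p`-nilpotent. -/
theorem Hyp.hasNormalPComplement (h : Hyp P) {s : G} (hs : s ∈ (P : Subgroup G)) (hs1 : s ≠ 1) :
    Cfsg.HasNormalPComplement p ↥(Subgroup.centralizer ({s} : Set G)) := by
  obtain ⟨j, hj⟩ := exists_pow_orderOf_eq hs hs1
  refine Transfer.hasNormalPComplement_mono (fun x hx => ?_) (h.nilp _ (pow_mem hs j) hj)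
  rw [Subgroup.mem_centralizer_singleton_iff] at hx ⊢
  exact (Commute.pow_right hx j).eq

/-- The elements of order prime to `p` of such a centralizer lie in its core. -/
theorem Hyp.mem_centralizerPPrimeCore (h : Hyp P) {s : G} (hs : s ∈ (P : Subgroup G)) (hs1 : s ≠ 1)
    {u : G} (hu : u ∈ Subgroup.centralizer ({s} : Set G)) (hup : ¬ p ∣ orderOf u) :
    u ∈ centralizerPPrimeCore p s := by
  obtain ⟨N, hN, hc, k, hk⟩ :=
    Transfer.hasNormalPComplement_iff_exists.1 (h.hasNormalPComplement hs hs1)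
  exact ⟨⟨u, hu⟩, Constrained.le_pPrimeCore hN hc
    ((Transfer.mem_iff_coprime_of_pPower_index hc hk _).2
      (by rw [Subgroup.orderOf_mk]; exact Transfer.coprime_of_not_dvd hup)), rfl⟩

/-- An element of `P` in the `p'`-core of a centralizer is trivial. -/
theorem eq_one_of_mem_core {s b : G} (hb : b ∈ (P : Subgroup G))
    (hb' : b ∈ centralizerPPrimeCore p s) : b = 1 :=
  Transfer.eq_one_of_mem_pGroup_of_coprime P.2 hb (Nat.Coprime.coprime_dvd_left
    (Subgroup.orderOf_dvd_natCard _ hb')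
    (Transfer.coprime_of_not_dvd (Signalizer.centralizerPPrimeCore_not_dvd s)))

omit [Finite G] hp in
theorem mem_centralizer_of_mem_zOne {s : G} (hs : s ∈ (P : Subgroup G)) {z : G} (hz : z ∈ zOne P) :
    z ∈ Subgroup.centralizer ({s} : Set G) :=
  Subgroup.mem_centralizer_singleton_iff.2 (hz.2.2 s hs).symm

/-- An element of the core moving `b ∈ C_P(s)` into `P` centralizes it. -/
theorem commute_of_conj_mem {s b u : G} (hb : b ∈ (P : Subgroup G))
    (hbs : b ∈ Subgroup.centralizer ({s} : Set G)) (hu : u ∈ centralizerPPrimeCore p s)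
    (hub : u * b * u⁻¹ ∈ (P : Subgroup G)) : u * b * u⁻¹ = b := by
  refine mul_inv_eq_one.1 (eq_one_of_mem_core (s := s) (mul_mem hub (inv_mem hb)) ?_)
  have h := (Subgroup.mem_normalizer_iff.1
    (Signalizer.le_normalizer_centralizerPPrimeCore (p := p) s hbs) u⁻¹).1 (inv_mem hu)
  simpa [mul_assoc] using mul_mem hu h

/-- Regular elements of the normalizer centralizing `s` centralize `C_P(s)`. -/
theorem Hyp.commute_of_mem_normalizer (h : Hyp P) {s b u : G} (hs : s ∈ (P : Subgroup G))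
    (hs1 : s ≠ 1) (hb : b ∈ (P : Subgroup G)) (hbs : b ∈ Subgroup.centralizer ({s} : Set G))
    (hu : u ∈ Subgroup.centralizer ({s} : Set G)) (hup : ¬ p ∣ orderOf u)
    (hun : u ∈ Subgroup.normalizer ((P : Subgroup G) : Set G)) : u * b * u⁻¹ = b :=
  commute_of_conj_mem hb hbs (h.mem_centralizerPPrimeCore hs hs1 hu hup)
    ((Subgroup.mem_normalizer_iff.1 hun b).1 hb)

/-- `C_P(s)` contains a Sylow subgroup of `C(s)`. -/
theorem Hyp.exists_sylow_le (h : Hyp P) {s : G} (hs : s ∈ (P : Subgroup G)) :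
    ∃ R : Sylow p ↥(Subgroup.centralizer ({s} : Set G)),
      (R : Subgroup ↥(Subgroup.centralizer ({s} : Set G))).map
        (Subgroup.centralizer ({s} : Set G)).subtype ≤ (P : Subgroup G) := by
  set C := Subgroup.centralizer ({s} : Set G) with hC
  have hsC : s ∈ C := Subgroup.mem_centralizer_singleton_iff.2 rfl
  obtain ⟨R⟩ : Nonempty (Sylow p C) := inferInstance
  have hcomm : ∀ c : C, Commute c ⟨s, hsC⟩ := fun c =>
    Subtype.ext (Subgroup.mem_centralizer_singleton_iff.1 c.2)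
  set S := Subgroup.zpowers (⟨s, hsC⟩ : C) with hS
  haveI : S.Normal := ⟨fun a ha g => by
    obtain ⟨i, rfl⟩ := Subgroup.mem_zpowers_iff.1 ha
    have e : g * (⟨s, hsC⟩ : C) ^ i * g⁻¹ = (⟨s, hsC⟩ : C) ^ i := by
      rw [((hcomm g).zpow_right i).eq, mul_inv_cancel_right]
    rw [e]
    exact zpow_mem (Subgroup.mem_zpowers _) i⟩
  have hSp : IsPGroup p S := by
    obtain ⟨k, hk⟩ := IsPGroup.iff_orderOf.1 P.2 ⟨s, hs⟩
    rw [Subgroup.orderOf_mk] at hk
    exact IsPGroup.of_card (n := k) (by rw [hS, Nat.card_zpowers, Subgroup.orderOf_mk, hk])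
  have hsR : (⟨s, hsC⟩ : C) ∈ (R : Subgroup C) :=
    IsPGroup.le_sylow_of_normal hSp R (Subgroup.mem_zpowers _)
  obtain ⟨Q, hQ⟩ := (R.2.map C.subtype).exists_le_sylow
  obtain ⟨g, hg⟩ := MulAction.exists_smul_eq G Q P
  have hconj : ∀ r ∈ (R : Subgroup C), g * (r : G) * g⁻¹ ∈ (P : Subgroup G) := by
    intro r hr
    rw [← hg, Sylow.coe_subgroup_smul]
    exact ⟨r, hQ ⟨r, hr, rfl⟩, rfl⟩
  obtain ⟨n, hn, he⟩ := h.ctrl s hs _ (hconj _ hsR) ⟨g, rfl⟩
  have hc : n⁻¹ * g ∈ C := by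
    rw [hC, Subgroup.mem_centralizer_singleton_iff]
    simp only at he
    calc n⁻¹ * g * s = n⁻¹ * (g * s * g⁻¹) * g := by group
      _ = n⁻¹ * (n * s * n⁻¹) * g := by rw [he]
      _ = s * (n⁻¹ * g) := by group
  refine ⟨(⟨n⁻¹ * g, hc⟩ : C) • R, ?_⟩
  rintro _ ⟨x, hx, rfl⟩
  rw [Sylow.coe_subgroup_smul] at hx
  obtain ⟨r, hr, rfl⟩ := hx
  refine (Subgroup.mem_normalizer_iff.1 hn _).2 ?_
  have := hconj r hr
  simpa [mul_assoc] using this

/-- The centralizer of a non-identity `s ∈ P` is the product of its core and `C_P(s)`. -/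
theorem Hyp.exists_mul (h : Hyp P) {s : G} (hs : s ∈ (P : Subgroup G)) (hs1 : s ≠ 1) {c : G}
    (hc : c ∈ Subgroup.centralizer ({s} : Set G)) :
    ∃ u ∈ centralizerPPrimeCore p s, ∃ r ∈ (P : Subgroup G),
      r ∈ Subgroup.centralizer ({s} : Set G) ∧ c = u * r := by
  obtain ⟨R, hR⟩ := h.exists_sylow_le hs
  obtain ⟨N, hN, hco, k, hk⟩ :=
    Transfer.hasNormalPComplement_iff_exists.1 (h.hasNormalPComplement hs hs1)
  obtain ⟨⟨⟨a, ha⟩, ⟨b, hb⟩⟩, hab⟩ :=
    (Transfer.isComplement'_sylow hco hk R).2 ⟨c, hc⟩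
  refine ⟨a, ⟨a, Constrained.le_pPrimeCore hN hco ha, rfl⟩, b, hR ⟨b, hb, rfl⟩, b.2, ?_⟩
  exact (congrArg Subtype.val hab).symm

/-- A Sylow normalizer controls strong fusion. -/
theorem Hyp.strong_control (h : Hyp P) {U : Subgroup G} (hU : U ≤ (P : Subgroup G)) {g : G}
    (hg : ∀ a ∈ U, g * a * g⁻¹ ∈ (P : Subgroup G)) :
    ∃ n ∈ Subgroup.normalizer ((P : Subgroup G) : Set G), ∀ a ∈ U, n * a * n⁻¹ = g * a * g⁻¹ := by
  rcases eq_or_ne U ⊥ with rfl | hU1
  · exact ⟨1, one_mem _, fun a ha => by rw [Subgroup.mem_bot.1 ha]; group⟩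
  haveI : Nontrivial U := (Subgroup.nontrivial_iff_ne_bot U).2 hU1
  haveI : Nontrivial (Subgroup.center U) := (P.2.to_le hU).center_nontrivial
  obtain ⟨⟨x, hx⟩, hx1⟩ := exists_ne (1 : Subgroup.center U)
  have hxU : (x : G) ∈ U := x.2
  have hxne : (x : G) ≠ 1 := fun e => hx1 (Subtype.ext (Subtype.ext e))
  have hxc : ∀ a ∈ U, a ∈ Subgroup.centralizer ({(x : G)} : Set G) := fun a ha =>
    Subgroup.mem_centralizer_singleton_iff.2
      (congrArg Subtype.val (Subgroup.mem_center_iff.1 hx ⟨a, ha⟩))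
  obtain ⟨n₀, hn₀, he⟩ := h.ctrl _ (hU hxU) _ (hg _ hxU) ⟨g, rfl⟩
  have hc : n₀⁻¹ * g ∈ Subgroup.centralizer ({(x : G)} : Set G) := by
    rw [Subgroup.mem_centralizer_singleton_iff]
    calc n₀⁻¹ * g * x = n₀⁻¹ * (g * x * g⁻¹) * g := by group
      _ = n₀⁻¹ * (n₀ * x * n₀⁻¹) * g := by rw [he]
      _ = x * (n₀⁻¹ * g) := by group
  obtain ⟨u, hu, r, hr, hrx, hur⟩ := h.exists_mul (hU hxU) hxne hc
  refine ⟨n₀ * r, mul_mem hn₀ (Subgroup.le_normalizer hr), fun a ha => ?_⟩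
  have hb : r * a * r⁻¹ ∈ (P : Subgroup G) := mul_mem (mul_mem hr (hU ha)) (inv_mem hr)
  have hbx : r * a * r⁻¹ ∈ Subgroup.centralizer ({(x : G)} : Set G) :=
    mul_mem (mul_mem hrx (hxc a ha)) (inv_mem hrx)
  have hg' : g = n₀ * (u * r) := by rw [← hur]; group
  have hub : u * (r * a * r⁻¹) * u⁻¹ ∈ (P : Subgroup G) := by
    refine (Subgroup.mem_normalizer_iff.1 hn₀ _).2 ?_
    have := hg a ha
    rw [hg'] at this
    simpa [mul_assoc] using this
  have e := commute_of_conj_mem hb hbx hu hub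
  rw [hg']
  calc n₀ * r * a * (n₀ * r)⁻¹ = n₀ * (r * a * r⁻¹) * n₀⁻¹ := by group
    _ = n₀ * (u * (r * a * r⁻¹) * u⁻¹) * n₀⁻¹ := by rw [e]
    _ = n₀ * (u * r) * a * (n₀ * (u * r))⁻¹ := by group

end CfsgLib.SzPairs46
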