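import Cfsg.Agent.SzPairs46.OddCase
import Cfsg.Agent.SzPairs46.Reduction
import Cfsg.Prelude.Def_Sz

/-!
# Assembly of Glauberman's characterisation of the Suzuki groups

Stated relative to the simple case for `p = 2` and to the lift from a simple normal subgroup.
-/

set_option autoImplicit false

namespace CfsgLib.SzPairs46

open Cfsg CfsgLib

universe u

/-- Elementary abelian with all non-identity elements conjugate. -/
def ElemTrans {G : Type u} [Group G] (P : Sylow 2 G) : Prop :=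
  Cfsg.IsElementaryAbelian 2 (P : Subgroup G) ∧
    ∀ x ∈ (P : Subgroup G), ∀ y ∈ (P : Subgroup G), x ≠ 1 → y ≠ 1 → ∃ g : G, g * x * g⁻¹ = y

/-- The theorem from the two statements about `p = 2`. -/
theorem main_of {G : Type u} [Group G] [Finite G] {p : ℕ} [hp : Fact p.Prime]
    (two : ∀ (T : Type u) [Group T] [Finite T] [IsSimpleGroup T], ¬ IsMulCommutative T →
      2 ∣ Nat.card T → ∀ Q : Sylow 2 T, Hyp Q → ElemTrans Q ∨ Cfsg.Lie.IsoSuzuki T)
    (lift : ∀ (P : Sylow 2 G), Hyp P → ∀ (M : Subgroup G) [M.Normal] [IsSimpleGroup ↥M],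
      ¬ IsMulCommutative ↥M → 2 ∣ Nat.card ↥M → Subgroup.centralizer (M : Set G) = ⊥ →
      ∀ Q : Sylow 2 ↥M, Hyp Q → (Q : Subgroup ↥M) = (P : Subgroup G).subgroupOf M →
      ElemTrans Q ∨ Cfsg.Lie.IsoSuzuki ↥M → ElemTrans P ∨ Cfsg.Lie.IsoSuzuki G)
    (hcore : Cfsg.pPrimeCore p G = ⊥) (P : Sylow p G) (hnn : ¬ (P : Subgroup G).Normal)
    (h : Hyp P)
    (hd : ¬ (p = 2 ∧ Cfsg.IsElementaryAbelian 2 (P : Subgroup G) ∧
      ∀ x ∈ (P : Subgroup G), ∀ y ∈ (P : Subgroup G), x ≠ 1 → y ≠ 1 → ∃ g : G, g * x * g⁻¹ = y)) :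
    p = 2 ∧ Cfsg.Lie.IsoSuzuki G := by
  obtain ⟨M, hMn, hMs, hMnc, hdvd, hC, Q, hQ, hQP⟩ := exists_simple_normal hcore P hnn h
  haveI := hMn
  haveI := hMs
  have hp2 : p = 2 := by
    by_contra hne
    exact false_of_ne_two hMnc hdvd Q hQ hne
  subst hp2
  refine ⟨rfl, ?_⟩
  rcases lift P h M hMnc hdvd hC Q hQ hQP (two ↥M hMnc hdvd Q hQ) with he | hs
  · exact absurd ⟨rfl, he.1, he.2⟩ hd
  · exact hs

end CfsgLib.SzPairs46
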