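import Cfsg.Agent.SzPairs46.Columns

/-!
# Elements of order `p` of `P` are central in a simple group

If `W ≤ Ω₁(Z(P))` is non-trivial and invariant under the normalizer, the span of the columns of the
elements of order `p` of `P` outside `W` is stable under the column of an element of `W`, so it is
zero.
-/

set_option autoImplicit false

namespace CfsgLib.SzPairs46

open Cfsg CfsgLib

universe u

variable {G : Type u} [Group G] [Finite G] {p : ℕ} [hp : Fact p.Prime] {P : Sylow p G}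

omit [Finite G] in
theorem exists_orderOf_of_mem {s : G} (hs : s ∈ (P : Subgroup G)) : ∃ k, orderOf s = p ^ k := by
  obtain ⟨k, hk⟩ := IsPGroup.iff_orderOf.1 P.2 ⟨s, hs⟩
  exact ⟨k, by rwa [Subgroup.orderOf_mk] at hk⟩

/-- In a simple group a non-trivial invariant subgroup of `Ω₁(Z(P))` contains all elements of
order `p` of `P`. -/
theorem Hyp.mem_of_invariant [IsSimpleGroup G] (h : Hyp P) {W : Subgroup G} (hW : W ≤ zOne P)
    (hW1 : W ≠ ⊥)
    (hinv : ∀ n ∈ Subgroup.normalizer ((P : Subgroup G) : Set G), ∀ w ∈ W, n * w * n⁻¹ ∈ W)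
    {s : G} (hs : s ∈ (P : Subgroup G)) (hsp : s ^ p = 1) : s ∈ W := by
  classical
  by_contra hsW
  haveI := Fintype.ofFinite G
  obtain ⟨M, hM⟩ := Blocks.exists_isPModular p hp.out
  obtain ⟨w, hwW, hw1⟩ := (W.ne_bot_iff_exists_ne_one).1 hW1 |>.elim fun w hw =>
    (⟨w.1, w.2, fun e => hw (Subtype.ext e)⟩ : ∃ w ∈ W, w ≠ 1)
  have hfix : ∀ a ∈ W, ∀ b ∈ (P : Subgroup G), IsConj a b → b ∈ W := fun a ha b hb hab => by
    obtain ⟨n, hn, rfl⟩ := (h.exists_normalizer_of_isConj (hW ha) hb hab).2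
    exact hinv n hn a ha
  set S := {q : G | q ∈ (P : Subgroup G) ∧ q ^ p = 1 ∧ q ∉ W} with hS
  set V := Submodule.span ℂ (col M '' S) with hV
  have hmul : ∀ F ∈ V, col M w * F ∈ V := by
    intro F hF
    induction hF using Submodule.span_induction with
    | mem F hF =>
      obtain ⟨q, ⟨hq, hqp, hqW⟩, rfl⟩ := hF
      refine col_mul_mem fun x hx => ?_
      obtain ⟨v, hv⟩ := Blocks.exists_isPPart (G := G) hp.out (x * q)
      obtain ⟨w₂, hw₂, q₂, hq₂, hcw, hcq, hvz⟩ := h.pair_product (hW hwW) hw1 hx hqp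
        (fun e => hqW (e ▸ one_mem W)) hv
      have hw₂W := hfix w hwW w₂ hw₂ hcw
      have hq₂W : q₂ ∉ W := fun e => hqW (hfix q₂ e q hq hcq.symm)
      have hz1 : w₂ * q₂ ∉ W := fun e => hq₂W ((mul_mem_cancel_left hw₂W).1 e)
      obtain ⟨c, hc⟩ := isConj_iff.1 hcq
      refine Submodule.subset_span ⟨w₂ * q₂, ⟨mul_mem hw₂ hq₂, ?_, hz1⟩, ?_⟩
      · rw [(Commute.symm ((hW hw₂W).2.2 q₂ hq₂)).mul_pow, (hW hw₂W).2.1, one_mul, ← hc, conj_pow,
          hqp, mul_one, mul_inv_cancel]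
      · exact (h.col_eq_of_isPPart hM hv hvz (mul_mem hw₂ hq₂) fun e => hz1 (e ▸ one_mem W)).symm
    | zero => rw [mul_zero]; exact zero_mem _
    | add a b _ _ ha hb => rw [mul_add]; exact add_mem ha hb
    | smul c a _ ha => rw [mul_smul_comm]; exact Submodule.smul_mem _ c ha
  have hlin : ∀ F ∈ V, lin M w F = 0 := by
    refine fun F hF => LinearMap.mem_ker.1 ((Submodule.span_le.2 ?_ : V ≤ LinearMap.ker _) hF)
    rintro _ ⟨q, ⟨hq, -, hqW⟩, rfl⟩
    exact lin_col_eq_zero hM (exists_orderOf_of_mem (hW hwW).1) (exists_orderOf_of_mem hq)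
      fun hc => hqW (hfix w hwW q hq hc)
  have hF := apply_one_eq_zero hM hw1 hmul hlin
    (Submodule.subset_span ⟨s, ⟨hs, hsp, hsW⟩, rfl⟩) (oneChar_mem_pblk hM)
  rw [col_apply_one] at hF
  exact one_ne_zero hF

/-- In a simple group all elements of order `p` of `P` are central in `P`. -/
theorem Hyp.mem_zOne [IsSimpleGroup G] (h : Hyp P) {s : G} (hs : s ∈ (P : Subgroup G))
    (hsp : s ^ p = 1) : s ∈ zOne P := by
  rcases eq_or_ne (zOne P) ⊥ with hb | hb
  · rcases eq_or_ne s 1 with rfl | hs1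
    · exact one_mem _
    exfalso
    haveI : Nontrivial (P : Subgroup G) := ⟨⟨⟨s, hs⟩, 1, fun e => hs1 (congrArg Subtype.val e)⟩⟩
    haveI : Nontrivial (Subgroup.center (P : Subgroup G)) := P.2.center_nontrivial
    obtain ⟨⟨z, hz⟩, hz1⟩ := exists_ne (1 : Subgroup.center (P : Subgroup G))
    have hz1' : (z : G) ≠ 1 := fun e => hz1 (Subtype.ext (Subtype.ext e))
    obtain ⟨j, hj⟩ := exists_pow_orderOf_eq z.2 hz1'
    have hmem : (z : G) ^ j ∈ zOne P := ⟨pow_mem z.2 j,
      orderOf_dvd_iff_pow_eq_one.1 (dvd_of_eq hj), fun y hy =>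
      ((show Commute y (z : G) from
        congrArg Subtype.val (Subgroup.mem_center_iff.1 hz ⟨y, hy⟩)).pow_right j).eq⟩
    rw [hb, Subgroup.mem_bot] at hmem
    rw [hmem, orderOf_one] at hj
    exact hp.out.one_lt.ne hj
  · exact h.mem_of_invariant le_rfl hb (fun n hn w hw => conj_mem_zOne hn hw) hs hsp

end CfsgLib.SzPairs46
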