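import Cfsg.Agent.SzPairs46.Module
import Cfsg.Agent.Blocks.AbelianFrobenius.Principal

/-!
# Odd primes: the Sylow subgroup is abelian

If no element of `Ω₁(Z(P))` is conjugate to its inverse then the columns of these elements and the
products of inverse pairs span a space stable under multiplication, so `P = Ω₁(Z(P))`; otherwise an
element of the normalizer acts on `P` as a fixed-point-free involution.
-/

set_option autoImplicit false

namespace CfsgLib.SzPairs46

open Cfsg CfsgLib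

universe u

variable {G : Type u} [Group G] [Finite G] {p : ℕ} [hp : Fact p.Prime] {P : Sylow p G}

/-- Products of columns of elements of `Ω₁(Z(P))` which are not inverse up to conjugacy. -/
theorem Hyp.col_mul_mem_zSpan {G : Type u} [Group G] [Fintype G] {P : Sylow p G} [IsSimpleGroup G]
    (h : Hyp P) {M : Ideal AlgInt} (hM : IsPModular p M) {x z : G} (hx : x ∈ zOne P) (hx1 : x ≠ 1)
    (hz : z ∈ zOne P) (hz1 : z ≠ 1) (hne : ¬ IsConj z x⁻¹) :
    col M x * col M z ∈ Submodule.span ℂ (col M '' {a | a ∈ zOne P ∧ a ≠ 1}) := by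
  refine col_mul_mem fun x' hx' => ?_
  obtain ⟨v, hv⟩ := Blocks.exists_isPPart (G := G) hp.out (x' * z)
  obtain ⟨w₂, hw₂, g₂, hg₂, hcw, hcg, hvz⟩ := h.pair_product hx hx1 hx' hz.2.1 hz1 hv
  have hw₂z := (h.exists_normalizer_of_isConj hx hw₂ hcw).1
  have hg₂z := (h.exists_normalizer_of_isConj hz hg₂ hcg).1
  have h1 : w₂ * g₂ ≠ 1 := fun e => by
    refine hne (hcg.trans ?_)
    rw [eq_inv_of_mul_eq_one_right e]
    obtain ⟨c, hc⟩ := isConj_iff.1 hcw.symm
    exact isConj_iff.2 ⟨c, by rw [← hc]; group⟩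
  exact Submodule.subset_span ⟨w₂ * g₂, ⟨mul_mem hw₂z hg₂z, h1⟩,
    (h.col_eq_of_isPPart hM hv hvz (mul_mem hw₂ hg₂) h1).symm⟩

/-- Without real elements in `Ω₁(Z(P))` the Sylow subgroup is `Ω₁(Z(P))`. -/
theorem Hyp.mem_zOne_of_not_real [IsSimpleGroup G] (h : Hyp P)
    (hreal : ∀ z ∈ zOne P, z ≠ 1 → ¬ IsConj z z⁻¹) {x : G} (hx : x ∈ zOne P) (hx1 : x ≠ 1)
    {s : G} (hs : s ∈ (P : Subgroup G)) : s ∈ zOne P := by
  classical
  by_contra hsZ
  haveI := Fintype.ofFinite G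
  obtain ⟨M, hM⟩ := Blocks.exists_isPModular p hp.out
  set V0 := Submodule.span ℂ (col M '' {a | a ∈ zOne P ∧ a ≠ 1}) with hV0
  set V := Submodule.span ℂ ((col M '' {a | a ∈ zOne P ∧ a ≠ 1}) ∪
    ((fun a => col M a * col M a⁻¹) '' {a | a ∈ zOne P ∧ a ≠ 1})) with hV
  have hle : V0 ≤ V := Submodule.span_mono Set.subset_union_left
  have hpair : ∀ a b : G, a ∈ zOne P → a ≠ 1 → b ∈ zOne P → b ≠ 1 → col M a * col M b ∈ V := by
    intro a b ha ha1 hb hb1
    by_cases hab : IsConj b a⁻¹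
    · rw [col_congr hab]
      exact Submodule.subset_span (Or.inr ⟨a, ⟨ha, ha1⟩, rfl⟩)
    · exact hle (h.col_mul_mem_zSpan hM ha ha1 hb hb1 hab)
  have hV0mul : ∀ F ∈ V0, ∀ b : G, b ∈ zOne P → b ≠ 1 → F * col M b ∈ V := by
    intro F hF b hb hb1
    induction hF using Submodule.span_induction with
    | mem F hF =>
      obtain ⟨a, ⟨ha, ha1⟩, rfl⟩ := hF
      exact hpair a b ha ha1 hb hb1
    | zero => rw [zero_mul]; exact zero_mem _
    | add c d _ _ hc hd => rw [add_mul]; exact add_mem hc hd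
    | smul k c _ hc => rw [smul_mul_assoc]; exact Submodule.smul_mem _ k hc
  have hmul : ∀ F ∈ V, col M x * F ∈ V := by
    intro F hF
    induction hF using Submodule.span_induction with
    | mem F hF =>
      rcases hF with ⟨a, ⟨ha, ha1⟩, rfl⟩ | ⟨a, ⟨ha, ha1⟩, rfl⟩
      · exact hpair x a hx hx1 ha ha1
      have ha' : a⁻¹ ∈ zOne P := inv_mem ha
      have ha'1 : a⁻¹ ≠ 1 := inv_ne_one.2 ha1
      simp only
      by_cases hxa : IsConj a x⁻¹
      · rw [mul_left_comm, mul_comm (col M a)]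
        refine hV0mul _ (h.col_mul_mem_zSpan hM hx hx1 ha' ha'1 fun h' => ?_) a ha ha1
        exact hreal a ha ha1 (hxa.trans h'.symm)
      · rw [← mul_assoc]
        exact hV0mul _ (h.col_mul_mem_zSpan hM hx hx1 ha ha1 hxa) a⁻¹ ha' ha'1
    | zero => rw [mul_zero]; exact zero_mem _
    | add c d _ _ hc hd => rw [mul_add]; exact add_mem hc hd
    | smul k c _ hc => rw [mul_smul_comm]; exact Submodule.smul_mem _ k hc
  have hs1 : s ≠ 1 := fun e => hsZ (e ▸ one_mem _)
  have hsd : p ∣ orderOf s := by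
    obtain ⟨k, hk⟩ := exists_orderOf_of_mem hs
    rcases k with _ | k
    · rw [pow_zero, orderOf_eq_one_iff] at hk; exact absurd hk hs1
    · exact hk ▸ dvd_pow_self p k.succ_ne_zero
  have horth : ∀ a ∈ zOne P, lin M s (col M a) = 0 := by
    intro a ha
    refine lin_col_eq_zero hM (exists_orderOf_of_mem hs) (exists_orderOf_of_mem ha.1) fun hc => ?_
    exact hsZ (h.exists_normalizer_of_isConj ha hs hc.symm).1
  have hlin : ∀ F ∈ V, lin M s F = 0 := by
    refine fun F hF => LinearMap.mem_ker.1 ((Submodule.span_le.2 ?_ : V ≤ LinearMap.ker _) hF)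
    rintro _ (⟨a, ⟨ha, -⟩, rfl⟩ | ⟨a, ⟨ha, ha1⟩, rfl⟩)
    · exact horth a ha
    · simp only [SetLike.mem_coe, LinearMap.mem_ker]
      rw [col_mul, map_smul, map_sum,
        Finset.sum_eq_zero fun g _ => ?_, smul_zero]
      have hc : IsConj a (g * a * g⁻¹) := isConj_iff.2 ⟨g, rfl⟩
      obtain ⟨v, hv⟩ := Blocks.exists_isPPart (G := G) hp.out (g * a * g⁻¹ * a⁻¹)
      obtain ⟨w₂, hw₂, g₂, hg₂, hcw, hcg, hvz⟩ :=
        h.pair_product ha ha1 hc (inv_mem ha).2.1 (inv_ne_one.2 ha1) hv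
      by_cases h1 : w₂ * g₂ = 1
      · refine lin_col_eq_zero_of_regular hM (fun hd => ?_) hsd
        obtain ⟨u, hu, -, -, hur⟩ := hv
        have hv1 : v = 1 := isConj_one_left.1 (show IsConj v 1 from h1 ▸ hvz)
        exact hur (by rw [← hu, hv1, one_mul] at hd; exact hd)
      · rw [h.col_eq_of_isPPart hM hv hvz (mul_mem hw₂ hg₂) h1]
        exact horth _ (mul_mem (h.exists_normalizer_of_isConj ha hw₂ hcw).1
          (h.exists_normalizer_of_isConj (inv_mem ha) hg₂ hcg).1)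
  have hF := apply_one_eq_zero hM hx1 hmul hlin
    (Submodule.subset_span (Or.inl ⟨x, ⟨hx, hx1⟩, rfl⟩)) (oneChar_mem_pblk hM)
  rw [col_apply_one] at hF
  exact one_ne_zero hF

/-- An element of order prime to `p` of the normalizer centralizing a non-identity element of
`P` centralizes every element of `Ω₁(Z(P))`. -/
theorem Hyp.commute_zOne_of_fix (h : Hyp P) {s u y : G} (hs : s ∈ (P : Subgroup G)) (hs1 : s ≠ 1)
    (hy : y ∈ zOne P) (hus : u * s * u⁻¹ = s) (hup : ¬ p ∣ orderOf u)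
    (hun : u ∈ Subgroup.normalizer ((P : Subgroup G) : Set G)) : u * y * u⁻¹ = y :=
  h.commute_of_mem_normalizer hs hs1 hy.1 (mem_centralizer_of_mem_zOne hs hy)
    (Subgroup.mem_centralizer_singleton_iff.2 (mul_inv_eq_iff_eq_mul.1 hus)) hup hun

/-- For odd `p` the Sylow subgroup of a simple group is abelian. -/
theorem Hyp.isMulCommutative [IsSimpleGroup G] (h : Hyp P) (hp2 : p ≠ 2)
    (hZ : zOne P ≠ ⊥) : IsMulCommutative (P : Subgroup G) := by
  obtain ⟨⟨x, hx⟩, hx1'⟩ := (zOne P).ne_bot_iff_exists_ne_one.1 hZ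
  have hx1 : x ≠ 1 := fun e => hx1' (Subtype.ext e)
  by_cases hreal : ∀ z ∈ zOne P, z ≠ 1 → ¬ IsConj z z⁻¹
  · exact ⟨⟨fun a b => Subtype.ext ((h.mem_zOne_of_not_real hreal hx hx1 b.2).2.2 a a.2)⟩⟩
  push Not at hreal
  obtain ⟨y, hy, hy1, hyr⟩ := hreal
  obtain ⟨n, hn, hny⟩ := (h.exists_normalizer_of_isConj hy (inv_mem hy.1) hyr).2
  obtain ⟨a, b, hb, hab⟩ := Nat.exists_eq_pow_mul_and_not_dvd (orderOf_pos n).ne' 2 (by norm_num)
  set m := n ^ b with hm
  have hpow : ∀ k : ℕ, n ^ k * y * (n ^ k)⁻¹ = if Even k then y else y⁻¹ := by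
    intro k
    induction k with
    | zero => simp
    | succ k ih =>
      have e : n ^ (k + 1) * y * (n ^ (k + 1))⁻¹ = n * (n ^ k * y * (n ^ k)⁻¹) * n⁻¹ := by
        rw [pow_succ']; group
      rw [e, ih]
      by_cases hk : Even k
      · rw [if_pos hk, if_neg (by simpa [Nat.even_add_one] using hk), hny]
      · rw [if_neg hk, if_pos (by simpa [Nat.even_add_one] using hk),
          show n * y⁻¹ * n⁻¹ = (n * y * n⁻¹)⁻¹ by group, hny, inv_inv]
  have hmy : m * y * m⁻¹ = y⁻¹ := by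
    rw [hm, hpow, if_neg fun e => hb (even_iff_two_dvd.1 e)]
  have hmN : m ∈ Subgroup.normalizer ((P : Subgroup G) : Set G) := pow_mem hn b
  have hmp : ¬ p ∣ orderOf m := by
    rw [hm, orderOf_pow, hab, Nat.gcd_eq_right (dvd_mul_left b _),
      Nat.mul_div_cancel _ (Nat.pos_of_ne_zero fun e => hb (by rw [e]; exact dvd_zero 2))]
    exact fun hd => hp2 ((Nat.prime_dvd_prime_iff_eq hp.out Nat.prime_two).1
      (hp.out.dvd_of_dvd_pow hd))
  have hmN2 : m ^ 2 ∈ Subgroup.normalizer ((P : Subgroup G) : Set G) := pow_mem hmN 2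
  have hfix : ∀ z : G, z ∈ (P : Subgroup G) → m ^ 2 * z * (m ^ 2)⁻¹ = z := by
    intro z hz
    refine h.commute_of_mem_normalizer hy.1 hy1 hz
      (Subgroup.mem_centralizer_singleton_iff.2 (hy.2.2 z hz)) ?_
      (fun hd => hmp (hd.trans (orderOf_pow_dvd 2))) hmN2
    rw [Subgroup.mem_centralizer_singleton_iff, ← mul_inv_eq_iff_eq_mul, hm, ← pow_mul, hpow,
      if_pos ⟨b, by ring⟩]
  let φ : (P : Subgroup G) →* (P : Subgroup G) :=
    ((P : Subgroup G).normalizerMonoidHom ⟨m, hmN⟩).toMonoidHom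
  have hφ : ∀ z : (P : Subgroup G), (φ z : G) = m * z * m⁻¹ := fun z => rfl
  have hff : MonoidHom.FixedPointFree φ := by
    intro s hs
    by_contra hs1
    have hsG : m * (s : G) * m⁻¹ = s := (hφ s).symm.trans (congrArg Subtype.val hs)
    have hyy := h.commute_zOne_of_fix s.2 (fun e => hs1 (Subtype.ext e)) hy hsG hmp hmN
    rw [hmy] at hyy
    have h2 : y ^ 2 = 1 := by rw [pow_two]; nth_rewrite 1 [← hyy]; exact inv_mul_cancel y
    have hd := Nat.dvd_gcd (orderOf_dvd_of_pow_eq_one h2) (orderOf_dvd_of_pow_eq_one hy.2.1)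
    rw [((Nat.coprime_primes Nat.prime_two hp.out).2 (Ne.symm hp2)).gcd_eq_one] at hd
    exact hy1 (orderOf_eq_one_iff.1 (Nat.eq_one_of_dvd_one hd))
  have hinv : Function.Involutive φ := fun z => Subtype.ext (by
    rw [hφ, hφ]
    have := hfix z z.2
    rw [pow_two] at this
    simpa [mul_assoc] using this)
  exact ⟨⟨fun a b => MonoidHom.FixedPointFree.commute_all_of_involutive hff hinv a b⟩⟩

end CfsgLib.SzPairs46
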