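import Cfsg.Agent.SzPairs46.Basic
import Cfsg.Agent.Blocks.AbelianFrobenius.IndexThree

/-!
# The character bound at an odd prime

With `B` the principal block, the identities for products of classes of elements of order `p` in
`P` contradict the structure of `B` when `p` is odd.
-/

set_option autoImplicit false
set_option linter.unusedSectionVars false
set_option linter.style.haveILetI false

open Cfsg CfsgLib
open CfsgLib.Blocks CfsgLib.Blocks.HeightZero CfsgLib.Blocks.AbelianFrobenius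

namespace CfsgLib.SzPairs46

universe u

variable {G : Type u} [Group G] [Fintype G] {p : ℕ} [Fact p.Prime] {M : Ideal AlgInt}
  {P : Sylow p G}

/-- The non-identity elements of `Ω₁(Z(P))`. -/
noncomputable def zStar (P : Sylow p G) : Finset G :=
  (Set.toFinite {z : G | z ∈ zOne P ∧ z ≠ 1}).toFinset

theorem mem_zStar {z : G} : z ∈ zStar P ↔ z ∈ zOne P ∧ z ≠ 1 := by
  simp [zStar]

theorem cube_div_le {c d : ℝ} (hd : 0 < d) (h : 0 < c → 2 * c ≤ d) : c ^ 3 / d ≤ c ^ 2 / 2 := by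
  rw [div_le_iff₀ hd]
  rcases le_or_gt c 0 with hc | hc
  · nlinarith [mul_nonneg (sq_nonneg c) hd.le, mul_nonpos_of_nonneg_of_nonpos (sq_nonneg c) hc]
  · nlinarith [mul_le_mul_of_nonneg_left (h hc) (sq_nonneg c)]

/-- A non-principal character of a simple group takes its degree only at the identity. -/
theorem apply_ne_one [IsSimpleGroup G] {χ : IrrCharacter G} (hχ : χ ≠ Chars.oneChar G) {g : G}
    (hg : g ≠ 1) : (χ : G → ℂ) g ≠ (χ : G → ℂ) 1 := by
  classical
  intro h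
  have hmem : g ∈ Chars.charKer (χ : G → ℂ) :=
    (Chars.mem_charKer_iff (Chars.isCharacter_coe χ)).2 h
  rcases (inferInstance : (Chars.charKer (χ : G → ℂ)).Normal).eq_bot_or_eq_top with hb | ht
  · exact hg (by rwa [hb, Subgroup.mem_bot] at hmem)
  · have hall : ∀ x : G, (χ : G → ℂ) x = (χ : G → ℂ) 1 := fun x =>
      Chars.map_eq_map_one_of_mem_charKer (ht ▸ Subgroup.mem_top x)
    have hs := Chars.sum_mul_map_inv χ (Chars.oneChar G)
    rw [if_neg hχ] at hs
    simp only [hall, Chars.oneChar_apply, mul_one, Finset.sum_const, Finset.card_univ,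
      nsmul_eq_mul, mul_eq_zero, Nat.cast_eq_zero, Fintype.card_ne_zero, false_or] at hs
    rw [← Chars.coe_charDegree, Nat.cast_eq_zero] at hs
    exact (Chars.charDegree_pos χ).ne' hs

variable [hab : IsMulCommutative P]

/-- The multiplicities on `P` are natural numbers. -/
theorem exists_mult_nat [Fintype (P : Subgroup G)] (χ : IrrCharacter G)
    (ψ : (P : Subgroup G) →* ℂˣ) : ∃ m : ℕ, (Nat.card (P : Subgroup G) : ℂ) * (m : ℂ) =
      ∑ y : (P : Subgroup G), (χ : G → ℂ) y * (ψ y⁻¹ : ℂ) := by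
  classical
  letI := Fintype.ofFinite ((P : Subgroup G) →* ℂˣ)
  obtain ⟨n, -, hn, -⟩ := Chars.exists_restrict_coeff χ (P : Subgroup G)
  have hexp : ∀ y : (P : Subgroup G), (χ : G → ℂ) y =
      ∑ φ : (P : Subgroup G) →* ℂˣ, ((n (Chars.linChar φ) : ℕ) : ℂ) * (φ y : ℂ) := by
    intro y
    refine (congrFun hn y).trans ?_
    rw [Finset.sum_apply]
    refine (Fintype.sum_bijective _ linChar_bijective _ _ fun φ => ?_).symm
    simp
  refine ⟨n (Chars.linChar ψ), ?_⟩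
  simp only [hexp, Finset.sum_mul, mul_assoc]
  rw [Finset.sum_comm, Finset.sum_congr rfl fun φ _ => by rw [← Finset.mul_sum, sum_mul_inv]]
  simp [mul_comm]

/-- A character constant off the identity of `P`: its degree exceeds the value by a multiple of
`|P|`. -/
theorem exists_eq_add_of_const [Fintype (P : Subgroup G)] {χ : IrrCharacter G} {c : ℂ}
    (hc : ∀ y : (P : Subgroup G), (y : G) ≠ 1 → (χ : G → ℂ) y = c)
    {y₀ : (P : Subgroup G)} (hy₀ : (y₀ : G) ≠ 1) :
    ∃ m : ℕ, c = (charDegree (χ : G → ℂ) : ℂ) - (Nat.card (P : Subgroup G) : ℂ) * (m : ℂ) := by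
  classical
  obtain ⟨ψ, hψ⟩ := Chars.exists_linChar_ne_one (G := (P : Subgroup G)) (g := y₀) (by
    rw [commutator_eq_bot (G := ↥(P : Subgroup G)), Subgroup.mem_bot]
    exact fun e => hy₀ (congrArg Subtype.val e))
  obtain ⟨m, hm⟩ := exists_mult_nat χ ψ
  refine ⟨m, ?_⟩
  have hne : ψ ≠ 1 := fun e => hψ (by rw [e]; rfl)
  have hsum : ∑ y : (P : Subgroup G), (ψ y⁻¹ : ℂ) = 0 := by
    have h := sum_mul_inv (1 : (P : Subgroup G) →* ℂˣ) ψ
    rw [if_neg hne.symm] at h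
    simpa using h
  have hdec : ∀ y : (P : Subgroup G), (χ : G → ℂ) y * (ψ y⁻¹ : ℂ) =
      c * (ψ y⁻¹ : ℂ) + if y = 1 then ((χ : G → ℂ) 1 - c) else 0 := by
    intro y
    by_cases hy : y = 1
    · subst hy; simp
    · rw [if_neg hy, add_zero, hc y fun e => hy (Subtype.ext e)]
  rw [Finset.sum_congr rfl fun y _ => hdec y, Finset.sum_add_distrib, ← Finset.mul_sum, hsum,
    mul_zero, zero_add, Finset.sum_ite_eq', if_pos (Finset.mem_univ _)] at hm
  rw [Chars.coe_charDegree, hm]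
  ring

theorem false_of_odd [IsSimpleGroup G] (hM : IsPModular p M) (hnc : ¬ IsMulCommutative G)
    (hp2 : p ≠ 2) (hZ : zOne P ≠ ⊥) (hfrob : Frob P) (hE : 2 ≤ Nat.card (autP P))
    (hK : ∀ x ∈ zOne P, ∀ y ∈ zOne P, x ≠ 1 → y ≠ 1 → ¬ IsConj y x⁻¹ →
      ∑ χ ∈ (principalBlock M G).toFinite.toFinset, (χ : G → ℂ) x * (χ : G → ℂ) y *
          (∑ z ∈ zStar P, (χ : G → ℂ) z⁻¹) / (χ : G → ℂ) 1 =
        (Nat.card (autP P) : ℂ) * (Nat.card (P : Subgroup G) : ℂ))
    (hS : ∀ x ∈ zOne P, x ≠ 1 → (∀ y ∈ zOne P, y ≠ 1 → IsConj x y) →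
      (Nat.card (P : Subgroup G) : ℝ) / 2 ≤ (∑ χ ∈ (principalBlock M G).toFinite.toFinset,
        (χ : G → ℂ) x * (χ : G → ℂ) x * (χ : G → ℂ) x⁻¹ / (χ : G → ℂ) 1).re) : False := by
  classical
  have := isMaximal_of_isPModular hM
  haveI : Finite (MulAut (P : Subgroup G)) := Finite.of_injective _ DFunLike.coe_injective
  letI := Fintype.ofFinite (autP P)
  letI := Fintype.ofFinite (P : Subgroup G)
  have hfpf := fpf_autP hfrob
  set T := (principalBlock M G).toFinite.toFinset with hT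
  have hTm : ∀ χ, χ ∈ T ↔ χ ∈ principalBlock M G := fun χ => Set.Finite.mem_toFinset _
  set Zp : Subgroup (P : Subgroup G) := (zOne P).subgroupOf (P : Subgroup G) with hZp
  have hZmem : ∀ y : (P : Subgroup G), y ∈ Zp ↔ (y : G) ∈ zOne P := fun y => Subgroup.mem_subgroupOf
  have hAinv : ∀ (a : autP P) (y : (P : Subgroup G)), y ∈ Zp →
      (a : MulAut (P : Subgroup G)) y ∈ Zp := by
    rintro ⟨a, n, rfl⟩ y hy
    rw [hZmem, normalizerMonoidHom_coe]
    exact conj_mem_zOne n.2 ((hZmem y).1 hy)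
  have hAconj : ∀ (a : autP P) (y : (P : Subgroup G)),
      IsConj (y : G) ((a : MulAut (P : Subgroup G)) y : G) := by
    rintro ⟨a, n, rfl⟩ y
    exact isConj_iff.2 ⟨n, (normalizerMonoidHom_coe P n y).symm⟩
  -- a non-identity element of `Ω₁`
  obtain ⟨z₀, hz₀, hz₀1⟩ := (Subgroup.bot_or_exists_ne_one (zOne P)).resolve_left hZ
  set x₀ : Zp := ⟨⟨z₀, zOne_le P hz₀⟩, (hZmem _).2 hz₀⟩ with hx₀
  have hx₀1 : x₀ ≠ 1 := fun e => hz₀1 (congrArg (fun v : Zp => ((v : (P : Subgroup G)) : G)) e)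
  have hx₀G : ((x₀ : (P : Subgroup G)) : G) ≠ 1 := hz₀1
  have hp3 : 3 ≤ p := by
    have := (Fact.out : p.Prime).two_le
    omega
  set q := Nat.card (P : Subgroup G) with hq
  set e := Nat.card (autP P) with he
  set Zc := Nat.card Zp with hZc
  have hZ3 : 3 ≤ Zc := by
    have ho : orderOf x₀ = p := by
      refine orderOf_eq_prime ?_ hx₀1
      refine Subtype.ext (Subtype.ext ?_)
      simpa [hx₀] using hz₀.2.1
    exact hp3.trans (ho ▸ Nat.le_of_dvd Nat.card_pos (orderOf_dvd_natCard x₀))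
  have hZq : Zc ≤ q := Subgroup.card_le_card_group Zp
  -- the orbit of `x₀`
  let orb : autP P → {z : Zp // z ≠ 1} := fun a =>
    ⟨⟨(a : MulAut (P : Subgroup G)) (x₀ : (P : Subgroup G)), hAinv a _ x₀.2⟩, fun h => hx₀1 (by
      have h' := congrArg Subtype.val h
      exact Subtype.ext ((map_eq_one_iff _ (a : MulAut (P : Subgroup G)).injective).1 h'))⟩
  have horb : Function.Injective orb := by
    intro a b hab'
    have h' : (a : MulAut (P : Subgroup G)) (x₀ : (P : Subgroup G)) =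
        (b : MulAut (P : Subgroup G)) (x₀ : (P : Subgroup G)) :=
      congrArg Subtype.val (congrArg Subtype.val hab')
    by_contra hne
    refine hx₀G (congrArg Subtype.val (hfpf _ (b⁻¹ * a).2 (fun e' => hne ?_)
      (x₀ : (P : Subgroup G)) ?_))
    · exact (inv_mul_eq_one.1 (Subtype.ext e' : b⁻¹ * a = 1)).symm
    · simp [h', MulAut.mul_apply]
  have hcZ : Nat.card {z : Zp // z ≠ 1} = Zc - 1 := by
    rw [Nat.card_eq_fintype_card, Fintype.card_subtype_compl, Fintype.card_subtype_eq, hZc,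
      Nat.card_eq_fintype_card]
  have heZ : e + 1 ≤ Zc := by
    have := Nat.card_le_card_of_injective orb horb
    omega
  have htrans : e + 1 = Zc → ∀ z : Zp, z ≠ 1 →
      ∃ a : autP P, (a : MulAut (P : Subgroup G)) (x₀ : (P : Subgroup G)) = z := by
    intro h z hz
    have hb : Function.Bijective orb := (Nat.bijective_iff_injective_and_card orb).2 ⟨horb, by omega⟩
    obtain ⟨a, ha⟩ := hb.2 ⟨z, hz⟩
    exact ⟨a, congrArg Subtype.val (congrArg Subtype.val ha)⟩
  have hconjall : e + 1 = Zc → ∀ y ∈ zOne P, y ≠ 1 → IsConj z₀ y := by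
    intro h y hy hy1
    obtain ⟨a, ha⟩ := htrans h ⟨⟨y, zOne_le P hy⟩, (hZmem _).2 hy⟩ (fun e' => hy1
      (congrArg (fun v : Zp => ((v : (P : Subgroup G)) : G)) e'))
    have h1 := hAconj a (x₀ : (P : Subgroup G))
    rw [ha] at h1
    exact h1
  -- degrees
  set deg : IrrCharacter G → ℕ := fun χ => charDegree (χ : G → ℂ) with hdeg
  have hdeg0 : ∀ χ, (0 : ℝ) < (deg χ : ℝ) := fun χ => Nat.cast_pos.2 (Chars.charDegree_pos χ)
  have hdeg1 : ∀ χ : IrrCharacter G, (χ : G → ℂ) 1 = (deg χ : ℂ) := fun χ =>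
    (Chars.coe_charDegree χ).symm
  have hT1 : Chars.oneChar G ∈ T := (hTm _).2 oneChar_mem_principalBlock
  have hdegone : deg (Chars.oneChar G) = 1 := by
    have := hdeg1 (Chars.oneChar G)
    rw [Chars.oneChar_apply] at this
    exact_mod_cast this.symm
  by_cases hbig : e + 1 < q
  swap
  -- one class of non-identity elements of `P`
  · have heq : e + 1 = Zc := by omega
    have hqe : q = e + 1 := by omega
    have htop : Zp = ⊤ := Subgroup.eq_top_of_card_eq _ (by rw [← hZc, ← hq]; omega)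
    have hconst : ∀ χ : IrrCharacter G, ∀ y : (P : Subgroup G), (y : G) ≠ 1 →
        (χ : G → ℂ) y = (χ : G → ℂ) z₀ := by
      intro χ y hy
      obtain ⟨g, hg⟩ := isConj_iff.1
        (hconjall heq y ((hZmem y).1 (htop ▸ Subgroup.mem_top y)) hy)
      rw [← hg, Chars.isClassFunction_coe χ]
    choose m hm using fun χ : IrrCharacter G => exists_eq_add_of_const (hconst χ) hx₀G
    set c : IrrCharacter G → ℤ := fun χ => (deg χ : ℤ) - q * m χ with hc
    have hval : ∀ χ : IrrCharacter G, (χ : G → ℂ) z₀ = (c χ : ℂ) := fun χ => by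
      rw [hm χ, hc]; push_cast; rfl
    have hvalinv : ∀ χ : IrrCharacter G, (χ : G → ℂ) z₀⁻¹ = (c χ : ℂ) := fun χ => by
      rw [← hval χ]
      exact hconst χ (x₀ : (P : Subgroup G))⁻¹ (by simpa [hx₀] using hz₀1)
    have hsq : ∑ χ ∈ T, c χ ^ 2 = (q : ℤ) := by
      apply Int.cast_injective (α := ℂ)
      have h := column_self hM hfrob (y := (x₀ : (P : Subgroup G))) hx₀G
      rw [Int.cast_sum, Int.cast_natCast, ← h]
      refine Finset.sum_congr rfl fun χ _ => ?_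
      show _ = (χ : G → ℂ) z₀ * (χ : G → ℂ) z₀⁻¹
      rw [hval, hvalinv]; push_cast; ring
    have horth : ∑ χ ∈ T, c χ * (deg χ : ℤ) = 0 := by
      apply Int.cast_injective (α := ℂ)
      have h := sum_mul_inv_eq_zero_of_regular_of_singular hM
        (isIntegralSet_block hM isPBlock_principalBlock) (x := (1 : G)) (y := z₀)
        (by simpa using hM.1.ne_one)
        (by rw [orderOf_eq_prime hz₀.2.1 hz₀1])
      rw [Int.cast_sum, Int.cast_zero, ← h]
      refine Finset.sum_congr rfl fun χ _ => ?_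
      rw [hdeg1, hvalinv]; push_cast; ring
    have hone : c (Chars.oneChar G) = 1 := by
      have := hval (Chars.oneChar G)
      rw [Chars.oneChar_apply] at this
      exact_mod_cast this.symm
    obtain ⟨χn, hχn, hneg⟩ : ∃ χ ∈ T, c χ < 0 := by
      by_contra hcon
      push Not at hcon
      have := Finset.single_le_sum (f := fun χ => c χ * (deg χ : ℤ))
        (fun χ hχ => mul_nonneg (hcon χ hχ) (Int.natCast_nonneg _)) hT1
      simp only [hone, hdegone, horth] at this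
      norm_num at this
    have hn1 : χn ≠ Chars.oneChar G := fun e' => by rw [e', hone] at hneg; omega
    have hsq' : ∑ χ ∈ T.erase (Chars.oneChar G), (c χ : ℝ) ^ 2 = (q : ℝ) - 1 := by
      have h := Finset.add_sum_erase T (fun χ => c χ ^ 2) hT1
      rw [hsq, hone] at h
      have h' : ((∑ χ ∈ T.erase (Chars.oneChar G), c χ ^ 2 : ℤ) : ℝ) = (((q : ℤ) - 1 : ℤ) : ℝ) := by
        exact_mod_cast (show ∑ χ ∈ T.erase (Chars.oneChar G), c χ ^ 2 = (q : ℤ) - 1 by
          simp only [one_pow] at h; linarith)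
      push_cast at h'
      exact h'
    have hgap : ∀ χ ∈ T.erase (Chars.oneChar G), 0 < (c χ : ℝ) → 2 * (c χ : ℝ) ≤ deg χ := by
      intro χ hχ hpos
      have hne := (Finset.mem_erase.1 hχ).1
      have hm1 : 1 ≤ m χ := by
        by_contra h0
        apply apply_ne_one hne hz₀1
        rw [hm χ, show m χ = 0 by omega, Nat.cast_zero, mul_zero, sub_zero, hdeg1]
      have hle := Finset.single_le_sum (f := fun ψ => (c ψ : ℝ) ^ 2) (fun ψ _ => sq_nonneg _) hχ
      rw [hsq'] at hle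
      have h1 : (1 : ℝ) ≤ c χ := by exact_mod_cast (show (1 : ℤ) ≤ c χ by exact_mod_cast hpos)
      have h2 : (c χ : ℝ) = deg χ - q * m χ := by simp [hc]
      have hm1' : (1 : ℝ) ≤ (m χ : ℝ) := by exact_mod_cast hm1
      nlinarith [mul_le_mul_of_nonneg_left hm1' (Nat.cast_nonneg q : (0 : ℝ) ≤ q),
        mul_le_mul_of_nonneg_left h1 (show (0 : ℝ) ≤ c χ by linarith)]
    have hre := hS z₀ hz₀ hz₀1 (hconjall heq)
    have hsum : ∑ χ ∈ T, (χ : G → ℂ) z₀ * (χ : G → ℂ) z₀ * (χ : G → ℂ) z₀⁻¹ / (χ : G → ℂ) 1 =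
        ((∑ χ ∈ T, (c χ : ℝ) ^ 3 / deg χ : ℝ) : ℂ) := by
      push_cast
      refine Finset.sum_congr rfl fun χ _ => ?_
      rw [hval, hvalinv, hdeg1]; ring
    rw [hsum, Complex.ofReal_re, ← Finset.add_sum_erase _ _ hT1, hone, hdegone] at hre
    have hlt : ∑ χ ∈ T.erase (Chars.oneChar G), (c χ : ℝ) ^ 3 / deg χ <
        ∑ χ ∈ T.erase (Chars.oneChar G), ((c χ : ℝ) ^ 2 / 2 - if χ = χn then 1 / 2 else 0) := by
      have hnegterm : (c χn : ℝ) ^ 3 / deg χn < 0 :=
        div_neg_of_neg_of_pos (Odd.pow_neg (by decide) (by exact_mod_cast hneg)) (hdeg0 _)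
      have hsqn : (1 : ℝ) ≤ (c χn : ℝ) ^ 2 := by
        exact_mod_cast (show (1 : ℤ) ≤ c χn ^ 2 by nlinarith)
      refine Finset.sum_lt_sum (fun χ hχ => ?_) ⟨χn, Finset.mem_erase.2 ⟨hn1, hχn⟩, ?_⟩
      · split_ifs with h
        · subst h; linarith
        · rw [sub_zero]; exact cube_div_le (hdeg0 _) (hgap χ hχ)
      · rw [if_pos rfl]; linarith
    rw [Finset.sum_sub_distrib, ← Finset.sum_div, hsq', Finset.sum_ite_eq',
      if_pos (Finset.mem_erase.2 ⟨hn1, hχn⟩)] at hlt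
    simp only [Int.cast_one, one_pow, Nat.cast_one, div_one] at hre
    linarith
  -- the family
  obtain ⟨d, δ, d₀, ζ, hδ, hinj, hζB, -, hone, hX, hY, hagree, hcnt, hnorm, -⟩ :=
    exists_family hM hfrob hbig
  letI := Fintype.ofFinite (Orb (autP P))
  set U := (Set.toFinite (principalBlock M G \ Set.range ζ)).toFinset with hU
  have hUm : ∀ χ, χ ∈ U ↔ χ ∈ principalBlock M G ∧ χ ∉ Set.range ζ := fun χ => by
    rw [hU, Set.Finite.mem_toFinset]; rfl
  have hsplit : ∀ F : IrrCharacter G → ℂ,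
      ∑ χ ∈ T, F χ = (∑ i, F (ζ i)) + ∑ χ ∈ U, F χ := by
    intro F
    rw [← Finset.sum_image (g := ζ) (f := F) (s := Finset.univ) hinj.injOn, ← Finset.sum_union]
    · refine Finset.sum_congr ?_ fun _ _ => rfl
      ext χ
      simp only [Finset.mem_union, Finset.mem_image, Finset.mem_univ, true_and, hTm, hUm,
        Set.mem_range]
      constructor
      · intro h
        by_cases h' : ∃ i, ζ i = χ
        · exact Or.inl h'
        · exact Or.inr ⟨h, h'⟩
      · rintro (⟨i, rfl⟩ | ⟨h, -⟩)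
        · exact hζB i
        · exact h
    · rw [Finset.disjoint_left]
      intro χ hχ hχ'
      simp only [Finset.mem_image, Finset.mem_univ, true_and] at hχ
      exact ((hUm _).1 hχ').2 hχ
  have hU1 : Chars.oneChar G ∈ U := (hUm _).2 ⟨oneChar_mem_principalBlock, hone⟩
  have hd1 : d (Chars.oneChar G) = 1 := by
    have h := (hX _ oneChar_mem_principalBlock hone).2 (x₀ : (P : Subgroup G)) hx₀G
    rw [Chars.oneChar_apply] at h
    exact_mod_cast h.symm
  set t := Fintype.card (Orb (autP P)) with ht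
  have htq : t * e + 1 = q := by rw [ht, ← Nat.card_eq_fintype_card]; exact hcnt
  rw [finsum_mem_eq_finite_toFinset_sum _ (Set.toFinite _), Nat.card_eq_fintype_card, ← ht,
    ← he] at hnorm
  change (d₀ - δ) ^ 2 + ((t : ℤ) - 1) * d₀ ^ 2 + ∑ χ ∈ U, d χ ^ 2 = (e : ℤ) + 1 at hnorm
  have hδ2 : δ ^ 2 = 1 := by rcases hδ with rfl | rfl <;> rfl
  have hnorm' : (t : ℤ) * d₀ ^ 2 - 2 * δ * d₀ + ∑ χ ∈ U, d χ ^ 2 = (e : ℤ) := by
    linear_combination hnorm - hδ2
  haveI : Nontrivial (Orb (autP P)) := Fintype.one_lt_card_iff_nontrivial.1 (by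
    rw [← ht]
    by_contra h
    have : t * e ≤ 1 * e := Nat.mul_le_mul_right _ (by omega)
    omega)
  obtain ⟨i₀⟩ := (inferInstance : Nonempty (Orb (autP P)))
  set f := deg (ζ i₀) with hf
  have hf1 : ∀ i, (ζ i : G → ℂ) 1 = (f : ℂ) := fun i => by
    rw [hagree i i₀ 1 (by simpa using hM.1.ne_one), hdeg1]
  set η : Orb (autP P) → ↥(P : Subgroup G) → ℂ := fun i y =>
    ∑ a : autP P, (Orb.rep (autP P) i ((a : MulAut (P : Subgroup G)) y) : ℂ) with hη
  have hζval : ∀ i, ∀ y : (P : Subgroup G), (y : G) ≠ 1 →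
      (ζ i : G → ℂ) y = (d₀ : ℂ) + (δ : ℂ) * η i y := fun i y hy => by
    rw [hY i y hy, finsum_eq_sum_of_fintype]
  have hηone : ∀ i, η i 1 = (e : ℂ) := fun i => by
    simp [hη, he, Nat.card_eq_fintype_card]
  have hηconj : ∀ i (b : autP P) y, η i ((b : MulAut (P : Subgroup G)) y) = η i y := fun i b y =>
    Fintype.sum_equiv (Equiv.mulRight b) _ _ fun a => rfl
  -- multiplicities in the family
  have hmult : ∀ i, ∀ ψ : (P : Subgroup G) →* ℂˣ, ∃ m : ℕ, (q : ℤ) * m =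
      (f : ℤ) - d₀ - δ * e + (if ψ = 1 then (q : ℤ) * d₀ else 0) +
        δ * (q * fixCount (A := autP P) (Orb.rep (autP P) i) ψ) := by
    intro i ψ
    obtain ⟨m, hm⟩ := exists_mult_nat (ζ i) ψ
    refine ⟨m, ?_⟩
    apply Int.cast_injective (α := ℂ)
    have hdec : ∀ y : (P : Subgroup G), (ζ i : G → ℂ) y * (ψ y⁻¹ : ℂ) =
        (d₀ : ℂ) * (ψ y⁻¹ : ℂ) + (δ : ℂ) * (η i y * (ψ y⁻¹ : ℂ)) +
          if y = 1 then ((f : ℂ) - d₀ - δ * e) else 0 := by
      intro y
      by_cases hy : y = 1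
      · subst hy
        rw [if_pos rfl, hηone, OneMemClass.coe_one, hf1, inv_one, map_one, Units.val_one]
        ring
      · rw [if_neg hy, hζval i y fun e' => hy (Subtype.ext e')]; ring
    rw [Finset.sum_congr rfl fun y _ => hdec y, Finset.sum_add_distrib, Finset.sum_add_distrib,
      ← Finset.mul_sum, ← Finset.mul_sum, sum_twist_mul_inv, Finset.sum_ite_eq',
      if_pos (Finset.mem_univ _)] at hm
    have hsum : ∑ y : (P : Subgroup G), (ψ y⁻¹ : ℂ) = if ψ = 1 then (q : ℂ) else 0 := by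
      have h := sum_mul_inv (1 : (P : Subgroup G) →* ℂˣ) ψ
      simp only [MonoidHom.one_apply, Units.val_one, one_mul] at h
      rw [h, hq, Nat.card_eq_fintype_card]
      by_cases hψ : ψ = 1
      · rw [if_pos hψ.symm, if_pos hψ]
      · rw [if_neg (Ne.symm hψ), if_neg hψ]
    rw [hsum, ← Nat.card_eq_fintype_card, ← hq] at hm
    push_cast
    split_ifs at hm ⊢ <;> push_cast <;> linear_combination hm
  have hA0 : (f : ℤ) + ((q : ℤ) - 1) * d₀ - δ * e ≥ 0 := by
    obtain ⟨m, hm⟩ := hmult i₀ 1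
    rw [if_pos rfl, fixCount_one_right (Orb.rep_ne_one _ _)] at hm
    nlinarith
  have hother : ∀ _i : Orb (autP P), ∃ m : ℕ, (f : ℤ) - d₀ - δ * e = (q : ℤ) * m := by
    intro i
    obtain ⟨j, hj⟩ := exists_ne i
    obtain ⟨m, hm⟩ := hmult i (Orb.rep (autP P) j)
    rw [if_neg (Orb.rep_ne_one _ _), fixCount_rep hfpf, if_neg hj.symm] at hm
    exact ⟨m, by linarith⟩
  -- orbits trivial on `Ω₁`
  set I₁ := Finset.univ.filter fun i : Orb (autP P) =>
    ∀ z : Zp, Orb.rep (autP P) i (z : (P : Subgroup G)) = 1 with hI₁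
  set t₁ := I₁.card with ht₁
  set t₂ := (Finset.univ \ I₁).card with ht₂
  have ht12 : t₁ + t₂ = t := by
    rw [ht₁, ht₂, ht, ← Finset.card_univ, add_comm]
    exact Finset.card_sdiff_add_card_eq_card (Finset.subset_univ _)
  have hη₁ : ∀ i ∈ I₁, ∀ z : Zp, η i z = (e : ℂ) := by
    intro i hi z
    simp only [hη]
    rw [Finset.sum_congr rfl fun (a : autP P) _ => by
      rw [show Orb.rep (autP P) i ((a : MulAut (P : Subgroup G)) z) = 1 from
        (Finset.mem_filter.1 hi).2 ⟨_, hAinv a z z.2⟩, Units.val_one]]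
    simp [he, Nat.card_eq_fintype_card]
  have hηZ : ∀ i ∉ I₁, ∑ z : Zp, η i z = 0 := by
    intro i hi
    obtain ⟨z₁, hz₁⟩ : ∃ z : Zp, Orb.rep (autP P) i (z : (P : Subgroup G)) ≠ 1 := by
      by_contra h
      push Not at h
      exact hi (Finset.mem_filter.2 ⟨Finset.mem_univ _, h⟩)
    simp only [hη]
    rw [Finset.sum_comm]
    refine Finset.sum_eq_zero fun a _ => ?_
    have hs := sum_hom_units ((Units.coeHom ℂ).comp
      (((Orb.rep (autP P) i).comp (a : MulAut (P : Subgroup G)).toMonoidHom).comp Zp.subtype))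
    rw [if_neg ?_, Nat.cast_zero] at hs
    · simpa using hs
    · intro h
      apply hz₁
      have hai : ((a⁻¹ : autP P) : MulAut (P : Subgroup G)) z₁ ∈ Zp := hAinv _ _ z₁.2
      have h' := DFunLike.congr_fun h ⟨_, hai⟩
      simpa using h'
  have hηall : ∀ z : Zp, z ≠ 1 → ∑ i, η i z = -1 := fun z hz =>
    sum_orb_rep hfpf fun e' => hz (Subtype.ext e')
  have hcount : Zc * (e * t₁ + 1) = q := by
    have h1 : ∑ z : Zp, ∑ i, η i z = (t₁ : ℂ) * (e : ℂ) * (Zc : ℂ) := by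
      rw [Finset.sum_comm, ← Finset.sum_sdiff (Finset.subset_univ I₁),
        Finset.sum_eq_zero (fun i hi => hηZ i (Finset.mem_sdiff.1 hi).2), zero_add,
        Finset.sum_congr rfl fun i hi => Finset.sum_congr rfl fun z _ => hη₁ i hi z]
      simp [hZc, ht₁, Nat.card_eq_fintype_card]
      ring
    rw [← Finset.add_sum_erase _ _ (Finset.mem_univ (1 : Zp)),
      Finset.sum_congr rfl fun z hz => hηall z (Finset.ne_of_mem_erase hz)] at h1
    simp only [OneMemClass.coe_one, hηone, Finset.sum_const, Finset.card_erase_of_mem,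
      Finset.mem_univ, Finset.card_univ, nsmul_eq_mul, ← Nat.card_eq_fintype_card, ← hZc] at h1
    rw [Nat.card_eq_fintype_card (α := Orb (autP P)), ← ht, Nat.cast_sub (by omega)] at h1
    push_cast at h1
    have h2 : ((Zc * (e * t₁ + 1) : ℕ) : ℂ) = ((t * e + 1 : ℕ) : ℂ) := by
      push_cast
      linear_combination -h1
    rw [← htq]
    exact_mod_cast h2
  set w := e * t₁ + 1 with hw
  have het2 : e * t₂ = w * (Zc - 1) := by
    have h1 : w * (Zc - 1) + w = q := by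
      rw [← hcount, ← Nat.mul_succ, show (Zc - 1).succ = Zc by omega, mul_comm]
    have h2 : e * t₁ + e * t₂ + 1 = q := by rw [← mul_add, ht12, mul_comm]; exact htq
    omega
  obtain ⟨t₀, ht₀⟩ : e ∣ Zc - 1 := by
    refine Nat.Coprime.dvd_of_dvd_mul_left ?_ ⟨t₂, het2.symm⟩
    rw [hw, Nat.coprime_mul_left_add_right]
    exact Nat.coprime_one_right e
  have ht2w : t₂ = w * t₀ := by
    rw [ht₀] at het2
    exact Nat.eq_of_mul_eq_mul_left (show 0 < e by omega) (by rw [het2]; ring)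
  have ht₀1 : 1 ≤ t₀ := by
    rcases Nat.eq_zero_or_pos t₀ with h | h
    · rw [h, mul_zero] at ht₀; omega
    · exact h
  -- sums over the orbits nontrivial on `Ω₁`
  have hη2 : ∀ z : Zp, z ≠ 1 → ∑ i ∈ Finset.univ \ I₁, η i z = -(w : ℂ) := by
    intro z hz
    have h := hηall z hz
    rw [← Finset.sum_sdiff (Finset.subset_univ I₁), Finset.sum_congr rfl fun i hi => hη₁ i hi z,
      Finset.sum_const, nsmul_eq_mul, ← ht₁] at h
    rw [hw]
    push_cast
    linear_combination h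
  have hne1 : ∀ z : Zp, z ≠ 1 → ((z : (P : Subgroup G)) : G) ≠ 1 := fun z hz e' =>
    hz (Subtype.ext (Subtype.ext e'))
  -- real estimates
  have hqR : (Zc : ℝ) * w = q := by exact_mod_cast hcount
  have hnormR : (t : ℝ) * d₀ ^ 2 - 2 * δ * d₀ + (∑ χ ∈ U.erase (Chars.oneChar G), (d χ : ℝ) ^ 2) =
      (e : ℝ) - 1 := by
    have h := hnorm'
    rw [← Finset.add_sum_erase _ _ hU1, hd1] at h
    have h' : (((t : ℤ) * d₀ ^ 2 - 2 * δ * d₀ + ((1 : ℤ) ^ 2 +
        ∑ χ ∈ U.erase (Chars.oneChar G), d χ ^ 2) : ℤ) : ℝ) = ((e : ℤ) : ℝ) := by rw [h]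
    push_cast at h'
    linarith
  have hG : 0 ≤ (t : ℝ) * d₀ ^ 2 - 2 * δ * d₀ := by
    rcases eq_or_ne d₀ 0 with h | h
    · simp [h]
    · have h2 : (2 : ℝ) ≤ t := by exact_mod_cast Fintype.one_lt_card (α := Orb (autP P))
      have ha : (1 : ℝ) ≤ |(d₀ : ℝ)| := by exact_mod_cast Int.one_le_abs h
      have hle : 2 * (δ : ℝ) * d₀ ≤ 2 * |(d₀ : ℝ)| := by
        rcases hδ with rfl | rfl <;> push_cast <;>
          nlinarith [le_abs_self (d₀ : ℝ), neg_abs_le (d₀ : ℝ)]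
      nlinarith [sq_abs (d₀ : ℝ)]
  have hUsq : (∑ χ ∈ U.erase (Chars.oneChar G), (d χ : ℝ) ^ 2) ≤ (e : ℝ) - 1 := by linarith
  have hU2 : ∀ χ ∈ U.erase (Chars.oneChar G), (d χ : ℝ) ^ 3 / deg χ ≤ (d χ : ℝ) ^ 2 / 2 := by
    intro χ hχ
    refine cube_div_le (hdeg0 χ) fun hpos => ?_
    obtain ⟨hne, hmem⟩ := Finset.mem_erase.1 hχ
    obtain ⟨hB, hnot⟩ := (hUm χ).1 hmem
    have hv := (hX χ hB hnot).2
    obtain ⟨m, hm⟩ := exists_eq_add_of_const hv hx₀G
    have hm1 : 1 ≤ m := by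
      by_contra h0
      apply apply_ne_one hne hx₀G
      rw [hv _ hx₀G, hm, show m = 0 by omega, Nat.cast_zero, mul_zero, sub_zero, hdeg1]
    have hm' : (d χ : ℤ) = (deg χ : ℤ) - q * m := by
      apply Int.cast_injective (α := ℂ)
      rw [hm]; push_cast; rfl
    have hm'' : (d χ : ℝ) = (deg χ : ℝ) - q * m := by exact_mod_cast hm'
    have hle := Finset.single_le_sum (f := fun ψ => (d ψ : ℝ) ^ 2) (fun ψ _ => sq_nonneg _) hχ
    have h1 : (1 : ℝ) ≤ d χ := by exact_mod_cast (show (1 : ℤ) ≤ d χ by exact_mod_cast hpos)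
    have hm1' : (1 : ℝ) ≤ (m : ℝ) := by exact_mod_cast hm1
    have heq' : (e : ℝ) < q := by exact_mod_cast (show e < q by omega)
    have hmul : (q : ℝ) * 1 ≤ q * m := mul_le_mul_of_nonneg_left hm1' (Nat.cast_nonneg _)
    have hdd : (d χ : ℝ) * 1 ≤ d χ * d χ := mul_le_mul_of_nonneg_left h1 (by linarith)
    nlinarith
  -- the trivial orbits
  set Tv : ℤ := d₀ + δ * e with hTv
  have hfpos : (0 : ℝ) < f := hdeg0 _
  have hI₁val : ∀ i ∈ I₁, ∀ z : Zp, z ≠ 1 → (ζ i : G → ℂ) (z : (P : Subgroup G)) = (Tv : ℂ) := by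
    intro i hi z hz
    rw [hζval i z (hne1 z hz), hη₁ i hi z, hTv]
    push_cast
    rfl
  have hfT : 0 < t₁ → (Tv : ℝ) + q ≤ f := by
    intro h1
    obtain ⟨i, hi⟩ := Finset.card_pos.1 h1
    obtain ⟨m, hm⟩ := hother i
    have hm1 : 1 ≤ m := by
      by_contra h0
      apply apply_ne_one (fun e' => hone ⟨i, e'⟩) hx₀G
      rw [hI₁val i hi x₀ hx₀1, hf1]
      rw [show m = 0 by omega] at hm
      have : (f : ℤ) = Tv := by rw [hTv]; push_cast at hm; linarith
      exact_mod_cast this.symm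
    have hm' : (f : ℝ) - d₀ - δ * e = q * m := by exact_mod_cast hm
    have hm1' : (1 : ℝ) ≤ (m : ℝ) := by exact_mod_cast hm1
    have hmul : (q : ℝ) * 1 ≤ q * m := mul_le_mul_of_nonneg_left hm1' (Nat.cast_nonneg _)
    rw [hTv]
    push_cast
    linarith
  -- the value of a sum over `zStar`
  have hzsum : ∀ F : G → ℂ, ∑ z ∈ zStar P, F z⁻¹ =
      ∑ z ∈ Finset.univ.erase (1 : Zp), F ((z : (P : Subgroup G)) : G) := by
    intro F
    symm
    refine Finset.sum_bij (fun z _ => ((z : (P : Subgroup G)) : G)⁻¹) (fun z hz => ?_)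
      (fun a _ b _ h => Subtype.ext (Subtype.ext (inv_injective h))) (fun y hy => ?_)
      (fun z _ => by rw [inv_inv])
    · exact mem_zStar.2 ⟨inv_mem ((hZmem _).1 z.2),
        inv_ne_one.2 (hne1 z (Finset.ne_of_mem_erase hz))⟩
    · obtain ⟨hy, hy1⟩ := mem_zStar.1 hy
      refine ⟨⟨⟨y⁻¹, zOne_le P (inv_mem hy)⟩, (hZmem _).2 (inv_mem hy)⟩,
        Finset.mem_erase.2 ⟨fun e' => hy1 ?_, Finset.mem_univ _⟩, by simp⟩
      exact inv_eq_one.1 (congrArg (fun v : Zp => ((v : (P : Subgroup G)) : G)) e')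
  have hcerase : ((Finset.univ.erase (1 : Zp)).card : ℂ) = (Zc : ℂ) - 1 := by
    rw [Finset.card_erase_of_mem (Finset.mem_univ _), Finset.card_univ,
      ← Nat.card_eq_fintype_card, ← hZc, Nat.cast_sub (by omega), Nat.cast_one]
  have hqw : w ≤ q := by rw [← hcount]; exact Nat.le_mul_of_pos_left _ (by omega)
  rcases Nat.lt_or_ge t₀ 2 with ht₀2 | ht₀2
  · -- one orbit on `Ω₁`
    obtain rfl : t₀ = 1 := by omega
    rw [mul_one] at ht₀ ht2w
    have heq : e + 1 = Zc := by omega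
    have ht₁1 : 1 ≤ t₁ := by
      by_contra h
      rw [show t₁ = 0 by omega, mul_zero, zero_add] at hw
      rw [hw, mul_one] at hcount
      omega
    have hwZ : Zc ≤ w := by
      have : e * 1 ≤ e * t₁ := Nat.mul_le_mul_left _ ht₁1
      omega
    have hd0 : d₀ = 0 := by
      by_contra h
      have ht' : (e : ℝ) + 2 ≤ t := by
        have : e + 2 ≤ t := by omega
        exact_mod_cast this
      have hnn : 0 ≤ ∑ χ ∈ U.erase (Chars.oneChar G), (d χ : ℝ) ^ 2 :=
        Finset.sum_nonneg fun _ _ => sq_nonneg _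
      have ha : (1 : ℝ) ≤ |(d₀ : ℝ)| := by exact_mod_cast Int.one_le_abs h
      have hsqd : |(d₀ : ℝ)| * 1 ≤ |(d₀ : ℝ)| * |(d₀ : ℝ)| :=
        mul_le_mul_of_nonneg_left ha (abs_nonneg _)
      have hle : 2 * (δ : ℝ) * d₀ ≤ 2 * |(d₀ : ℝ)| := by
        rcases hδ with rfl | rfl <;> push_cast <;>
          nlinarith [le_abs_self (d₀ : ℝ), neg_abs_le (d₀ : ℝ)]
      nlinarith [sq_abs (d₀ : ℝ)]
    subst hd0
    have hη₂val : ∀ i ∈ Finset.univ \ I₁, η i (x₀ : (P : Subgroup G)) = -1 := by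
      intro i hi
      have h := hηZ i (Finset.mem_sdiff.1 hi).2
      rw [← Finset.add_sum_erase _ _ (Finset.mem_univ (1 : Zp)),
        Finset.sum_congr rfl fun (z : Zp) hz => show η i z = η i (x₀ : (P : Subgroup G)) by
          obtain ⟨a, ha⟩ := htrans heq z (Finset.ne_of_mem_erase hz)
          rw [← ha, hηconj],
        Finset.sum_const, nsmul_eq_mul, hcerase, OneMemClass.coe_one, hηone,
        show (Zc : ℂ) - 1 = (e : ℂ) by rw [← heq]; push_cast; ring] at h
      have he0 : (e : ℂ) ≠ 0 := Nat.cast_ne_zero.2 (by omega)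
      exact mul_left_cancel₀ he0 (by linear_combination h)
    have hinv : ∀ χ : IrrCharacter G, (χ : G → ℂ) z₀⁻¹ = (χ : G → ℂ) z₀ := by
      intro χ
      obtain ⟨g, hg⟩ := isConj_iff.1 (hconjall heq z₀⁻¹ (inv_mem hz₀) (inv_ne_one.2 hz₀1))
      rw [← hg, Chars.isClassFunction_coe χ]
    have hre := hS z₀ hz₀ hz₀1 (hconjall heq)
    have hsum : ∑ χ ∈ T, (χ : G → ℂ) z₀ * (χ : G → ℂ) z₀ * (χ : G → ℂ) z₀⁻¹ / (χ : G → ℂ) 1 =
        ((((t₂ : ℝ) * (-(δ : ℝ) / f) + (t₁ : ℝ) * ((Tv : ℝ) ^ 3 / f)) +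
          ∑ χ ∈ U, (d χ : ℝ) ^ 3 / deg χ : ℝ) : ℂ) := by
      rw [hsplit, ← Finset.sum_sdiff (Finset.subset_univ I₁),
        Finset.sum_congr rfl fun i hi => show _ = (-(δ : ℂ) / (f : ℂ)) by
          rw [hinv, show (ζ i : G → ℂ) z₀ = -(δ : ℂ) by
            rw [show z₀ = ((x₀ : (P : Subgroup G)) : G) from rfl, hζval i _ hx₀G, hη₂val i hi]
            push_cast; ring, hf1]
          rcases hδ with rfl | rfl <;> push_cast <;> ring,
        Finset.sum_congr rfl fun i (hi : i ∈ I₁) => show _ = ((Tv : ℂ) ^ 3 / (f : ℂ)) by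
          rw [hinv, show (ζ i : G → ℂ) z₀ = (Tv : ℂ) from hI₁val i hi x₀ hx₀1, hf1]
          ring,
        Finset.sum_congr rfl fun χ (hχ : χ ∈ U) => show _ = ((d χ : ℂ) ^ 3 / (deg χ : ℂ)) by
          rw [hinv, show (χ : G → ℂ) z₀ = (d χ : ℂ) from
            (hX χ ((hUm χ).1 hχ).1 ((hUm χ).1 hχ).2).2 _ hx₀G, hdeg1]
          ring,
        Finset.sum_const, Finset.sum_const, nsmul_eq_mul, nsmul_eq_mul, ← ht₁, ← ht₂]
      push_cast
      ring
    rw [hsum, Complex.ofReal_re, ← Finset.add_sum_erase _ _ hU1, hd1, hdegone, ht2w] at hre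
    have hcon : ∑ χ ∈ U.erase (Chars.oneChar G), (d χ : ℝ) ^ 3 / deg χ ≤ ((e : ℝ) - 1) / 2 :=
      (Finset.sum_le_sum hU2).trans (by rw [← Finset.sum_div]; linarith)
    simp only [Int.cast_one, one_pow, Nat.cast_one, div_one] at hre
    have hfam : (w : ℝ) * (-(δ : ℝ) / f) + (t₁ : ℝ) * ((Tv : ℝ) ^ 3 / f) ≤ e := by
      have hwR : (w : ℝ) = e * t₁ + 1 := by rw [hw]; push_cast; ring
      have heR : (0 : ℝ) ≤ e := Nat.cast_nonneg _
      have hTR : (Tv : ℝ) = δ * e := by rw [hTv]; push_cast; ring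
      rcases hδ with rfl | rfl
      · have hft := hfT ht₁1
        rw [hTR] at hft ⊢
        push_cast at hft ⊢
        rw [neg_div, mul_neg, one_mul]
        have h2 : 0 ≤ (w : ℝ) * (1 / f) := by positivity
        have h3 : (t₁ : ℝ) * ((e : ℝ) ^ 3 / f) ≤ e := by
          rw [← mul_div_assoc, div_le_iff₀ hfpos]
          have h4 : (e : ℝ) * ((e * t₁) * e) ≤ e * f := by
            refine mul_le_mul_of_nonneg_left ?_ heR
            have : (e : ℝ) + 1 = Zc := by exact_mod_cast heq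
            nlinarith [mul_nonneg (mul_nonneg heR (Nat.cast_nonneg t₁ : (0 : ℝ) ≤ t₁)) heR]
          nlinarith
        linarith
      · rw [hTR]
        push_cast
        rw [neg_neg, show (-1 * (e : ℝ)) ^ 3 = -((e : ℝ) ^ 3) by ring, neg_div, mul_neg]
        have h2 : 0 ≤ (t₁ : ℝ) * ((e : ℝ) ^ 3 / f) := by positivity
        have h3 : (w : ℝ) * (1 / f) ≤ 1 := by
          rw [mul_one_div, div_le_one hfpos]
          obtain ⟨m, hm⟩ := hother i₀
          have hm1 : 1 ≤ m := by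
            by_contra h0
            rw [show m = 0 by omega] at hm
            have : (0 : ℤ) < f := by exact_mod_cast Chars.charDegree_pos (ζ i₀)
            push_cast at hm
            omega
          have hm' : (f : ℝ) + e = q * m := by
            have h5 : (((f : ℤ) - 0 - -1 * e : ℤ) : ℝ) = ((q * m : ℤ) : ℝ) := by rw [hm]
            push_cast at h5
            linarith
          have hm1' : (1 : ℝ) ≤ (m : ℝ) := by exact_mod_cast hm1
          have hmul : (q : ℝ) * 1 ≤ q * m := mul_le_mul_of_nonneg_left hm1' (Nat.cast_nonneg _)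
          have : (e : ℝ) + 1 = Zc := by exact_mod_cast heq
          nlinarith [mul_le_mul_of_nonneg_left (show (1 : ℝ) ≤ w by rw [hwR]; nlinarith) heR]
        have h1e : (1 : ℝ) ≤ e := by exact_mod_cast (show 1 ≤ e by omega)
        linarith
    have hZw : (Zc : ℝ) ≤ w := by exact_mod_cast hwZ
    have heR' : (e : ℝ) + 1 = Zc := by exact_mod_cast heq
    have hZ3' : (3 : ℝ) ≤ Zc := by exact_mod_cast hZ3
    have hsqZ : (Zc : ℝ) * Zc ≤ Zc * w := mul_le_mul_of_nonneg_left hZw (Nat.cast_nonneg _)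
    nlinarith
  -- at least two orbits on `Ω₁`
  obtain ⟨y₀, hy₀1, hy₀⟩ : ∃ y : Zp, y ≠ 1 ∧
      ¬ IsConj ((y : (P : Subgroup G)) : G) z₀⁻¹ := by
    by_contra hcon
    push Not at hcon
    have hsurj : ∀ z : {z : Zp // z ≠ 1}, ∃ a : autP P,
        (a : MulAut (P : Subgroup G)) (x₀ : (P : Subgroup G))⁻¹ =
          ((z.1 : Zp) : (P : Subgroup G)) := by
      rintro ⟨z, hz⟩
      obtain ⟨g, hg⟩ := isConj_iff.1 (hcon z hz).symm
      obtain ⟨n, hn, hne⟩ := P.conj_eq_normalizer_conj_of_mem z₀⁻¹ g⁻¹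
        (inv_mem (zOne_le P hz₀)) (by rw [inv_inv, hg]; exact (z : (P : Subgroup G)).2)
      rw [inv_inv, hg] at hne
      refine ⟨⟨(P : Subgroup G).normalizerMonoidHom ⟨n⁻¹, inv_mem hn⟩, ⟨_, rfl⟩⟩, Subtype.ext ?_⟩
      rw [normalizerMonoidHom_coe, inv_inv]
      exact hne.symm
    choose g hg using hsurj
    have hginj : Function.Injective g := fun a b h => by
      apply Subtype.ext
      apply Subtype.ext
      rw [← hg a, ← hg b, h]
    have := Nat.card_le_card_of_injective g hginj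
    have : e * 2 ≤ e * t₀ := Nat.mul_le_mul_left _ ht₀2
    omega
  have hK' := hK z₀ hz₀ _ ((hZmem _).1 y₀.2) hz₀1 (hne1 y₀ hy₀1) hy₀
  -- the second moment
  have hηprod : ∑ i ∈ Finset.univ \ I₁,
      η i (x₀ : (P : Subgroup G)) * η i (y₀ : (P : Subgroup G)) = -(e : ℂ) * (w : ℂ) := by
    have h : ∑ i, η i (x₀ : (P : Subgroup G)) * η i (y₀ : (P : Subgroup G)) = -(e : ℂ) := by
      have hrw : ∀ i, η i (x₀ : (P : Subgroup G)) * η i (y₀ : (P : Subgroup G)) =
          ∑ b : autP P, η i ((x₀ : (P : Subgroup G)) *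
            (b : MulAut (P : Subgroup G)) (y₀ : (P : Subgroup G))) := by
        intro i
        simp only [hη, map_mul, Units.val_mul, Finset.sum_mul]
        rw [Finset.sum_comm (t := (Finset.univ : Finset (autP P)))]
        refine Finset.sum_congr rfl fun a _ => ?_
        rw [Finset.mul_sum]
        exact (Fintype.sum_equiv (Equiv.mulLeft a) _ _ fun b => rfl).symm
      simp only [hrw]
      rw [Finset.sum_comm, Finset.sum_congr rfl fun b _ => sum_orb_rep hfpf fun h1 => ?_]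
      · simp [he, Nat.card_eq_fintype_card]
      · refine hy₀ ?_
        have h2 := hAconj b (y₀ : (P : Subgroup G))
        rw [eq_inv_of_mul_eq_one_right h1] at h2
        exact h2
    rw [← Finset.sum_sdiff (Finset.subset_univ I₁), Finset.sum_congr rfl fun i (hi : i ∈ I₁) =>
      show η i (x₀ : (P : Subgroup G)) * η i (y₀ : (P : Subgroup G)) = (e : ℂ) * e by
        rw [hη₁ i hi x₀, hη₁ i hi y₀], Finset.sum_const, nsmul_eq_mul, ← ht₁] at h
    rw [hw]
    push_cast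
    linear_combination h
  set r : ℤ := δ - t₀ * d₀ with hr
  set G₂ : ℤ := t₀ * d₀ ^ 2 - 2 * δ * d₀ with hG₂
  have hcZC : (Zc : ℂ) - 1 = (e : ℂ) * t₀ := by
    have : Zc = e * t₀ + 1 := by omega
    rw [this]; push_cast; ring
  have hz₂ : ∀ i ∈ Finset.univ \ I₁,
      ∑ z ∈ zStar P, (ζ i : G → ℂ) z⁻¹ = -(e : ℂ) * (r : ℂ) := by
    intro i hi
    have h := hηZ i (Finset.mem_sdiff.1 hi).2
    rw [← Finset.add_sum_erase _ _ (Finset.mem_univ (1 : Zp)), OneMemClass.coe_one, hηone] at h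
    rw [hzsum, Finset.sum_congr rfl fun (z : Zp) hz => hζval i z (hne1 z (Finset.ne_of_mem_erase hz)),
      Finset.sum_add_distrib, Finset.sum_const, nsmul_eq_mul, ← Finset.mul_sum, hcerase, hcZC, hr]
    push_cast
    linear_combination (δ : ℂ) * h
  have hK0 : ∑ χ ∈ T, (χ : G → ℂ) z₀ * (χ : G → ℂ) (y₀ : (P : Subgroup G)) *
      (∑ z ∈ zStar P, (χ : G → ℂ) z⁻¹) / (χ : G → ℂ) 1 =
      (e : ℂ) * ((t₀ : ℂ) * ((t₁ : ℂ) * ((Tv : ℂ) ^ 3 / (f : ℂ)) +
        ∑ χ ∈ U, (d χ : ℂ) ^ 3 / (deg χ : ℂ)) +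
        (r : ℂ) * (w : ℂ) * ((e : ℂ) - G₂) / (f : ℂ)) := by
    rw [hsplit, ← Finset.sum_sdiff (Finset.subset_univ I₁),
      Finset.sum_congr rfl fun i hi => show _ = (-(e : ℂ) * r / f) *
          ((d₀ : ℂ) ^ 2 + δ * d₀ * η i (x₀ : (P : Subgroup G)) +
            δ * d₀ * η i (y₀ : (P : Subgroup G)) +
            η i (x₀ : (P : Subgroup G)) * η i (y₀ : (P : Subgroup G))) by
        rw [hz₂ i hi, show z₀ = ((x₀ : (P : Subgroup G)) : G) from rfl, hζval i _ hx₀G,
          hζval i _ (hne1 y₀ hy₀1), hf1]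
        rcases hδ with rfl | rfl <;> push_cast <;> ring,
      Finset.sum_congr rfl fun i (hi : i ∈ I₁) => show _ =
          ((e : ℂ) * t₀) * ((Tv : ℂ) ^ 3 / (f : ℂ)) by
        rw [show (ζ i : G → ℂ) z₀ = (Tv : ℂ) from hI₁val i hi x₀ hx₀1, hI₁val i hi y₀ hy₀1,
          hzsum, Finset.sum_congr rfl fun (z : Zp) hz => hI₁val i hi z (Finset.ne_of_mem_erase hz),
          Finset.sum_const, nsmul_eq_mul, hcerase, hcZC, hf1]
        ring,
      Finset.sum_congr rfl fun χ (hχ : χ ∈ U) => show _ =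
          ((e : ℂ) * t₀) * ((d χ : ℂ) ^ 3 / (deg χ : ℂ)) by
        have hv := (hX χ ((hUm χ).1 hχ).1 ((hUm χ).1 hχ).2).2
        rw [show z₀ = ((x₀ : (P : Subgroup G)) : G) from rfl, hv _ hx₀G, hv _ (hne1 y₀ hy₀1),
          hzsum, Finset.sum_congr rfl fun (z : Zp) hz => hv _ (hne1 z (Finset.ne_of_mem_erase hz)),
          Finset.sum_const, nsmul_eq_mul, hcerase, hcZC, hdeg1]
        ring,
      Finset.sum_const, nsmul_eq_mul, ← ht₁, ← Finset.mul_sum, ← Finset.mul_sum,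
      Finset.sum_add_distrib, Finset.sum_add_distrib, Finset.sum_add_distrib, ← Finset.mul_sum,
      ← Finset.mul_sum, hη2 x₀ hx₀1, hη2 y₀ hy₀1, hηprod, Finset.sum_const, nsmul_eq_mul, ← ht₂,
      ht2w, hG₂]
    push_cast
    ring
  rw [hK0] at hK'
  have hKR : (t₀ : ℝ) * ((t₁ : ℝ) * ((Tv : ℝ) ^ 3 / (f : ℝ)) +
      ∑ χ ∈ U, (d χ : ℝ) ^ 3 / (deg χ : ℝ)) +
      (r : ℝ) * (w : ℝ) * ((e : ℝ) - G₂) / (f : ℝ) = q := by
    have he0 : (e : ℂ) ≠ 0 := Nat.cast_ne_zero.2 (by omega)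
    have h := mul_left_cancel₀ he0 hK'
    apply Complex.ofReal_injective
    push_cast
    exact h
  -- the bounds
  have hG0 : (0 : ℝ) ≤ G₂ := by
    rw [hG₂]
    push_cast
    rcases eq_or_ne d₀ 0 with h | h
    · simp [h]
    · have h2 : (2 : ℝ) ≤ t₀ := by exact_mod_cast ht₀2
      have ha : (1 : ℝ) ≤ |(d₀ : ℝ)| := by exact_mod_cast Int.one_le_abs h
      have hle : 2 * (δ : ℝ) * d₀ ≤ 2 * |(d₀ : ℝ)| := by
        rcases hδ with rfl | rfl <;> push_cast <;>
          nlinarith [le_abs_self (d₀ : ℝ), neg_abs_le (d₀ : ℝ)]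
      nlinarith [sq_abs (d₀ : ℝ)]
  have hwR : (w : ℝ) = e * t₁ + 1 := by rw [hw]; push_cast; ring
  have htR : (t : ℝ) = t₁ + w * t₀ := by
    rw [← ht12, ht2w]; push_cast; ring
  have hK0le : (t₁ : ℝ) * ((Tv : ℝ) ^ 3 / (f : ℝ)) + ∑ χ ∈ U, (d χ : ℝ) ^ 3 / (deg χ : ℝ) ≤
      ((w : ℝ) * e + 1) / 2 := by
    have h1 : (t₁ : ℝ) * ((Tv : ℝ) ^ 3 / f) ≤ (t₁ : ℝ) * ((Tv : ℝ) ^ 2 / 2) := by
      rcases Nat.eq_zero_or_pos t₁ with h | h
      · simp [h]
      · refine mul_le_mul_of_nonneg_left (cube_div_le hfpos fun hpos => ?_) (Nat.cast_nonneg _)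
        have hft := hfT h
        have hd : (d₀ : ℝ) ^ 2 ≤ e := by
          have h1' : (1 : ℝ) ≤ t₁ := by exact_mod_cast h
          have hnn : 0 ≤ ∑ χ ∈ U.erase (Chars.oneChar G), (d χ : ℝ) ^ 2 :=
            Finset.sum_nonneg fun _ _ => sq_nonneg _
          have hw1 : (1 : ℝ) ≤ w := by exact_mod_cast (show 1 ≤ w by omega)
          have hG₂' : (G₂ : ℝ) = t₀ * d₀ ^ 2 - 2 * δ * d₀ := by rw [hG₂]; push_cast; ring
          nlinarith [mul_nonneg (mul_nonneg (sub_nonneg.2 hw1) (Nat.cast_nonneg t₀ : (0 : ℝ) ≤ t₀))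
            (sq_nonneg (d₀ : ℝ)), mul_nonneg (sub_nonneg.2 h1') (sq_nonneg (d₀ : ℝ))]
        have hZ2e : 2 * (e : ℝ) + 1 ≤ Zc := by
          have : e * 2 ≤ e * t₀ := Nat.mul_le_mul_left _ ht₀2
          exact_mod_cast (show 2 * e + 1 ≤ Zc by omega)
        have hZq' : (Zc : ℝ) ≤ q := by exact_mod_cast hZq
        have habs : (d₀ : ℝ) ≤ e := by
          rcases le_or_gt (d₀ : ℝ) 1 with h' | h'
          · exact h'.trans (by exact_mod_cast (show 1 ≤ e by omega))
          · nlinarith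
        have heR : (0 : ℝ) ≤ e := Nat.cast_nonneg _
        have hTR : (Tv : ℝ) ≤ 2 * e := by
          rw [hTv]; push_cast
          rcases hδ with rfl | rfl <;> push_cast <;> linarith
        linarith
    rw [← Finset.add_sum_erase _ _ hU1, hd1, hdegone]
    have h2 := (Finset.sum_le_sum hU2).trans_eq (Finset.sum_div _ _ _).symm
    have hid : (t₁ : ℝ) * (Tv : ℝ) ^ 2 + ∑ χ ∈ U.erase (Chars.oneChar G), (d χ : ℝ) ^ 2 =
        (w : ℝ) * e - 1 - (w : ℝ) * G₂ := by
      rw [hTv, hG₂]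
      push_cast
      have hδR : (δ : ℝ) ^ 2 = 1 := by exact_mod_cast hδ2
      linear_combination hnormR - (d₀ : ℝ) ^ 2 * htR + (-2 * δ * d₀ - e : ℝ) * hwR +
        (t₁ : ℝ) * (e : ℝ) ^ 2 * hδR
    have hwG : 0 ≤ (w : ℝ) * G₂ := mul_nonneg (Nat.cast_nonneg _) hG0
    simp only [Int.cast_one, one_pow, Nat.cast_one, div_one]
    nlinarith
  have hsecond : (r : ℝ) * (w : ℝ) * ((e : ℝ) - G₂) / (f : ℝ) ≤ w := by
    rw [div_le_iff₀ hfpos]
    rcases le_or_gt r 0 with h | h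
    · have hr0 : (r : ℝ) ≤ 0 := by exact_mod_cast h
      have hG1 : (G₂ : ℝ) ≤ e := by
        have hnn : 0 ≤ ∑ χ ∈ U.erase (Chars.oneChar G), (d χ : ℝ) ^ 2 :=
          Finset.sum_nonneg fun _ _ => sq_nonneg _
        have hG₂' : (G₂ : ℝ) = t₀ * d₀ ^ 2 - 2 * δ * d₀ := by rw [hG₂]; push_cast; ring
        have hw1 : (1 : ℝ) ≤ w := by exact_mod_cast (show 1 ≤ w by omega)
        nlinarith [mul_nonneg (mul_nonneg (sub_nonneg.2 hw1) (Nat.cast_nonneg t₀ : (0 : ℝ) ≤ t₀))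
          (sq_nonneg (d₀ : ℝ)), mul_nonneg (Nat.cast_nonneg t₁ : (0 : ℝ) ≤ t₁) (sq_nonneg (d₀ : ℝ))]
      calc (r : ℝ) * w * ((e : ℝ) - G₂) ≤ 0 :=
            mul_nonpos_of_nonpos_of_nonneg (mul_nonpos_of_nonpos_of_nonneg hr0 (Nat.cast_nonneg _))
              (sub_nonneg.2 hG1)
        _ ≤ _ := by positivity
    · have hd0 : d₀ ≤ 0 := by
        by_contra h'
        have : (2 : ℤ) * 1 ≤ t₀ * d₀ := Int.mul_le_mul (by exact_mod_cast ht₀2) (by omega)
          (by norm_num) (Int.natCast_nonneg _)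
        rcases hδ with rfl | rfl <;> omega
      have hfr : (e : ℤ) * r ≤ f := by
        have hZ1 : (e : ℤ) * t₀ ≤ (q : ℤ) - 1 := by
          have : e * t₀ + 1 ≤ q := by omega
          have h' : ((e * t₀ + 1 : ℕ) : ℤ) ≤ (q : ℤ) := by exact_mod_cast this
          push_cast at h'
          linarith
        rw [hr]
        nlinarith [mul_le_mul_of_nonneg_right hZ1 (neg_nonneg.2 hd0)]
      have hfr' : (e : ℝ) * r ≤ f := by exact_mod_cast hfr
      have hrR : (0 : ℝ) ≤ r := by exact_mod_cast h.le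
      calc (r : ℝ) * w * ((e : ℝ) - G₂) ≤ (r : ℝ) * w * e :=
            mul_le_mul_of_nonneg_left (by linarith) (mul_nonneg hrR (Nat.cast_nonneg _))
        _ = (w : ℝ) * ((e : ℝ) * r) := by ring
        _ ≤ _ := mul_le_mul_of_nonneg_left hfr' (Nat.cast_nonneg _)
  have ht0R : (t₀ : ℝ) * e = Zc - 1 := by
    have : e * t₀ + 1 = Zc := by omega
    have h' : ((e * t₀ + 1 : ℕ) : ℝ) = (Zc : ℝ) := by rw [this]
    push_cast at h'
    linarith
  have hfirst := mul_le_mul_of_nonneg_left hK0le (Nat.cast_nonneg t₀ : (0 : ℝ) ≤ t₀)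
  have he2 : (2 : ℝ) ≤ e := by exact_mod_cast hE
  have hw1 : (1 : ℝ) ≤ w := by exact_mod_cast (show 1 ≤ w by omega)
  have hZ5 : (5 : ℝ) ≤ Zc := by
    have : e * 2 ≤ e * t₀ := Nat.mul_le_mul_left _ ht₀2
    exact_mod_cast (show 5 ≤ Zc by omega)
  have h2t : 2 * (t₀ : ℝ) ≤ Zc - 1 := by
    nlinarith [mul_le_mul_of_nonneg_left he2 (Nat.cast_nonneg t₀ : (0 : ℝ) ≤ t₀)]
  have hte : (t₀ : ℝ) * ((w : ℝ) * e) = w * (Zc - 1) := by rw [← ht0R]; ring
  nlinarith

end CfsgLib.SzPairs46
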