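import Cfsg.Agent.SzPairs46.OddSetup
import Cfsg.Agent.SzPairs46.OddNumeric

/-!
# Odd primes do not occur
-/

set_option autoImplicit false

namespace CfsgLib.SzPairs46

open Cfsg CfsgLib

universe u

/-- A simple group satisfying the hypotheses for an odd prime dividing its order is abelian. -/
theorem false_of_ne_two {G : Type u} [Group G] [Finite G] [IsSimpleGroup G] {p : ℕ}
    [hp : Fact p.Prime] (hnc : ¬ IsMulCommutative G) (hdvd : p ∣ Nat.card G) (P : Sylow p G)
    (h : Hyp P) (hp2 : p ≠ 2) : False := by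
  haveI := Fintype.ofFinite G
  obtain ⟨M, hM⟩ := Blocks.exists_isPModular p hp.out
  haveI := h.isMulCommutative hp2 (h.zOne_ne_bot hdvd)
  have hst : zSharp P = zStar P := by
    ext z
    rw [mem_zSharp, mem_zStar]
  refine false_of_odd hM hnc hp2 (h.zOne_ne_bot hdvd) h.frob (two_le_card_autP hnc hdvd) ?_ ?_
  · intro x hx y hy hx1 hy1 hne
    have := h.sum_triple hM hx hx1 hy hy1 hne
    rw [hst] at this
    exact this
  · exact fun x hx hx1 hone => h.half_le_sum hM hp2 hx hx1 hone

end CfsgLib.SzPairs46
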