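import Cfsg.Agent.SzPairs46.OddAbelian

/-!
# Odd primes: the principal block data

The normalizer acts freely, does not centralize `P`, and the class sums of `Ω₁(Z(P))` give the two
relations used in the numerical argument.
-/

set_option autoImplicit false

namespace CfsgLib.SzPairs46

open Cfsg CfsgLib CfsgLib.Blocks CfsgLib.Blocks.AbelianFrobenius

universe u

variable {G : Type u} [Group G] [Fintype G] {p : ℕ} [hp : Fact p.Prime] {P : Sylow p G}
  {M : Ideal AlgInt}

theorem Hyp.zOne_ne_bot [IsSimpleGroup G] (h : Hyp P) (hdvd : p ∣ Nat.card G) : zOne P ≠ ⊥ := by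
  obtain ⟨s, hs⟩ := exists_prime_orderOf_dvd_card' (G := (P : Subgroup G)) p
    (P.dvd_card_of_dvd_card hdvd)
  intro hb
  have h1 : (s : G) ∈ zOne P := h.mem_zOne s.2 (by
    rw [← orderOf_dvd_iff_pow_eq_one, Subgroup.orderOf_coe, hs])
  rw [hb, Subgroup.mem_bot] at h1
  rw [Subtype.ext (a2 := (1 : (P : Subgroup G))) h1, orderOf_one] at hs
  exact hp.out.one_lt.ne hs

variable [hab : IsMulCommutative (P : Subgroup G)]

/-- The normalizer acts freely. -/
theorem Hyp.frob (h : Hyp P) : Frob P := by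
  intro y hy hy1
  have hPy : ∀ z ∈ (P : Subgroup G), z ∈ Subgroup.centralizer ({y} : Set G) := fun z hz =>
    Subgroup.mem_centralizer_singleton_iff.2
      (congrArg Subtype.val (hab.is_comm.comm (⟨z, hz⟩ : (P : Subgroup G)) ⟨y, hy⟩))
  refine le_antisymm (fun c hc => ?_)
    (le_inf (Subgroup.centralizer_le (Set.singleton_subset_iff.2 hy))
      (Subgroup.centralizer_le_normalizer _))
  obtain ⟨a, b, ha, hb, rfl, ⟨k, hk⟩, hbp⟩ := Transfer.exists_pPart_decomposition (p := p) c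
  have hsub := Subgroup.zpowers_le.2 hc
  have haP : a ∈ (P : Subgroup G) := by
    obtain ⟨j, -, hj⟩ := (Nat.dvd_prime_pow hp.out).1 hk
    have hsup : IsPGroup p ↥(Subgroup.zpowers a ⊔ (P : Subgroup G)) :=
      IsPGroup.to_sup_of_normal_right' (TwoGenSolv82.isPGroup_zpowers hj) P.2
        (Subgroup.zpowers_le.2 (hsub ha).2)
    rw [← P.3 hsup le_sup_right]
    exact le_sup_left (a := Subgroup.zpowers a) (Subgroup.mem_zpowers a)
  refine Subgroup.mem_centralizer_iff.2 fun z hz => ?_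
  have hza : Commute z a :=
    congrArg Subtype.val (hab.is_comm.comm (⟨z, hz⟩ : (P : Subgroup G)) ⟨a, haP⟩)
  have hzb : Commute z b := (mul_inv_eq_iff_eq_mul.1 (h.commute_of_mem_normalizer hy hy1 hz
    (hPy z hz) (hsub hb).1 (Transfer.not_dvd_of_coprime hbp) (hsub hb).2)).symm
  exact (hza.mul_right hzb).eq

/-- The normalizer does not centralize `P` (Burnside). -/
theorem two_le_card_autP [IsSimpleGroup G] (hnc : ¬ IsMulCommutative G) (hdvd : p ∣ Nat.card G) :
    2 ≤ Nat.card (autP P) := by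
  by_contra hlt
  have h1 : Nat.card (autP P) = 1 := by
    have := Nat.card_pos (α := autP P)
    omega
  rw [card_autP, Subgroup.relIndex_eq_one] at h1
  obtain ⟨N, hN, hc, k, hk⟩ := Transfer.hasNormalPComplement_iff_exists.1
    (Transfer.hasNormalPComplement_of_normalizer_le_centralizer P h1)
  rcases hN.eq_bot_or_eq_top with rfl | rfl
  · rw [Subgroup.index_bot] at hk
    have hG : IsPGroup p G := IsPGroup.of_card hk
    haveI := hG.isNilpotent
    exact hnc ⟨⟨fun a b => IsSimpleGroup.comm_iff_isSolvable.2 inferInstance a b⟩⟩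
  · rw [Subgroup.card_top] at hc
    exact Transfer.not_dvd_of_coprime hc hdvd

open scoped Classical in
/-- The non-identity elements of `Ω₁(Z(P))`. -/
noncomputable def zSharp (P : Sylow p G) : Finset G :=
  Finset.univ.filter fun z => z ∈ zOne P ∧ z ≠ 1

omit hp hab in
theorem mem_zSharp {z : G} : z ∈ zSharp P ↔ z ∈ zOne P ∧ z ≠ 1 := by
  classical
  simp [zSharp]

open scoped Classical in
/-- The column of an element of `Ω₁(Z(P))` against all of them. -/
theorem Hyp.sum_zSharp_lin (h : Hyp P) (hM : IsPModular p M) {z' : G} (hz : z' ∈ zOne P)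
    (hz1 : z' ≠ 1) : ∑ z ∈ zSharp P, lin M z (col M z') =
      (Nat.card (autP P) : ℂ) * (Nat.card (P : Subgroup G) : ℂ) := by
  letI := Fintype.ofFinite (autP P)
  have hin : ∀ a : autP P, (((a : MulAut (P : Subgroup G)) ⟨z', hz.1⟩ : (P : Subgroup G)) : G) ∈
      zSharp P := by
    rintro ⟨_, n, rfl⟩
    rw [mem_zSharp, normalizerMonoidHom_coe]
    exact ⟨conj_mem_zOne n.2 hz, fun e => hz1 (conj_eq_one_iff.1 e)⟩
  have hcol : ∀ z ∈ zSharp P, lin M z (col M z') = (Nat.card (P : Subgroup G) : ℂ) *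
      ∑ a : autP P, if (((a : MulAut (P : Subgroup G)) ⟨z', hz.1⟩ : (P : Subgroup G)) : G) = z
        then (1 : ℂ) else 0 := by
    intro z hzz
    rw [mem_zSharp] at hzz
    rw [lin_col]
    exact (column hM h.frob (y := ⟨z', hz.1⟩) (y' := ⟨z, hzz.1.1⟩) hz1 hzz.2).trans
      (by simp only [Subtype.ext_iff])
  rw [Finset.sum_congr rfl hcol, ← Finset.mul_sum, Finset.sum_comm, mul_comm]
  congr 1
  simp only [Finset.sum_ite_eq, if_pos (hin _)]
  rw [Finset.sum_const, Finset.card_univ, Nat.card_eq_fintype_card, nsmul_eq_mul, mul_one]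

omit hab in
/-- The product formula written with the pairing. -/
theorem lin_col_mul (z x y : G) : lin M z (col M x * col M y) =
    ∑ χ ∈ pblk M G, (χ : G → ℂ) x * (χ : G → ℂ) y * (χ : G → ℂ) z⁻¹ / (χ : G → ℂ) 1 := by
  rw [← Finset.sum_coe_sort (pblk M G)]
  refine Finset.sum_congr rfl fun χ _ => ?_
  simp only [col, Pi.mul_apply]
  field_simp [irrCharacter_one_ne_zero (χ : IrrCharacter G)]

/-- The relation of two classes of `Ω₁(Z(P))` which are not inverse. -/
theorem Hyp.sum_triple (h : Hyp P) (hM : IsPModular p M) {x y : G} (hx : x ∈ zOne P) (hx1 : x ≠ 1)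
    (hy : y ∈ zOne P) (hy1 : y ≠ 1) (hne : ¬ IsConj y x⁻¹) :
    ∑ χ ∈ pblk M G, (χ : G → ℂ) x * (χ : G → ℂ) y * (∑ z ∈ zSharp P, (χ : G → ℂ) z⁻¹) /
        (χ : G → ℂ) 1 = (Nat.card (autP P) : ℂ) * (Nat.card (P : Subgroup G) : ℂ) := by
  simp only [Finset.mul_sum, Finset.sum_div]
  rw [Finset.sum_comm, Finset.sum_congr rfl fun z _ => (lin_col_mul z x y).symm]
  have hcard : (Nat.card G : ℂ) ≠ 0 := by exact_mod_cast Nat.card_pos.ne'
  simp only [col_mul, map_smul, map_sum, smul_eq_mul, ← Finset.mul_sum]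
  rw [Finset.sum_comm, Finset.sum_congr rfl fun g _ => ?_, Finset.sum_const, Finset.card_univ,
    ← Nat.card_eq_fintype_card, nsmul_eq_mul, inv_mul_cancel_left₀ hcard]
  obtain ⟨v, hv⟩ := Blocks.exists_isPPart (G := G) hp.out (g * x * g⁻¹ * y)
  obtain ⟨w₂, hw₂, g₂, hg₂, hcw, hcg, hvz⟩ :=
    h.pair_product hx hx1 (isConj_iff.2 ⟨g, rfl⟩) hy.2.1 hy1 hv
  have h1 : w₂ * g₂ ≠ 1 := fun e => by
    refine hne (hcg.trans ?_)
    rw [eq_inv_of_mul_eq_one_right e]
    obtain ⟨c, hc⟩ := isConj_iff.1 hcw.symm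
    exact isConj_iff.2 ⟨c, by rw [← hc]; group⟩
  rw [h.col_eq_of_isPPart hM hv hvz (mul_mem hw₂ hg₂) h1]
  exact h.sum_zSharp_lin hM (mul_mem (h.exists_normalizer_of_isConj hx hw₂ hcw).1
    (h.exists_normalizer_of_isConj hy hg₂ hcg).1) h1

/-- The bound when all non-identity elements of `Ω₁(Z(P))` are conjugate. -/
theorem Hyp.half_le_sum (h : Hyp P) (hM : IsPModular p M) (hp2 : p ≠ 2) {x : G} (hx : x ∈ zOne P)
    (hx1 : x ≠ 1) (hone : ∀ y ∈ zOne P, y ≠ 1 → IsConj x y) :
    (Nat.card (P : Subgroup G) : ℝ) / 2 ≤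
      (∑ χ ∈ pblk M G, (χ : G → ℂ) x * (χ : G → ℂ) x * (χ : G → ℂ) x⁻¹ / (χ : G → ℂ) 1).re := by
  classical
  letI := Fintype.ofFinite (autP P)
  have hcard : (Nat.card G : ℂ) ≠ 0 := by exact_mod_cast Nat.card_pos.ne'
  have hxd : p ∣ orderOf x := (orderOf_eq_prime hx.2.1 hx1).symm.dvd
  set sing := Finset.univ.filter fun g : G => p ∣ orderOf (g * x * g⁻¹ * x) with hsing
  have hval : ∀ g : G, lin M x (col M (g * x * g⁻¹ * x)) =
      if p ∣ orderOf (g * x * g⁻¹ * x) then (Nat.card (P : Subgroup G) : ℂ) else 0 := by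
    intro g
    split_ifs with hd
    · obtain ⟨v, hv⟩ := Blocks.exists_isPPart (G := G) hp.out (g * x * g⁻¹ * x)
      obtain ⟨w₂, hw₂, g₂, hg₂, hcw, hcg, hvz⟩ :=
        h.pair_product hx hx1 (isConj_iff.2 ⟨g, rfl⟩) hx.2.1 hx1 hv
      have h1 : w₂ * g₂ ≠ 1 := fun e => by
        obtain ⟨u, hu, -, -, hur⟩ := id hv
        have hv1 : v = 1 := isConj_one_left.1 (show IsConj v 1 from e ▸ hvz)
        exact hur (by rw [← hu, hv1, one_mul] at hd; exact hd)
      have hz := mul_mem (h.exists_normalizer_of_isConj hx hw₂ hcw).1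
        (h.exists_normalizer_of_isConj hx hg₂ hcg).1
      rw [h.col_eq_of_isPPart hM hv hvz (mul_mem hw₂ hg₂) h1, ← col_congr (hone _ hz h1), lin_col]
      exact column_self hM h.frob (y := ⟨x, hx.1⟩) hx1
    · exact lin_col_eq_zero_of_regular hM hd hxd
  obtain ⟨c, hc⟩ := isConj_iff.1 (hone x⁻¹ (inv_mem hx) (inv_ne_one.2 hx1)).symm
  have hhalf : Fintype.card G ≤ 2 * sing.card := by
    have hmap : (Finset.univ \ sing).card ≤ sing.card := by
      refine Finset.card_le_card_of_injOn (fun g => c * g) (fun g hg => ?_)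
        (mul_right_injective c).injOn
      simp only [Finset.coe_sdiff, Finset.coe_univ, Set.mem_diff, Set.mem_univ, true_and,
        hsing, Finset.coe_filter, Finset.mem_univ, Set.mem_ofPred_eq] at hg ⊢
      have hs := h.not_regular_both hp2 hx hx1 (isConj_iff.2 ⟨g, rfl⟩) hx.2.1 hx1 hg
      have e : c * g * x * (c * g)⁻¹ * x = c * (g * x * g⁻¹ * x⁻¹) * c⁻¹ := by
        conv_lhs => arg 2; rw [← hc]
        group
      rw [e, show c * (g * x * g⁻¹ * x⁻¹) * c⁻¹ = (MulAut.conj c) (g * x * g⁻¹ * x⁻¹) from rfl,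
        MulEquiv.orderOf_eq]
      exact hs
    rw [Finset.card_sdiff_of_subset (Finset.subset_univ _), Finset.card_univ] at hmap
    omega
  rw [← lin_col_mul, col_mul, map_smul, map_sum, smul_eq_mul,
    Finset.sum_congr rfl fun g _ => hval g, ← Finset.sum_filter, Finset.sum_const, nsmul_eq_mul,
    ← Complex.ofReal_natCast, ← Complex.ofReal_natCast, ← Complex.ofReal_natCast,
    ← Complex.ofReal_inv, ← Complex.ofReal_mul, ← Complex.ofReal_mul, Complex.ofReal_re,
    div_le_iff₀ (by norm_num : (0 : ℝ) < 2), inv_mul_eq_div, div_mul_eq_mul_div,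
    le_div_iff₀ (by exact_mod_cast Nat.card_pos), Nat.card_eq_fintype_card (α := G)]
  have hh : (Fintype.card G : ℝ) ≤ 2 * sing.card := by exact_mod_cast hhalf
  nlinarith [Nat.cast_nonneg (α := ℝ) (Nat.card (P : Subgroup G))]

end CfsgLib.SzPairs46
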