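import Cfsg.Agent.SzPairs46.Local
import Cfsg.Agent.TwoGenSolv82.PairCore
import Cfsg.Agent.TwoGenSolv82.Basic

/-!
# Pairs consisting of a conjugate of a central element and an element of order `p`

Modulo its core such a pair generates an elementary abelian group, so the `p`-part of the product
is conjugate to the product of two elements of `P` conjugate to the factors.
-/

set_option autoImplicit false

namespace CfsgLib.SzPairs46

open Cfsg CfsgLib

universe u

variable {G : Type u} [Group G] [Finite G] {p : ℕ} [hp : Fact p.Prime] {P : Sylow p G}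

omit [Finite G] hp in
/-- A conjugate in `P` of an element of `Ω₁(Z(P))` lies there, and is conjugate in the normalizer. -/
theorem Hyp.exists_normalizer_of_isConj (h : Hyp P) {w c : G} (hw : w ∈ zOne P)
    (hc : c ∈ (P : Subgroup G)) (hwc : IsConj w c) :
    c ∈ zOne P ∧ ∃ n ∈ Subgroup.normalizer ((P : Subgroup G) : Set G), n * w * n⁻¹ = c := by
  obtain ⟨g, hg⟩ := isConj_iff.1 hwc
  obtain ⟨n, hn, he⟩ := h.ctrl w hw.1 c hc ⟨g, hg⟩
  exact ⟨he ▸ conj_mem_zOne hn hw, n, hn, he⟩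

/-- A conjugate of an element of `Ω₁(Z(P))` commutes with every `p`-subgroup containing it. -/
theorem Hyp.commute_of_isPGroup (h : Hyp P) {w c a : G} {A : Subgroup G} (hA : IsPGroup p A)
    (hw : w ∈ zOne P) (hwc : IsConj w c) (hc : c ∈ A) (ha : a ∈ A) : Commute c a := by
  obtain ⟨Q, hQ⟩ := hA.exists_le_sylow
  obtain ⟨g, hg⟩ := MulAction.exists_smul_eq G Q P
  have hmem : ∀ r ∈ A, g * r * g⁻¹ ∈ (P : Subgroup G) := fun r hr => by
    rw [← hg, Sylow.coe_subgroup_smul]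
    exact ⟨r, hQ hr, rfl⟩
  have hcz := (h.exists_normalizer_of_isConj hw (hmem c hc)
    (hwc.trans (isConj_iff.2 ⟨g, rfl⟩))).1
  have e := hcz.2.2 _ (hmem a ha)
  exact Commute.of_map (f := (MulAut.conj g).toMonoidHom) (MulAut.conj g).injective
    (show Commute (g * c * g⁻¹) (g * a * g⁻¹) from e.symm)

omit [Finite G] in
theorem exists_orderOf_eq_pow {a : G} {m : ℕ} (ha : a ^ p ^ m = 1) : ∃ k : ℕ, orderOf a = p ^ k := by
  obtain ⟨k, -, hk⟩ := (Nat.dvd_prime_pow hp.out).1 (orderOf_dvd_of_pow_eq_one ha)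
  exact ⟨k, hk⟩

/-- A conjugate of `w ∈ Ω₁(Z(P))` and an element of order `p` generate a group of exponent `p` modulo
its core. -/
theorem Hyp.pow_eq_one_mod_core (h : Hyp P) {w x g : G} (hw : w ∈ zOne P) (hw1 : w ≠ 1)
    (hx : IsConj w x) (hg : g ^ p = 1) (hg1 : g ≠ 1) :
    ∀ a : ↥(Subgroup.closure ({x, g} : Set G)),
      QuotientGroup.mk' (pPrimeCore p ↥(Subgroup.closure ({x, g} : Set G))) a ^ p = 1 := by
  obtain ⟨c, hc⟩ := isConj_iff.1 hx
  have hxp : x ^ p = 1 := by rw [← hc, conj_pow, hw.2.1, mul_one, mul_inv_cancel]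
  have hx1 : x ≠ 1 := fun e => hw1 (isConj_one_left.1 (e ▸ hx))
  have hsol := h.pair x g (orderOf_eq_prime hxp hx1) (orderOf_eq_prime hg hg1)
  set H := Subgroup.closure ({x, g} : Set G) with hH
  have hxH : x ∈ H := Subgroup.subset_closure (Set.mem_insert _ _)
  have hgH : g ∈ H := Subgroup.subset_closure (Set.mem_insert_of_mem _ rfl)
  set O := pPrimeCore p ↥H with hO
  set π := QuotientGroup.mk' O with hπ
  set X : H := ⟨x, hxH⟩ with hX
  set Y : H := ⟨g, hgH⟩ with hY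
  have hXp : ∃ k, orderOf X = p ^ k := exists_orderOf_eq_pow (m := 1)
    (by rw [pow_one]; exact Subtype.ext hxp)
  have hYp : ∃ k, orderOf Y = p ^ k := exists_orderOf_eq_pow (m := 1)
    (by rw [pow_one]; exact Subtype.ext hg)
  have hOd : ¬ p ∣ Nat.card O := Constrained.pPrimeCore_not_dvd
  -- the image of `x` lies in the `p`-core
  obtain ⟨kX, hkX⟩ := hXp
  obtain ⟨S, hS⟩ := (TwoGenSolv82.isPGroup_zpowers hkX).exists_le_sylow
  have hXS : X ∈ (S : Subgroup H) := hS (Subgroup.mem_zpowers X)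
  have hcomm : ∀ (T : Sylow p H) (a b : H), a ∈ (T : Subgroup H) → b ∈ (T : Subgroup H) →
      IsConj w (a : G) → Commute a b := fun T a b ha hb hwa =>
    Subtype.ext (h.commute_of_isPGroup (T.2.map H.subtype) hw hwa ⟨a, ha, rfl⟩ ⟨b, hb, rfl⟩).eq
  have hXU : π X ∈ pCore p (H ⧸ O) := by
    refine Constrained.centralizer_pCore_quotient_le hsol (Subgroup.mem_centralizer_iff.2 fun y hy => ?_)
    obtain ⟨s, hs, rfl⟩ := TwoGenSolv82.pCore_le_map_sylow S hy
    exact ((hcomm S X s hXS hs hx).map π).eq.symm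
  -- it is central
  have hXY : Commute (π X) (π Y) := by
    obtain ⟨k, hk⟩ := hYp
    obtain ⟨T, hT⟩ := (TwoGenSolv82.isPGroup_zpowers hk).exists_le_sylow
    obtain ⟨s, hs, hsX⟩ := TwoGenSolv82.pCore_le_map_sylow T hXU
    obtain ⟨i, hi⟩ := TwoGenSolv82.orderOf_eq_pow_of_mem T.2 hs
    obtain ⟨m, hm⟩ := TwoGenSolv82.isConj_of_mk_eq hOd hkX hi hsX.symm
    have hws : IsConj w (s : G) := hx.trans (isConj_iff.2 ⟨(m : G), congrArg Subtype.val hm⟩)
    have := (hcomm T s Y hs (hT (Subgroup.mem_zpowers Y)) hws).map π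
    rwa [hsX] at this
  -- the quotient is elementary abelian
  have key : ∀ a : H, π a ∈ Subgroup.closure ({π X, π Y} : Set (H ⧸ O)) := by
    intro a
    have h1 : Subgroup.closure ({X, Y} : Set H) = ⊤ := by
      refine Subgroup.map_injective H.subtype_injective ?_
      rw [MonoidHom.map_closure, Set.image_pair, ← MonoidHom.range_eq_map, Subgroup.range_subtype]
      exact hH.symm
    have h2 : π a ∈ (Subgroup.closure ({X, Y} : Set H)).map π := ⟨a, by rw [h1]; trivial, rfl⟩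
    rwa [MonoidHom.map_closure, Set.image_pair] at h2
  intro a
  have hcl : IsMulCommutative (Subgroup.closure ({π X, π Y} : Set (H ⧸ O))) := by
    refine Subgroup.isMulCommutative_closure fun a ha b hb => ?_
    rcases ha with rfl | rfl <;> rcases hb with rfl | rfl
    · rfl
    · exact hXY.eq
    · exact hXY.eq.symm
    · rfl
  have hka := key a
  generalize π a = q at hka ⊢
  induction hka using Subgroup.closure_induction with
  | mem z hz =>
    rcases hz with rfl | rfl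
    · rw [← map_pow, show X ^ p = 1 from Subtype.ext hxp, map_one]
    · rw [← map_pow, show Y ^ p = 1 from Subtype.ext hg, map_one]
  | one => exact one_pow p
  | mul z z' hz hz' ih ih' =>
    have : Commute z z' := congrArg Subtype.val (hcl.is_comm.comm ⟨z, hz⟩ ⟨z', hz'⟩)
    rw [this.mul_pow, ih, ih', mul_one]
  | inv z _ ih => rw [inv_pow, ih, inv_one]

/-- The `p`-part of the product of a conjugate of `w ∈ Ω₁(Z(P))` and an element `g` of order `p` is
conjugate to the product of two elements of `P` conjugate to `w` and `g`. -/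
theorem Hyp.pair_product (h : Hyp P) {w x g v : G} (hw : w ∈ zOne P) (hw1 : w ≠ 1)
    (hx : IsConj w x) (hg : g ^ p = 1) (hg1 : g ≠ 1) (hv : IsPPart p (x * g) v) :
    ∃ w₂ ∈ (P : Subgroup G), ∃ g₂ ∈ (P : Subgroup G),
      IsConj w w₂ ∧ IsConj g g₂ ∧ IsConj v (w₂ * g₂) := by
  obtain ⟨c, hc⟩ := isConj_iff.1 hx
  have hxp : x ^ p = 1 := by rw [← hc, conj_pow, hw.2.1, mul_one, mul_inv_cancel]
  have hexp' := h.pow_eq_one_mod_core hw hw1 hx hg hg1
  set H := Subgroup.closure ({x, g} : Set G) with hH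
  have hxH : x ∈ H := Subgroup.subset_closure (Set.mem_insert _ _)
  have hgH : g ∈ H := Subgroup.subset_closure (Set.mem_insert_of_mem _ rfl)
  set O := pPrimeCore p ↥H with hO
  set π := QuotientGroup.mk' O with hπ
  set X : H := ⟨x, hxH⟩ with hX
  set Y : H := ⟨g, hgH⟩ with hY
  obtain ⟨kX, hkX⟩ : ∃ k, orderOf X = p ^ k := exists_orderOf_eq_pow (m := 1)
    (by rw [pow_one]; exact Subtype.ext hxp)
  have hYp : ∃ k, orderOf Y = p ^ k := exists_orderOf_eq_pow (m := 1)
    (by rw [pow_one]; exact Subtype.ext hg)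
  have hOd : ¬ p ∣ Nat.card O := Constrained.pPrimeCore_not_dvd
  obtain ⟨S, hS⟩ := (TwoGenSolv82.isPGroup_zpowers hkX).exists_le_sylow
  have hXS : X ∈ (S : Subgroup H) := hS (Subgroup.mem_zpowers X)
  have hexp : ∀ a : H, π a ^ p = 1 := hexp'
  have hqp : IsPGroup p (⊤ : Subgroup (H ⧸ O)) := by
    rintro ⟨q, hq⟩
    obtain ⟨a, rfl⟩ := QuotientGroup.mk'_surjective O q
    exact ⟨1, Subtype.ext (by rw [pow_one]; exact hexp a)⟩
  -- the `p`-part
  obtain ⟨a, b, ha, hb, hab, ⟨k, hak⟩, hbp⟩ := Transfer.exists_pPart_decomposition (p := p) (X * Y)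
  have hXYab : x * g = (a : G) * (b : G) := by
    rw [← Subgroup.coe_mul, ← hab]; rfl
  have hva : v = (a : G) := by
    obtain ⟨j, -, hj⟩ := (Nat.dvd_prime_pow hp.out).1 hak
    refine Blocks.isPPart_unique hp.out hv ⟨b, hXYab.symm, ?_, ⟨j, by rw [Subgroup.orderOf_coe, hj]⟩,
      Transfer.not_dvd_of_coprime (by rwa [Subgroup.orderOf_coe])⟩
    obtain ⟨i, rfl⟩ := Subgroup.mem_zpowers_iff.1 ha
    obtain ⟨i', rfl⟩ := Subgroup.mem_zpowers_iff.1 hb
    exact ((Commute.refl (X * Y)).zpow_zpow i i').map H.subtype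
  have hb1 : π b = 1 := by
    refine orderOf_eq_one_iff.1 (Transfer.eq_one_of_coprime_of_dvd_pow (k := 1)
      (Nat.Coprime.coprime_dvd_left (orderOf_map_dvd π b) hbp) ?_)
    rw [pow_one]
    exact orderOf_dvd_of_pow_eq_one (hexp b)
  obtain ⟨s, hs, hsY⟩ : π Y ∈ (S : Subgroup H).map π :=
    IsPGroup.le_sylow_of_normal hqp (S.mapSurjective (QuotientGroup.mk'_surjective O))
      (Subgroup.mem_top _)
  obtain ⟨i, hi⟩ := TwoGenSolv82.orderOf_eq_pow_of_mem S.2 hs
  obtain ⟨kY, hkY⟩ := hYp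
  obtain ⟨m, hm⟩ := TwoGenSolv82.isConj_of_mk_eq hOd hkY hi hsY.symm
  obtain ⟨i', hi'⟩ := TwoGenSolv82.orderOf_eq_pow_of_mem S.2 (mul_mem hXS hs)
  obtain ⟨j, -, hj⟩ := (Nat.dvd_prime_pow hp.out).1 hak
  obtain ⟨l, hl⟩ := TwoGenSolv82.isConj_of_mk_eq hOd hj hi' (show π a = π (X * s) by
    rw [map_mul, hsY, ← map_mul, hab, map_mul, hb1, mul_one])
  obtain ⟨Q, hQ⟩ := (S.2.map H.subtype).exists_le_sylow
  obtain ⟨t, ht⟩ := MulAction.exists_smul_eq G Q P
  have hmem : ∀ r ∈ (S : Subgroup H), t * (r : G) * t⁻¹ ∈ (P : Subgroup G) := fun r hr => by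
    rw [← ht, Sylow.coe_subgroup_smul]
    exact ⟨r, hQ ⟨r, hr, rfl⟩, rfl⟩
  refine ⟨t * x * t⁻¹, hmem X hXS, t * (s : G) * t⁻¹, hmem s hs,
    hx.trans (isConj_iff.2 ⟨t, rfl⟩),
    (isConj_iff.2 ⟨(m : G), congrArg Subtype.val hm⟩ : IsConj g (s : G)).trans
      (isConj_iff.2 ⟨t, rfl⟩), ?_⟩
  rw [hva]
  refine (isConj_iff.2 ⟨(l : G), congrArg Subtype.val hl⟩ : IsConj (a : G) (x * (s : G))).trans
    (isConj_iff.2 ⟨t, ?_⟩)
  group

/-- If `g` has order `p` and `x` is conjugate to `w ∈ Ω₁(Z(P))`, then for odd `p` one of `x * g`,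
`x * g⁻¹` is singular. -/
theorem Hyp.not_regular_both (h : Hyp P) (hp2 : p ≠ 2) {w x g : G} (hw : w ∈ zOne P) (hw1 : w ≠ 1)
    (hx : IsConj w x) (hg : g ^ p = 1) (hg1 : g ≠ 1) (hr : ¬ p ∣ orderOf (x * g)) :
    p ∣ orderOf (x * g⁻¹) := by
  by_contra hr'
  have hexp := h.pow_eq_one_mod_core hw hw1 hx hg hg1
  set H := Subgroup.closure ({x, g} : Set G) with hH
  set O := pPrimeCore p ↥H with hO
  set π := QuotientGroup.mk' O with hπ
  set X : H := ⟨x, Subgroup.subset_closure (Set.mem_insert _ _)⟩ with hX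
  set Y : H := ⟨g, Subgroup.subset_closure (Set.mem_insert_of_mem _ rfl)⟩ with hY
  have key : ∀ a : H, ¬ p ∣ orderOf (a : G) → π a = 1 := fun a ha => by
    refine orderOf_eq_one_iff.1 (Transfer.eq_one_of_coprime_of_dvd_pow (k := 1)
      (Nat.Coprime.coprime_dvd_left (orderOf_map_dvd π a)
        (by rw [← Subgroup.orderOf_coe]; exact Transfer.coprime_of_not_dvd ha)) ?_)
    rw [pow_one]
    exact orderOf_dvd_of_pow_eq_one (hexp a)
  have h1 := key (X * Y) hr
  have h2 := key (X * Y⁻¹) hr'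
  rw [map_mul] at h1
  rw [map_mul, map_inv] at h2
  have h3 : π Y ^ 2 = 1 := by
    rw [mul_inv_eq_one.1 h2] at h1
    rw [pow_two]
    exact h1
  have h4 : π Y = 1 := by
    have hd := Nat.dvd_gcd (orderOf_dvd_of_pow_eq_one h3) (orderOf_dvd_of_pow_eq_one (hexp Y))
    rw [(Nat.coprime_primes Nat.prime_two hp.out).2 (Ne.symm hp2) |>.gcd_eq_one] at hd
    exact orderOf_eq_one_iff.1 (Nat.eq_one_of_dvd_one hd)
  refine hg1 (Transfer.eq_one_of_mem_pGroup_of_coprime
    (P := Subgroup.zpowers g) (p := p) ?_ (Subgroup.mem_zpowers g) ?_)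
  · obtain ⟨k, hk⟩ := exists_orderOf_eq_pow (a := g) (m := 1) (by rwa [pow_one])
    exact TwoGenSolv82.isPGroup_zpowers hk
  · exact Nat.Coprime.coprime_dvd_left (by
      rw [show g = ((Y : H) : G) from rfl, Subgroup.orderOf_coe]
      exact Subgroup.orderOf_dvd_natCard _ ((QuotientGroup.eq_one_iff Y).1 h4))
      (Transfer.coprime_of_not_dvd Constrained.pPrimeCore_not_dvd)

end CfsgLib.SzPairs46
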